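import Cfsg.Agent.Lib.ClassicalForms.Ortho.Index
import Cfsg.Agent.Lib.ClassicalForms.Ortho.Generation

/-!
The space `W × P × W'` of a quadratic form with Witt index at least `m`: Levi elements, the swap and the radicals.
-/

set_option autoImplicit false
set_option linter.unusedSectionVars false

namespace CfsgLib.OreOrth.Minus

open QuadraticMap Matrix CfsgLib.ClassicalForms

variable {F : Type*} [Field F] {P : Type*} [AddCommGroup P] [Module F P] {m : ℕ}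

/-- The space `W × P × W'`. -/
abbrev Sp (F : Type*) (m : ℕ) (P : Type*) := (Fin m → F) × P × (Fin m → F)

/-- The identification with `H^m × P`. -/
def toH : Sp F m P ≃ₗ[F] ((Fin m ⊕ Fin m → F) × P) where
  toFun x := (Sum.elim x.1 x.2.2, x.2.1)
  invFun y := (y.1 ∘ Sum.inl, y.2, y.1 ∘ Sum.inr)
  map_add' x y := Prod.ext (funext fun i => by cases i <;> rfl) rfl
  map_smul' c x := Prod.ext (funext fun i => by cases i <;> rfl) rfl
  left_inv x := rfl
  right_inv y := Prod.ext (Sum.elim_comp_inl_inr y.1) rfl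

/-- The form `e ⬝ f + Q₀ p`. -/
def form (m : ℕ) (Q₀ : QuadraticForm F P) : QuadraticForm F (Sp F m P) :=
  (qH m Q₀).comp (toH (F := F) (P := P) (m := m)).toLinearMap

variable {Q₀ : QuadraticForm F P}

theorem form_apply (x : Sp F m P) : form m Q₀ x = x.1 ⬝ᵥ x.2.2 + Q₀ x.2.1 := by
  show qH m Q₀ (toH x) = _
  rw [qH_apply, qPlus_apply]
  rfl

theorem polar_form (x y : Sp F m P) :
    polar (form m Q₀) x y = x.1 ⬝ᵥ y.2.2 + y.1 ⬝ᵥ x.2.2 + polar Q₀ x.2.1 y.2.1 := by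
  simp only [polar, form_apply, Prod.fst_add, Prod.snd_add, add_dotProduct, dotProduct_add]
  ring

theorem nondeg_form (h : Nondeg Q₀) : Nondeg (form m Q₀) :=
  (nondeg_qH h m).congr toH.symm fun y => by
    show qH m Q₀ (toH (toH.symm y)) = _
    rw [LinearEquiv.apply_symm_apply]

/-- `(e, 0, 0)`. -/
abbrev eW (e : Fin m → F) : Sp F m P := (e, 0, 0)

/-- `(0, p, 0)`. -/
abbrev eP (p : P) : Sp F m P := (0, p, 0)

/-- `(0, 0, f)`. -/
abbrev eF (f : Fin m → F) : Sp F m P := (0, 0, f)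

theorem split3 (x : Sp F m P) : x = eW x.1 + eP x.2.1 + eF x.2.2 := by
  simp [eW, eP, eF]

/-- The linear map of a Levi element. -/
def levEquiv (A : GL (Fin m) F) (R : orth Q₀) : Sp F m P ≃ₗ[F] Sp F m P where
  toFun x := ((A : Matrix (Fin m) (Fin m) F) *ᵥ x.1, (R : P ≃ₗ[F] P) x.2.1,
    ((A⁻¹ : GL (Fin m) F) : Matrix (Fin m) (Fin m) F)ᵀ *ᵥ x.2.2)
  invFun x := (((A⁻¹ : GL (Fin m) F) : Matrix (Fin m) (Fin m) F) *ᵥ x.1, (R : P ≃ₗ[F] P).symm x.2.1,
    (A : Matrix (Fin m) (Fin m) F)ᵀ *ᵥ x.2.2)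
  map_add' x y := by simp [mulVec_add]
  map_smul' c x := by simp [mulVec_smul]
  left_inv x := by
    simp only [LinearEquiv.symm_apply_apply, mulVec_mulVec, ← transpose_mul, A.inv_mul, transpose_one,
      one_mulVec]
  right_inv x := by
    simp only [LinearEquiv.apply_symm_apply, mulVec_mulVec, ← transpose_mul, A.mul_inv, transpose_one,
      one_mulVec]

theorem mulVec_dotProduct_inv (A : GL (Fin m) F) (e f : Fin m → F) :
    ((A : Matrix (Fin m) (Fin m) F) *ᵥ e) ⬝ᵥ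
      (((A⁻¹ : GL (Fin m) F) : Matrix (Fin m) (Fin m) F)ᵀ *ᵥ f) = e ⬝ᵥ f := by
  rw [mulVec_transpose, dotProduct_comm, ← dotProduct_mulVec, mulVec_mulVec, A.inv_mul, one_mulVec,
    dotProduct_comm]

/-- Levi elements. -/
def lev : GL (Fin m) F × orth Q₀ →* orth (form m Q₀) where
  toFun d := ⟨levEquiv d.1 d.2, fun x => by
    rw [form_apply, form_apply]
    show ((d.1 : Matrix (Fin m) (Fin m) F) *ᵥ x.1) ⬝ᵥ
      (((d.1⁻¹ : GL (Fin m) F) : Matrix (Fin m) (Fin m) F)ᵀ *ᵥ x.2.2) + Q₀ ((d.2 : P ≃ₗ[F] P) x.2.1) = _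
    rw [mulVec_dotProduct_inv, orth_apply]⟩
  map_one' := orth_ext fun x => by
    show levEquiv 1 1 x = x
    simp [levEquiv]
  map_mul' d d' := orth_ext fun x => by
    show levEquiv (d.1 * d'.1) (d.2 * d'.2) x = levEquiv d.1 d.2 (levEquiv d'.1 d'.2 x)
    simp [levEquiv, _root_.mul_inv_rev, transpose_mul, mulVec_mulVec, orth_mul_apply]

theorem lev_apply (d : GL (Fin m) F × orth Q₀) (x : Sp F m P) :
    (lev d : Sp F m P ≃ₗ[F] Sp F m P) x = ((d.1 : Matrix (Fin m) (Fin m) F) *ᵥ x.1,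
      (d.2 : P ≃ₗ[F] P) x.2.1, ((d.1⁻¹ : GL (Fin m) F) : Matrix (Fin m) (Fin m) F)ᵀ *ᵥ x.2.2) :=
  rfl

/-- The swap of `W` and `W'`. -/
def swap : orth (form m Q₀) :=
  ⟨{ toFun := fun x => (x.2.2, x.2.1, x.1)
     invFun := fun x => (x.2.2, x.2.1, x.1)
     map_add' := fun _ _ => rfl
     map_smul' := fun _ _ => rfl
     left_inv := fun _ => rfl
     right_inv := fun _ => rfl }, fun x => by
    rw [form_apply, form_apply]
    show x.2.2 ⬝ᵥ x.1 + Q₀ x.2.1 = _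
    rw [dotProduct_comm]⟩

theorem swap_apply (x : Sp F m P) :
    ((swap : orth (form m Q₀)) : Sp F m P ≃ₗ[F] Sp F m P) x = (x.2.2, x.2.1, x.1) := rfl

theorem swap_mul_swap : (swap : orth (form m Q₀)) * swap = 1 := orth_ext fun _ => rfl

/-- The inverse transpose. -/
def invT (A : GL (Fin m) F) : GL (Fin m) F where
  val := ((A⁻¹ : GL (Fin m) F) : Matrix (Fin m) (Fin m) F)ᵀ
  inv := (A : Matrix (Fin m) (Fin m) F)ᵀ
  val_inv := by rw [← transpose_mul, A.mul_inv, transpose_one]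
  inv_val := by rw [← transpose_mul, A.inv_mul, transpose_one]

theorem swap_lev (A : GL (Fin m) F) (R : orth Q₀) :
    (swap : orth (form m Q₀)) * lev (A, R) = lev (invT A, R) * swap :=
  orth_ext fun x => by
    simp only [orth_mul_apply, swap_apply, lev_apply, invT, Units.inv_mk, transpose_transpose]

/-- An isometry fixing `W` pointwise preserves the third coordinate. -/
theorem thd_eq {k : orth (form m Q₀)} (hk : ∀ e, (k : Sp F m P ≃ₗ[F] Sp F m P) (eW e) = eW e)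
    (x : Sp F m P) : ((k : Sp F m P ≃ₗ[F] Sp F m P) x).2.2 = x.2.2 := by
  refine dotProduct_eq _ _ fun w => ?_
  have h := polar_apply k (eW w) x
  rw [hk, polar_form, polar_form] at h
  simpa [eW, dotProduct_comm w] using h

/-- The radical of the stabiliser of `W`. -/
def up (m : ℕ) (Q₀ : QuadraticForm F P) : Subgroup (orth (form m Q₀)) where
  carrier := {k | (∀ e, (k : Sp F m P ≃ₗ[F] Sp F m P) (eW e) = eW e) ∧
    ∀ p, ((k : Sp F m P ≃ₗ[F] Sp F m P) (eP p)).2.1 = p}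
  one_mem' := ⟨fun _ => rfl, fun _ => rfl⟩
  mul_mem' {k k'} hk hk' := by
    refine ⟨fun e => by rw [orth_mul_apply, hk'.1, hk.1], fun p => ?_⟩
    rw [orth_mul_apply]
    have h2 := hk'.2 p
    have h3 := thd_eq hk'.1 (eP p)
    set y := (k' : Sp F m P ≃ₗ[F] Sp F m P) (eP p)
    have hy : y = eW y.1 + eP p := Prod.ext (by simp) (Prod.ext (by simp [h2]) (by simp [h3]))
    rw [hy, map_add, hk.1]
    simp [hk.2 p]
  inv_mem' {k} hk := by
    refine ⟨fun e => ?_, fun p => ?_⟩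
    · conv_lhs => rw [← hk.1 e]
      rw [orth_inv_apply]
    · have h2 := hk.2 p
      have h3 := thd_eq hk.1 (eP p)
      set y := (k : Sp F m P ≃ₗ[F] Sp F m P) (eP p)
      have hy : (k : Sp F m P ≃ₗ[F] Sp F m P) (eP p - eW y.1) = eP p := by
        rw [map_sub, hk.1]
        exact Prod.ext (by simp [y]) (Prod.ext (by simp [h2, y]) (by simp [h3, y]))
      conv_lhs => rw [← hy, orth_inv_apply]
      simp

theorem up_fix {k : orth (form m Q₀)} (hk : k ∈ up m Q₀) (e : Fin m → F) :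
    (k : Sp F m P ≃ₗ[F] Sp F m P) (eW e) = eW e := hk.1 e

/-- Two elements of the radical with the same values on `W'` are equal. -/
theorem up_ext {k k' : orth (form m Q₀)} (hk : k ∈ up m Q₀) (hk' : k' ∈ up m Q₀)
    (h : ∀ f, (k : Sp F m P ≃ₗ[F] Sp F m P) (eF f) = (k' : Sp F m P ≃ₗ[F] Sp F m P) (eF f)) :
    k = k' := by
  refine orth_ext fun x => ?_
  conv_lhs => rw [split3 x]
  conv_rhs => rw [split3 x]
  rw [map_add, map_add, map_add, map_add, hk.1, hk'.1, h]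
  congr 2
  refine Prod.ext ?_ (Prod.ext ((hk.2 _).trans (hk'.2 _).symm) ((thd_eq hk.1 _).trans (thd_eq hk'.1 _).symm))
  refine dotProduct_eq _ _ fun w => ?_
  have h1 := polar_apply k (eP x.2.1) (eF w)
  have h2 := polar_apply k' (eP x.2.1) (eF w)
  rw [polar_form, polar_form] at h1 h2
  rw [hk.2, thd_eq hk.1, thd_eq hk.1] at h1
  rw [hk'.2, thd_eq hk'.1, thd_eq hk'.1, ← h] at h2
  simp [eP, eF] at h1 h2
  linear_combination h1 - h2

/-- The coefficients of `p` in the radical element attached to `s`. -/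
def beta (Q₀ : QuadraticForm F P) (s : (Fin m → F) →ₗ[F] P) (p : P) : Fin m → F :=
  fun i => polar Q₀ p (s (Pi.single i 1))

theorem beta_dotProduct (s : (Fin m → F) →ₗ[F] P) (p : P) (f : Fin m → F) :
    beta Q₀ s p ⬝ᵥ f = polar Q₀ p (s f) := by
  conv_rhs => rw [pi_eq_sum_univ' f]
  rw [show polar Q₀ p = ⇑(QuadraticMap.polarBilin Q₀ p) from rfl, map_sum, map_sum]
  simp [beta, dotProduct, mul_comm]

theorem beta_add (s : (Fin m → F) →ₗ[F] P) (p p' : P) :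
    beta Q₀ s (p + p') = beta Q₀ s p + beta Q₀ s p' := funext fun i => polar_add_left _ _ _ _

theorem beta_smul (s : (Fin m → F) →ₗ[F] P) (c : F) (p : P) :
    beta Q₀ s (c • p) = c • beta Q₀ s p := funext fun i => polar_smul_left _ _ _ _

theorem beta_zero (s : (Fin m → F) →ₗ[F] P) : beta Q₀ s 0 = 0 := funext fun i => polar_zero_left _ _

/-- The linear map of the radical element `(s, X)`. -/
def upMap (Q₀ : QuadraticForm F P) (s : (Fin m → F) →ₗ[F] P) (X : Matrix (Fin m) (Fin m) F) :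
    Sp F m P →ₗ[F] Sp F m P where
  toFun x := (x.1 + X *ᵥ x.2.2 - beta Q₀ s x.2.1, x.2.1 + s x.2.2, x.2.2)
  map_add' x y := by
    refine Prod.ext ?_ (Prod.ext ?_ rfl) <;>
      simp only [Prod.fst_add, Prod.snd_add, mulVec_add, map_add, beta_add] <;> abel
  map_smul' c x := by
    simp [mulVec_smul, beta_smul, smul_add, smul_sub]

variable [FiniteDimensional F P]

/-- The radical element `(s, X)`. -/
noncomputable def upEl (s : (Fin m → F) →ₗ[F] P) (X : Matrix (Fin m) (Fin m) F)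
    (hX : ∀ f, f ⬝ᵥ (X *ᵥ f) = -Q₀ (s f)) : orth (form m Q₀) :=
  ⟨LinearEquiv.ofInjectiveEndo (upMap Q₀ s X) (by
      rw [injective_iff_map_eq_zero]
      rintro ⟨e, p, f⟩ h
      simp only [upMap, LinearMap.coe_mk, AddHom.coe_mk, Prod.mk_eq_zero] at h
      obtain ⟨h1, h2, rfl⟩ := h
      rw [map_zero, add_zero] at h2
      subst h2
      rw [mulVec_zero, add_zero, beta_zero, sub_zero] at h1
      simp [h1]), fun x => by
    rw [LinearEquiv.coe_ofInjectiveEndo, form_apply, form_apply]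
    show (x.1 + X *ᵥ x.2.2 - beta Q₀ s x.2.1) ⬝ᵥ x.2.2 + Q₀ (x.2.1 + s x.2.2) = _
    rw [sub_dotProduct, add_dotProduct, beta_dotProduct, dotProduct_comm (X *ᵥ x.2.2), hX,
      QuadraticMap.map_add ⇑Q₀]
    ring⟩

theorem upEl_apply (s : (Fin m → F) →ₗ[F] P) (X : Matrix (Fin m) (Fin m) F)
    (hX : ∀ f, f ⬝ᵥ (X *ᵥ f) = -Q₀ (s f)) (x : Sp F m P) :
    (upEl s X hX : Sp F m P ≃ₗ[F] Sp F m P) x
      = (x.1 + X *ᵥ x.2.2 - beta Q₀ s x.2.1, x.2.1 + s x.2.2, x.2.2) := by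
  simp only [upEl, LinearEquiv.coe_ofInjectiveEndo]
  rfl

theorem upEl_mem (s : (Fin m → F) →ₗ[F] P) (X : Matrix (Fin m) (Fin m) F)
    (hX : ∀ f, f ⬝ᵥ (X *ᵥ f) = -Q₀ (s f)) : upEl s X hX ∈ up m Q₀ :=
  ⟨fun e => by simp [upEl_apply, beta_zero], fun p => by simp [upEl_apply]⟩

/-- Every element of the radical is of the form `(s, X)`. -/
theorem exists_upEl {k : orth (form m Q₀)} (hk : k ∈ up m Q₀) :
    ∃ s X, ∃ hX : ∀ f, f ⬝ᵥ (X *ᵥ f) = -Q₀ (s f), k = upEl s X hX := by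
  let kl : Sp F m P →ₗ[F] Sp F m P := (k : Sp F m P ≃ₗ[F] Sp F m P).toLinearMap
  let j : (Fin m → F) →ₗ[F] Sp F m P := LinearMap.inr F (Fin m → F) (P × (Fin m → F)) ∘ₗ
    LinearMap.inr F P (Fin m → F)
  let s : (Fin m → F) →ₗ[F] P := LinearMap.fst F P (Fin m → F) ∘ₗ
    LinearMap.snd F (Fin m → F) (P × (Fin m → F)) ∘ₗ kl ∘ₗ j
  let X : Matrix (Fin m) (Fin m) F :=
    LinearMap.toMatrix' (LinearMap.fst F (Fin m → F) (P × (Fin m → F)) ∘ₗ kl ∘ₗ j)
  have hXv : ∀ f, X *ᵥ f = ((k : Sp F m P ≃ₗ[F] Sp F m P) (eF f)).1 := fun f => by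
    rw [← Matrix.toLin'_apply, Matrix.toLin'_toMatrix']
    rfl
  have hs : ∀ f, s f = ((k : Sp F m P ≃ₗ[F] Sp F m P) (eF f)).2.1 := fun f => rfl
  have hX : ∀ f, f ⬝ᵥ (X *ᵥ f) = -Q₀ (s f) := by
    intro f
    have h := orth_apply k (eF f)
    rw [form_apply, form_apply, thd_eq hk.1] at h
    rw [hXv, hs, dotProduct_comm]
    simp [eF] at h
    linear_combination h
  refine ⟨s, X, hX, up_ext hk (upEl_mem s X hX) fun f => ?_⟩
  rw [upEl_apply]
  refine Prod.ext ?_ (Prod.ext ?_ (thd_eq hk.1 _))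
  · simp [eF, beta_zero, hXv]
  · simp [eF, hs]

/-- The radical of the stabiliser of `W'`. -/
def low (m : ℕ) (Q₀ : QuadraticForm F P) : Subgroup (orth (form m Q₀)) where
  carrier := {k | swap * k * swap ∈ up m Q₀}
  one_mem' := by simp [swap_mul_swap]
  mul_mem' {k k'} hk hk' := by
    have : swap * (k * k') * swap = (swap * k * swap) * (swap * k' * swap : orth (form m Q₀)) := by
      simp only [mul_assoc]
      rw [← mul_assoc (swap : orth (form m Q₀)) swap, swap_mul_swap, one_mul]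
    show swap * (k * k') * swap ∈ up m Q₀
    rw [this]
    exact mul_mem hk hk'
  inv_mem' {k} hk := by
    have hs : (swap : orth (form m Q₀))⁻¹ = swap := inv_eq_of_mul_eq_one_right swap_mul_swap
    show swap * k⁻¹ * swap ∈ up m Q₀
    have : swap * k⁻¹ * swap = (swap * k * swap : orth (form m Q₀))⁻¹ := by
      simp [_root_.mul_inv_rev, hs, mul_assoc]
    rw [this]
    exact inv_mem hk

/-- The element `(s, X)` of the radical of the stabiliser of `W'`. -/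
noncomputable def lowEl (s : (Fin m → F) →ₗ[F] P) (X : Matrix (Fin m) (Fin m) F)
    (hX : ∀ f, f ⬝ᵥ (X *ᵥ f) = -Q₀ (s f)) : orth (form m Q₀) :=
  swap * upEl s X hX * swap

theorem lowEl_apply (s : (Fin m → F) →ₗ[F] P) (X : Matrix (Fin m) (Fin m) F)
    (hX : ∀ f, f ⬝ᵥ (X *ᵥ f) = -Q₀ (s f)) (x : Sp F m P) :
    (lowEl s X hX : Sp F m P ≃ₗ[F] Sp F m P) x
      = (x.1, x.2.1 + s x.1, x.2.2 + X *ᵥ x.1 - beta Q₀ s x.2.1) := by
  simp [lowEl, orth_mul_apply, swap_apply, upEl_apply]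

theorem lowEl_mem (s : (Fin m → F) →ₗ[F] P) (X : Matrix (Fin m) (Fin m) F)
    (hX : ∀ f, f ⬝ᵥ (X *ᵥ f) = -Q₀ (s f)) : lowEl s X hX ∈ low m Q₀ := by
  show swap * (swap * upEl s X hX * swap) * swap ∈ up m Q₀
  rw [← mul_assoc, ← mul_assoc, swap_mul_swap, one_mul, mul_assoc, swap_mul_swap, mul_one]
  exact upEl_mem s X hX

/-- The block `W → W` of an isometry. -/
noncomputable def blockA (g : orth (form m Q₀)) : Matrix (Fin m) (Fin m) F :=
  LinearMap.toMatrix' (LinearMap.fst F (Fin m → F) (P × (Fin m → F)) ∘ₗ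
    (g : Sp F m P ≃ₗ[F] Sp F m P).toLinearMap ∘ₗ LinearMap.inl F (Fin m → F) (P × (Fin m → F)))

theorem blockA_mulVec (g : orth (form m Q₀)) (e : Fin m → F) :
    blockA g *ᵥ e = ((g : Sp F m P ≃ₗ[F] Sp F m P) (eW e)).1 := by
  rw [← Matrix.toLin'_apply, blockA, Matrix.toLin'_toMatrix']
  rfl

/-- An isometry with invertible block `W → W` is lower times Levi times upper. -/
theorem exists_ldu (hQ : Nondeg Q₀) (g : orth (form m Q₀)) (A : GL (Fin m) F)
    (hA : ∀ e, ((g : Sp F m P ≃ₗ[F] Sp F m P) (eW e)).1 = (A : Matrix (Fin m) (Fin m) F) *ᵥ e) :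
    ∃ s X, ∃ hX : ∀ f, f ⬝ᵥ (X *ᵥ f) = -Q₀ (s f), ∃ R : orth Q₀, ∃ u ∈ up m Q₀,
      g = lowEl s X hX * lev (A, R) * u ∧
        ∀ e, s ((A : Matrix (Fin m) (Fin m) F) *ᵥ e) = ((g : Sp F m P ≃ₗ[F] Sp F m P) (eW e)).2.1 := by
  let A' : Matrix (Fin m) (Fin m) F := ((A⁻¹ : GL (Fin m) F) : Matrix (Fin m) (Fin m) F)
  let gl : Sp F m P →ₗ[F] Sp F m P := (g : Sp F m P ≃ₗ[F] Sp F m P).toLinearMap
  let i : (Fin m → F) →ₗ[F] Sp F m P :=
    LinearMap.inl F (Fin m → F) (P × (Fin m → F)) ∘ₗ Matrix.toLin' A'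
  let s : (Fin m → F) →ₗ[F] P := LinearMap.fst F P (Fin m → F) ∘ₗ
    LinearMap.snd F (Fin m → F) (P × (Fin m → F)) ∘ₗ gl ∘ₗ i
  let X : Matrix (Fin m) (Fin m) F := LinearMap.toMatrix' (LinearMap.snd F P (Fin m → F) ∘ₗ
    LinearMap.snd F (Fin m → F) (P × (Fin m → F)) ∘ₗ gl ∘ₗ i)
  have hs : ∀ f, s f = ((g : Sp F m P ≃ₗ[F] Sp F m P) (eW (A' *ᵥ f))).2.1 := fun f => rfl
  have hXv : ∀ f, X *ᵥ f = ((g : Sp F m P ≃ₗ[F] Sp F m P) (eW (A' *ᵥ f))).2.2 := fun f => by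
    rw [← Matrix.toLin'_apply, Matrix.toLin'_toMatrix']
    rfl
  have hX : ∀ f, f ⬝ᵥ (X *ᵥ f) = -Q₀ (s f) := by
    intro f
    have h := orth_apply g (eW (A' *ᵥ f))
    rw [form_apply, form_apply, hA, mulVec_mulVec, A.mul_inv, one_mulVec] at h
    rw [hXv, hs]
    simp [eW] at h
    linear_combination h
  have hk1 : ∀ e, (((lowEl s X hX)⁻¹ * g : orth (form m Q₀)) : Sp F m P ≃ₗ[F] Sp F m P) (eW e)
      = eW ((A : Matrix (Fin m) (Fin m) F) *ᵥ e) := by
    intro e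
    have : (g : Sp F m P ≃ₗ[F] Sp F m P) (eW e) =
        (lowEl s X hX : Sp F m P ≃ₗ[F] Sp F m P) (eW ((A : Matrix (Fin m) (Fin m) F) *ᵥ e)) := by
      rw [lowEl_apply]
      simp only [eW, beta_zero, zero_add, sub_zero, hs, hXv, A', mulVec_mulVec, A.inv_mul, one_mulVec]
      exact Prod.ext (hA e) rfl
    rw [orth_mul_apply, this, orth_inv_apply]
  set k : orth (form m Q₀) := (lev (A, 1))⁻¹ * (lowEl s X hX)⁻¹ * g with hkd
  have hk : ∀ e, (k : Sp F m P ≃ₗ[F] Sp F m P) (eW e) = eW e := by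
    intro e
    rw [hkd, mul_assoc, orth_mul_apply, hk1, ← map_inv, lev_apply]
    simp [eW, mulVec_mulVec]
  let Rl : P →ₗ[F] P := LinearMap.fst F P (Fin m → F) ∘ₗ LinearMap.snd F (Fin m → F) (P × (Fin m → F)) ∘ₗ
    (k : Sp F m P ≃ₗ[F] Sp F m P).toLinearMap ∘ₗ LinearMap.inr F (Fin m → F) (P × (Fin m → F)) ∘ₗ
      LinearMap.inl F P (Fin m → F)
  have hR : ∀ p, Rl p = ((k : Sp F m P ≃ₗ[F] Sp F m P) (eP p)).2.1 := fun p => rfl
  have hRQ : ∀ p, Q₀ (Rl p) = Q₀ p := fun p => by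
    have h := orth_apply k (eP p)
    rw [form_apply, form_apply, thd_eq hk] at h
    rw [hR]
    simpa [eP] using h
  have hinj : Function.Injective Rl := by
    rw [injective_iff_map_eq_zero]
    intro x hx
    refine hQ x fun y => ?_
    have : polar Q₀ (Rl x) (Rl y) = polar Q₀ x y := by simp [polar, ← map_add, hRQ]
    rw [← this, hx, polar_zero_left]
  let R : orth Q₀ := ⟨LinearEquiv.ofInjectiveEndo Rl hinj, fun p => by
    rw [LinearEquiv.coe_ofInjectiveEndo]; exact hRQ p⟩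
  have hRa : ∀ p, (R : P ≃ₗ[F] P) p = Rl p := fun p => by
    show LinearEquiv.ofInjectiveEndo Rl hinj p = _
    rw [LinearEquiv.coe_ofInjectiveEndo]
  refine ⟨s, X, hX, R, (lev (1, R))⁻¹ * k, ?_, ?_, fun e => ?_⟩
  · refine ⟨fun e => ?_, fun p => ?_⟩
    · rw [orth_mul_apply, hk, ← map_inv, lev_apply]
      simp [eW]
    · rw [orth_mul_apply, ← map_inv, lev_apply, ← hR, ← hRa]
      exact orth_inv_apply R p
  · rw [hkd, show lev (A, R) = lev (A, 1) * lev (m := m) (1, R) by rw [← map_mul]; simp]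
    group
  · rw [hs, mulVec_mulVec, A.inv_mul, one_mulVec]

end CfsgLib.OreOrth.Minus
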