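import Cfsg.Agent.Lib.OreOrth.Basic
import Cfsg.Agent.Lib.OreOrth.Minus.Space
import Cfsg.Agent.Lib.ClassicalLinear.Generation

/-!
An element lower times Levi times upper is a commutator of elements of the commutator subgroup as soon as the
Levi part is trivial on `P` and the inverse of its block on `W` is good.
-/

set_option autoImplicit false
set_option linter.unusedSectionVars false

namespace CfsgLib.OreOrth.Minus

open QuadraticMap Matrix CfsgLib.ClassicalForms

variable {F : Type*} [Field F] {P : Type*} [AddCommGroup P] [Module F P] {m : ℕ}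
  {Q₀ : QuadraticForm F P}

/-- A homomorphism maps the commutator subgroup into the commutator subgroup. -/
theorem map_mem_commutator {G H : Type*} [Group G] [Group H] (φ : G →* H) {x : G}
    (hx : x ∈ commutator G) : φ x ∈ commutator H := by
  have h : (commutator G).map φ ≤ commutator H := by
    rw [commutator_def, Subgroup.map_commutator, commutator_def]
    exact Subgroup.commutator_mono le_top le_top
  exact h ⟨x, hx, rfl⟩

/-- A commutator lies in the commutator subgroup. -/
theorem commutator_mem {G : Type*} [Group G] (x y : G) : x * y * x⁻¹ * y⁻¹ ∈ commutator G := by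
  rw [← commutatorElement_def, commutator_def]
  exact Subgroup.commutator_mem_commutator (Subgroup.mem_top x) (Subgroup.mem_top y)

/-- Levi elements trivial on `W` from the commutator subgroup of `orth Q₀`. -/
theorem mid_mem {R : orth Q₀} (hR : R ∈ commutator (orth Q₀)) :
    lev (m := m) (1, R) ∈ commutator (orth (form m Q₀)) :=
  map_mem_commutator ((lev (m := m)).comp (MonoidHom.inr (GL (Fin m) F) (orth Q₀))) hR

/-- Levi elements of square determinant. -/
theorem lev_mem (hm : 3 ≤ m) (A : GL (Fin m) F) (hA : IsSquare (A : Matrix (Fin m) (Fin m) F).det) :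
    lev (A, (1 : orth Q₀)) ∈ commutator (orth (form m Q₀)) := by
  obtain ⟨c, hc⟩ := hA
  have hdet : (A : Matrix (Fin m) (Fin m) F).det ≠ 0 := (Matrix.GeneralLinearGroup.det A).ne_zero
  have hc0 : c ≠ 0 := fun h => hdet (by rw [hc, h, zero_mul])
  haveI : NeZero m := ⟨by omega⟩
  let d : Fin m → F := fun i => if i = 0 then c else 1
  have hd : ∀ i, d i ≠ 0 := fun i => by simp only [d]; split_ifs <;> simp [hc0]
  let C : GL (Fin m) F :=
    ⟨diagonal d, diagonal fun i => (d i)⁻¹, by simp [diagonal_mul_diagonal, mul_inv_cancel₀ (hd _)],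
      by simp [diagonal_mul_diagonal, inv_mul_cancel₀ (hd _)]⟩
  have hC : (C * C : GL (Fin m) F) = C * invT C⁻¹ :=
    Units.ext (by simp [C, invT, Units.inv_mk, diagonal_transpose])
  have h1 : lev (C * C, (1 : orth Q₀)) ∈ commutator (orth (form m Q₀)) := by
    have e1 : (swap : orth (form m Q₀)) * lev (C⁻¹, (1 : orth Q₀)) = lev (invT C⁻¹, 1) * swap :=
      swap_lev C⁻¹ 1
    have e2 : lev (C * C, (1 : orth Q₀)) =
        lev (C, (1 : orth Q₀)) * swap * (lev (C, (1 : orth Q₀)))⁻¹ * (swap : orth (form m Q₀))⁻¹ := by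
      have e3 : (lev (C, (1 : orth Q₀)) : orth (form m Q₀))⁻¹ = lev (C⁻¹, 1) := by
        rw [← map_inv]; exact congrArg _ (Prod.ext rfl inv_one)
      have e4 : lev (C * C, (1 : orth Q₀)) =
          (lev (C, (1 : orth Q₀)) : orth (form m Q₀)) * lev (invT C⁻¹, 1) := by
        rw [← map_mul, hC]; exact congrArg _ (Prod.ext rfl (mul_one 1).symm)
      rw [e3, mul_assoc (lev (C, (1 : orth Q₀))) swap, e1, e4]
      group
    rw [e2]
    exact commutator_mem _ _
  have hS : (((C * C)⁻¹ * A : GL (Fin m) F) : Matrix (Fin m) (Fin m) F).det = 1 := by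
    have hCC : ((C * C : GL (Fin m) F) : Matrix (Fin m) (Fin m) F).det = c * c := by
      rw [Units.val_mul, det_mul, det_diagonal, Finset.prod_eq_single (0 : Fin m)
        (fun i _ hi => by simp [d, hi]) (by simp)]
      simp [d]
    have h := congrArg Matrix.det (congrArg Units.val (mul_inv_cancel_left (C * C) A))
    rw [Units.val_mul, det_mul, hCC, hc] at h
    exact mul_left_cancel₀ (mul_ne_zero hc0 hc0) (h.trans (mul_one _).symm)
  let φ : Matrix.SpecialLinearGroup (Fin m) F →* orth (form m Q₀) :=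
    ((lev (m := m)).comp (MonoidHom.inl (GL (Fin m) F) (orth Q₀))).comp Matrix.SpecialLinearGroup.toGL
  have h2 : lev ((C * C)⁻¹ * A, (1 : orth Q₀)) ∈ commutator (orth (form m Q₀)) := by
    have := map_mem_commutator φ (x := ⟨_, hS⟩) (by
      rw [CfsgLib.ClassicalLinear.commutator_sl_eq_top (Or.inl (by rwa [Fintype.card_fin]))]
      exact Subgroup.mem_top _)
    convert this using 1
    show _ = lev (_, (1 : orth Q₀))
    congr 2
    exact Units.ext rfl
  have := mul_mem h1 h2
  rwa [← map_mul, Prod.mk_mul_mk, mul_inv_cancel_left, mul_one] at this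

/-- Alternating from the quadratic condition. -/
theorem alternating_of_quad {X : Matrix (Fin m) (Fin m) F} (h : ∀ f, f ⬝ᵥ (X *ᵥ f) = 0) :
    (∀ i, X i i = 0) ∧ Xᵀ = -X := by
  have hd : ∀ i, X i i = 0 := fun i => by simpa using h (Pi.single i 1)
  refine ⟨hd, ?_⟩
  ext i j
  have := h (Pi.single i 1 + Pi.single j 1)
  simp [mulVec_add, add_dotProduct, dotProduct_add, hd] at this
  simp only [transpose_apply, Matrix.neg_apply]
  linear_combination this

/-- The admissible actions of `r` on `P`. -/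
def RCond (Q₀ : QuadraticForm F P) (r : orth Q₀) : Prop :=
  ((2 : F) ≠ 0 ∧ r = 1) ∨ ((2 : F) = 0 ∧ ∀ v, (r : P ≃ₗ[F] P) v = v → v = 0)

/-- The conditions on `M` making `lev (M, r)` fixed-point-free on the radical. -/
def MCond (M : GL (Fin m) F) : Prop :=
  OreOrth.Fpf (M : Matrix (Fin m) (Fin m) F) ∧ ((2 : F) ≠ 0 → OreOrth.NoOne (M : Matrix (Fin m) (Fin m) F))

variable [FiniteDimensional F P]

/-- The only element of the radical commuting with `lev (M, r)` is trivial. -/
theorem eq_one_of_commute (hP : Module.finrank F P = 2) (hQ : Nondeg Q₀)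
    (haniso : ∀ p, Q₀ p = 0 → p = 0) {M : GL (Fin m) F} (hM : MCond M) {r : orth Q₀} (hr : RCond Q₀ r)
    {k : orth (form m Q₀)} (hk : k ∈ up m Q₀) (hc : k * lev (M, r) = lev (M, r) * k) : k = 1 := by
  obtain ⟨s, X, hX, rfl⟩ := exists_upEl hk
  set Mm : Matrix (Fin m) (Fin m) F := (M : Matrix (Fin m) (Fin m) F) with hMm
  have e : ∀ g, X *ᵥ g = Mm *ᵥ (X *ᵥ (Mmᵀ *ᵥ g)) ∧ s g = (r : P ≃ₗ[F] P) (s (Mmᵀ *ᵥ g)) := by
    intro g
    have h := congrArg (fun x : orth (form m Q₀) => (x : Sp F m P ≃ₗ[F] Sp F m P) (eF (Mmᵀ *ᵥ g))) hc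
    simp only [orth_mul_apply, lev_apply, upEl_apply, mulVec_zero, map_zero, beta_zero, zero_add,
      sub_zero, mulVec_mulVec, hMm, ← transpose_mul, M.mul_inv, transpose_one, one_mulVec,
      Prod.mk.injEq] at h
    exact ⟨h.1.trans (by rw [mulVec_mulVec, mulVec_mulVec, mul_assoc]), h.2.1⟩
  have hs : s = 0 := by
    rcases hr with ⟨h2, rfl⟩ | ⟨h2, hfix⟩
    · refine LinearMap.ext fun g => hQ _ fun p => ?_
      have hb : Mm *ᵥ beta Q₀ s p = beta Q₀ s p := by
        refine dotProduct_eq _ _ fun f => ?_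
        rw [beta_dotProduct, dotProduct_comm, dotProduct_mulVec, ← mulVec_transpose, dotProduct_comm,
          beta_dotProduct]
        exact congrArg _ (e f).2.symm
      rw [polar_comm, ← beta_dotProduct, (hM.2 h2) _ hb, zero_dotProduct]
    · haveI : CharP F 2 := CharTwo.of_one_ne_zero_of_two_eq_zero one_ne_zero h2
      let Z : Matrix (Fin m) (Fin m) F := fun i j => polar Q₀ (s (Pi.single i 1)) (s (Pi.single j 1))
      have hZ : ∀ g g', g ⬝ᵥ (Z *ᵥ g') = polar Q₀ (s g) (s g') := by
        intro g g'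
        rw [polar_comm, ← beta_dotProduct, dotProduct_comm]
        congr 1
        refine funext fun i => ?_
        rw [show (Z *ᵥ g') i = beta Q₀ s (s (Pi.single i 1)) ⬝ᵥ g' from rfl, beta_dotProduct]
        show _ = polar Q₀ (s g') _
        rw [polar_comm]
      have hfixZ : Mm * Z * Mmᵀ = Z := by
        have hall : ∀ g g', g ⬝ᵥ ((Mm * Z * Mmᵀ) *ᵥ g') = g ⬝ᵥ (Z *ᵥ g') := by
          intro g g'
          rw [← mulVec_mulVec, ← mulVec_mulVec, dotProduct_mulVec, ← mulVec_transpose, hZ, hZ]
          conv_rhs => rw [(e g).2, (e g').2, polar_apply]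
        ext i j
        simpa using hall (Pi.single i 1) (Pi.single j 1)
      have hZ0 : Z = 0 := hM.1 Z (fun i => by
          show polar Q₀ _ _ = 0
          rw [polar_self, two_nsmul, CharTwo.add_self_eq_zero])
        (by
          ext i j
          show polar Q₀ _ _ = -polar Q₀ _ _
          rw [CharTwo.neg_eq]; exact polar_comm _ _ _)
        hfixZ
      refine LinearMap.ext fun g => ?_
      by_contra hv
      rw [LinearMap.zero_apply] at hv
      set v := s g with hvd
      set v' := s (Mmᵀ *ᵥ g) with hv'd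
      have hvv : polar Q₀ v v' = 0 := by rw [hvd, hv'd, ← hZ, hZ0, zero_mulVec, dotProduct_zero]
      have hli : ¬ LinearIndependent F ![v, v'] := by
        intro hli
        refine hv (hQ v fun y => ?_)
        have hsp := hli.span_eq_top_of_card_eq_finrank (by simp [hP])
        have hy : y ∈ Submodule.span F ({v, v'} : Set P) := by
          rw [← show Set.range ![v, v'] = {v, v'} by simp [Matrix.range_cons, Matrix.range_empty,
            Set.pair_comm], hsp]
          exact Submodule.mem_top
        obtain ⟨c, c', rfl⟩ := Submodule.mem_span_pair.1 hy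
        simp [polar_add_right, polar_smul_right, hvv, h2]
      rw [LinearIndependent.pair_iff' hv] at hli
      simp only [not_forall, not_not] at hli
      obtain ⟨t, ht⟩ := hli
      have hrv : v = t • (r : P ≃ₗ[F] P) v := by rw [← map_smul, ht]; exact (e g).2
      have hQv : Q₀ v ≠ 0 := fun h => hv (haniso v h)
      have ht2 : t * t = 1 := by
        have h := congrArg Q₀ hrv
        rw [QuadraticMap.map_smul, orth_apply, smul_eq_mul] at h
        exact mul_right_cancel₀ hQv (h.symm.trans (one_mul _).symm)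
      rcases mul_self_eq_one_iff.1 ht2 with rfl | rfl
      · exact hv (hfix v (by rw [one_smul] at hrv; exact hrv.symm))
      · rw [CharTwo.neg_eq] at hrv
        exact hv (hfix v (by rw [one_smul] at hrv; exact hrv.symm))
  subst hs
  have hX0 : ∀ f, f ⬝ᵥ (X *ᵥ f) = 0 := fun f => by rw [hX f]; simp
  obtain ⟨hd, hsk⟩ := alternating_of_quad hX0
  have hXz : X = 0 := hM.1 X hd hsk (by
    refine Matrix.ext_iff_mulVec.2 fun g => ?_
    rw [← mulVec_mulVec, ← mulVec_mulVec]
    exact ((e g).1).symm)
  subst hXz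
  exact up_ext (upEl_mem _ _ _) (one_mem _) fun f => by simp [upEl_apply, orth_one_apply, beta_zero]

/-- A finite subgroup normalised by `H` consists of commutators with `H` if `H` centralises none of it. -/
theorem exists_commutator_preimage {G : Type*} [Group G] (S : Subgroup G) [Finite S] (H : G)
    (hn : ∀ u ∈ S, H * u * H⁻¹ ∈ S) (hc : ∀ u ∈ S, u * H = H * u → u = 1) {w : G} (hw : w ∈ S) :
    ∃ u ∈ S, u * H * u⁻¹ * H⁻¹ = w := by
  let f : S → S := fun u => ⟨(u : G) * H * (u : G)⁻¹ * H⁻¹, by
    have := mul_mem u.2 (hn _ (inv_mem u.2))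
    simpa [mul_assoc] using this⟩
  have hinj : Function.Injective f := fun u v h => by
    have h' := congrArg Subtype.val h
    simp only [f, mul_left_inj] at h'
    have : (v : G)⁻¹ * u = 1 := hc _ (mul_mem (inv_mem v.2) u.2) (by
      have h'' := congrArg (fun x => (v : G)⁻¹ * x * u) h'
      simpa [mul_assoc] using h'')
    exact Subtype.ext (inv_mul_eq_one.1 this).symm
  obtain ⟨u, hu⟩ := Finite.injective_iff_surjective.1 hinj ⟨w, hw⟩
  exact ⟨u, u.2, congrArg Subtype.val hu⟩

theorem lev_eW (d : GL (Fin m) F × orth Q₀) (e : Fin m → F) :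
    (lev d : Sp F m P ≃ₗ[F] Sp F m P) (eW e) = eW ((d.1 : Matrix (Fin m) (Fin m) F) *ᵥ e) := by
  simp [lev_apply, eW]

theorem lev_eP (d : GL (Fin m) F × orth Q₀) (p : P) :
    (lev d : Sp F m P ≃ₗ[F] Sp F m P) (eP p) = eP ((d.2 : P ≃ₗ[F] P) p) := by
  simp [lev_apply, eP]

/-- Levi elements normalise the radical. -/
theorem lev_conj_up {d : GL (Fin m) F × orth Q₀} {k : orth (form m Q₀)} (hk : k ∈ up m Q₀) :
    lev d * k * (lev d)⁻¹ ∈ up m Q₀ := by
  refine ⟨fun e => ?_, fun p => ?_⟩
  · rw [orth_mul_apply, orth_mul_apply, ← map_inv, lev_eW, up_fix hk, lev_eW, mulVec_mulVec,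
      Prod.fst_inv, d.1.mul_inv, one_mulVec]
  · rw [orth_mul_apply, orth_mul_apply, ← map_inv, lev_eP, lev_apply]
    show (d.2 : P ≃ₗ[F] P) _ = p
    rw [hk.2]
    exact orth_apply_inv d.2 p

theorem swap_conj_lev_low {d : GL (Fin m) F × orth Q₀} {k : orth (form m Q₀)} (hk : k ∈ low m Q₀) :
    lev d * k * (lev d)⁻¹ ∈ low m Q₀ := by
  show swap * (lev d * k * (lev d)⁻¹) * swap ∈ up m Q₀
  obtain ⟨A, R⟩ := d
  have h1 : (swap : orth (form m Q₀)) * lev (A, R) * swap = lev (invT A, R) := by
    rw [swap_lev, mul_assoc, swap_mul_swap, mul_one]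
  have hs : (swap : orth (form m Q₀))⁻¹ = swap := inv_eq_of_mul_eq_one_right swap_mul_swap
  have : swap * (lev (A, R) * k * (lev (A, R))⁻¹) * swap =
      lev (invT A, R) * (swap * k * swap) * (lev (invT A, R))⁻¹ := by
    rw [← h1]
    simp only [_root_.mul_inv_rev, hs, mul_assoc]
    rw [← mul_assoc (swap : orth (form m Q₀)) swap, swap_mul_swap, one_mul,
      ← mul_assoc (swap : orth (form m Q₀)) swap, swap_mul_swap, one_mul]
  rw [this]
  exact lev_conj_up hk

variable [Finite F]

instance : Finite (orth (form m Q₀)) := by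
  have : Finite P := Module.finite_of_finite F
  have : Finite (Sp F m P ≃ₗ[F] Sp F m P) := DFunLike.finite _
  exact Subtype.finite

/-- Lower times a Levi element trivial on `P` times upper is a commutator. -/
theorem exists_comm_of_form (hP : Module.finrank F P = 2) (hQ : Nondeg Q₀)
    (haniso : ∀ p, Q₀ p = 0 → p = 0) (hm : 3 ≤ m) {r : orth Q₀} (hr : RCond Q₀ r)
    (hrm : r ∈ commutator (orth Q₀)) {A : GL (Fin m) F}
    (hA : OreOrth.Good ((A⁻¹ : GL (Fin m) F) : Matrix (Fin m) (Fin m) F))
    {l u : orth (form m Q₀)} (hl : l ∈ low m Q₀) (hu : u ∈ up m Q₀) :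
    ∃ x ∈ commutator (orth (form m Q₀)), ∃ y ∈ commutator (orth (form m Q₀)),
      l * lev (A, 1) * u = x * y * x⁻¹ * y⁻¹ := by
  obtain ⟨b, h, hbh, hb, hh, h1, h2, h3⟩ := hA
  have hbh' : A = h * b * h⁻¹ * b⁻¹ := by
    have : A⁻¹ = b * h * b⁻¹ * h⁻¹ := Units.ext hbh
    rw [← inv_inv A, this]; group
  have hMup : MCond h := ⟨h1, fun t => (h3 t).1⟩
  have hMlow : MCond (invT h) := by
    refine ⟨fun X hd hs hX => h2 X hd hs ?_, fun t v hv => (h3 t).2 v ?_⟩
    · have e := congrArg (fun Y => (h : Matrix (Fin m) (Fin m) F)ᵀ * Y * (h : Matrix (Fin m) (Fin m) F)) hX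
      simp only [invT, transpose_transpose] at e
      rw [← mul_assoc, ← mul_assoc, ← transpose_mul, h.inv_mul, transpose_one, one_mul, mul_assoc,
        h.inv_mul, mul_one] at e
      rw [transpose_transpose]
      exact e.symm
    · have e := congrArg (fun w => (h : Matrix (Fin m) (Fin m) F)ᵀ *ᵥ w) hv
      simp only [invT, mulVec_mulVec, ← transpose_mul, h.inv_mul, transpose_one, one_mulVec] at e
      exact e.symm
  set H : orth (form m Q₀) := lev (h, r) with hH
  set B : orth (form m Q₀) := lev (b, 1) with hB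
  have hHm : H ∈ commutator (orth (form m Q₀)) := by
    rw [hH, show (h, r) = ((h, 1) : GL (Fin m) F × orth Q₀) * (1, r) by simp, map_mul]
    exact mul_mem (lev_mem hm h hh) (mid_mem hrm)
  have hBm : B ∈ commutator (orth (form m Q₀)) := lev_mem hm b hb
  have hupc : ∀ k ∈ up m Q₀, k * H = H * k → k = 1 := fun k hk hc =>
    eq_one_of_commute hP hQ haniso hMup hr hk hc
  have hlowc : ∀ k ∈ low m Q₀, k * H = H * k → k = 1 := fun k hk hc => by
    have h1 : swap * k * swap = (1 : orth (form m Q₀)) := by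
      refine eq_one_of_commute hP hQ haniso hMlow hr hk ?_
      have hsw : (swap : orth (form m Q₀)) * H * swap = lev (invT h, r) := by
        rw [hH, swap_lev, mul_assoc, swap_mul_swap, mul_one]
      rw [← hsw]
      calc swap * k * swap * (swap * H * swap) = swap * (k * H) * swap := by
            simp only [mul_assoc]; rw [← mul_assoc (swap : orth (form m Q₀)) swap, swap_mul_swap, one_mul]
        _ = swap * H * swap * (swap * k * swap) := by
            rw [hc]; simp only [mul_assoc]
            rw [← mul_assoc (swap : orth (form m Q₀)) swap (k * _), swap_mul_swap, one_mul]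
    calc k = swap * (swap * k * swap) * (swap : orth (form m Q₀)) := by
          simp only [mul_assoc, swap_mul_swap, mul_one]
          rw [← mul_assoc, swap_mul_swap, one_mul]
      _ = 1 := by rw [h1, mul_one, swap_mul_swap]
  obtain ⟨x, hx, hxe⟩ := exists_commutator_preimage (low m Q₀) H (fun k hk => swap_conj_lev_low hk) hlowc hl
  have hw : (B⁻¹ * u * B)⁻¹ ∈ up m Q₀ := by
    refine inv_mem ?_
    have := lev_conj_up (d := ((b⁻¹, 1) : GL (Fin m) F × orth Q₀)) hu
    rwa [show ((b⁻¹, 1) : GL (Fin m) F × orth Q₀) = (b, 1)⁻¹ by simp, map_inv, inv_inv, ← hB] at this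
  obtain ⟨y, hy, hye⟩ := exists_commutator_preimage (up m Q₀) H (fun k hk => lev_conj_up hk) hupc hw
  have hxm : x ∈ commutator (orth (form m Q₀)) := by
    obtain ⟨x', -, hx'⟩ := exists_commutator_preimage (low m Q₀) H (fun k hk => swap_conj_lev_low hk) hlowc hx
    rw [← hx']; exact commutator_mem _ _
  have hym : y ∈ commutator (orth (form m Q₀)) := by
    obtain ⟨y', -, hy'⟩ := exists_commutator_preimage (up m Q₀) H (fun k hk => lev_conj_up hk) hupc hy
    rw [← hy']; exact commutator_mem _ _
  refine ⟨x * H * x⁻¹, mul_mem (mul_mem hxm hHm) (inv_mem hxm), B * y * x⁻¹,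
    mul_mem (mul_mem hBm hym) (inv_mem hxm), ?_⟩
  have hA' : lev (A, (1 : orth Q₀)) = H * B * H⁻¹ * B⁻¹ := by
    rw [hH, hB, ← map_inv, ← map_inv, ← map_mul, ← map_mul, ← map_mul]
    congr 1
    simp [hbh']
  have hu' : u = B * (H * y * H⁻¹ * y⁻¹) * B⁻¹ := by
    have : H * y * H⁻¹ * y⁻¹ = B⁻¹ * u * B := by
      rw [← inv_inv (B⁻¹ * u * B), ← hye]; group
    rw [this]; group
  rw [hA', hu', ← hxe]
  group

end CfsgLib.OreOrth.Minus
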