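import Cfsg.Agent.Lib.OreOrth.Minus.Main
import Cfsg.Agent.Lib.OreOrth.GoodTwo
import Cfsg.Agent.Lib.OreOrth.GoodFour
import Cfsg.Agent.Lib.OreOrth.GoodFive

/-!
The good Levi elements needed for the minus type, from the cases of the field order.
-/

set_option autoImplicit false

namespace CfsgLib.OreOrth.Minus

open Matrix

/-- The hypothesis on Levi elements, given the case of three field elements. -/
theorem goodHyp_of_three {F : Type*} [Field F] [Fintype F] {m : ℕ} (hm : 3 ≤ m)
    (h3 : Fintype.card F = 3 → ∀ A : Matrix (Fin m) (Fin m) F, A.det = 1 → (m = 4 → A ≠ -1) →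
      CfsgLib.OreOrth.Good A) : GoodHyp F m := by
  intro A hdet hns hne htv
  have hcard : 2 ≤ Fintype.card F := Fintype.one_lt_card
  by_cases h4 : 4 ≤ Fintype.card F
  · by_cases h5 : Fintype.card F = 5 ∧ Even m
    · exact good_of_five h5.1 (by have := h5.2; rcases this with ⟨k, hk⟩; omega) h5.2 A hdet (hns h4)
    · refine good_of_four h4 hm ?_ A hdet (hns h4)
      rcases not_and_or.1 h5 with h | h
      · exact Or.inl h
      · exact Or.inr (Nat.not_even_iff_odd.1 h)
  by_cases hq : Fintype.card F = 3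
  · exact h3 hq A hdet (hne hq)
  have h2 : Fintype.card F = 2 := by omega
  rcases Nat.lt_or_ge 3 m with hm4 | hm3
  · exact good_of_two h2 hm4 A hdet
  obtain rfl : m = 3 := by omega
  refine good_of_two_three h2 A hdet fun u v hA => ?_
  by_contra h1
  have hu : u ≠ 0 := fun h => h1 (by rw [hA, h, zero_vecMulVec, add_zero])
  have hv : v ≠ 0 := fun h => h1 (by rw [hA, h, vecMulVec_zero, add_zero])
  refine htv h2 rfl ⟨u, v, hu, hv, ?_, fun e => ?_⟩
  · have hd : A.det = 1 + v ⬝ᵥ u := by
      rw [hA, vecMulVec_eq Unit, Matrix.det_one_add_replicateCol_mul_replicateRow]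
    linear_combination hdet - hd
  · rw [hA, add_mulVec, one_mulVec, vecMulVec_mulVec]
    simp

end CfsgLib.OreOrth.Minus
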