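import Cfsg.Agent.Lib.OreOrth.Minus.Blocks
import Cfsg.Agent.Lib.ClassicalForms.Ortho.Values
import Cfsg.Agent.Lib.ClassicalForms.Ortho.POmegaCard
import Cfsg.Agent.Lib.Forms.NegOne
import Cfsg.Agent.Lib.Classes.QuadSpace

/-!
Minus the identity as a commutator in the commutator subgroup of the orthogonal group of minus type.
-/

set_option autoImplicit false
set_option linter.unusedSectionVars false

namespace CfsgLib.OreOrth.Minus

open QuadraticMap Matrix Module CfsgLib.ClassicalForms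

section Refl

variable {F V : Type*} [Field F] [AddCommGroup V] [Module F V] {Q : QuadraticForm F V}

theorem map_sub_orth {a b : V} (h : polar Q a b = 0) : Q (a - b) = Q a + Q b := by
  rw [map_sub_eq, h, sub_zero]

theorem refl_sub_apply {a b : V} (hab : polar Q a b = 0) (hQ : Q b = Q a) (h0 : Q (a - b) ≠ 0) :
    (refl Q (a - b) h0 : V ≃ₗ[F] V) a = b := by
  have hp : polar Q a (a - b) = Q (a - b) := by
    rw [polar_sub_right, hab, polar_self_mul, map_sub_orth hab, hQ]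
    ring
  rw [refl_apply, hp, inv_mul_cancel₀ h0, one_smul, sub_sub_cancel]

theorem refl_sub_apply' {a b : V} (hab : polar Q a b = 0) (hQ : Q b = Q a) (h0 : Q (a - b) ≠ 0) :
    (refl Q (a - b) h0 : V ≃ₗ[F] V) b = a := by
  have h := congrArg (fun g : orth Q => (g : V ≃ₗ[F] V) a) (refl_mul_self (a - b) h0)
  simp only [orth_mul_apply, refl_sub_apply hab hQ h0, orth_one_apply] at h
  exact h

theorem refl_sub_fix {a b x : V} (ha : polar Q x a = 0) (hb : polar Q x b = 0)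
    (h0 : Q (a - b) ≠ 0) : (refl Q (a - b) h0 : V ≃ₗ[F] V) x = x :=
  refl_fix h0 (by rw [polar_sub_right, ha, hb, sub_zero])

theorem commute_refl {L : orth Q} {a : V} (ha : Q a ≠ 0) (hL : (L : V ≃ₗ[F] V) a = a) :
    Commute L (refl Q a ha) := by
  have h : L * refl Q a ha * L⁻¹ = refl Q a ha := by rw [conj_refl, refl_congr hL]
  rw [mul_inv_eq_iff_eq_mul] at h
  exact h

variable [Finite F] [FiniteDimensional F V]

theorem refl_mul_mem (hQ : Nondeg Q) (hn : 5 ≤ finrank F V) {a b : V} (ha : Q a ≠ 0) (hb : Q b ≠ 0)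
    (h : IsSquare (Q a * (Q b)⁻¹)) : refl Q a ha * refl Q b hb ∈ commutator (orth Q) := by
  have h' := siegelGroup_le_commutator hQ hn (refl_div_mem_siegelGroup hQ hn ha hb h)
  rwa [refl_inv] at h'

/-- Two anticommuting products of four reflections on the span of six orthogonal vectors. -/
theorem exists_six (hQ : Nondeg Q) (hn : 5 ≤ finrank F V) (h2 : (2 : F) ≠ 0) {e₁ e₂ e₃ e₄ z w : V}
    (q1 : Q e₁ = 1) (q2 : Q e₂ = 2) (q3 : Q e₃ = 1) (q4 : Q e₄ = 2) (qz : Q z = 1) (qw : Q w = 1)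
    (p12 : polar Q e₁ e₂ = 0) (p13 : polar Q e₁ e₃ = 0) (p14 : polar Q e₁ e₄ = 0)
    (p1z : polar Q e₁ z = 0) (p1w : polar Q e₁ w = 0) (p23 : polar Q e₂ e₃ = 0)
    (p24 : polar Q e₂ e₄ = 0) (p2z : polar Q e₂ z = 0) (p2w : polar Q e₂ w = 0)
    (p34 : polar Q e₃ e₄ = 0) (p3z : polar Q e₃ z = 0) (p3w : polar Q e₃ w = 0)
    (p4z : polar Q e₄ z = 0) (p4w : polar Q e₄ w = 0) (pzw : polar Q z w = 0) :
    ∃ h ∈ commutator (orth Q), ∃ b ∈ commutator (orth Q),
      (∀ v ∈ Submodule.span F {e₁, e₂, e₃, e₄, z, w},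
        ((h * b * h⁻¹ * b⁻¹ : orth Q) : V ≃ₗ[F] V) v = -v) ∧
      (∀ r, polar Q r e₁ = 0 → polar Q r e₂ = 0 → polar Q r e₃ = 0 → polar Q r e₄ = 0 →
        polar Q r z = 0 → polar Q r w = 0 →
        ((h * b * h⁻¹ * b⁻¹ : orth Q) : V ≃ₗ[F] V) r = r) ∧
      (∀ L : orth Q, (L : V ≃ₗ[F] V) e₁ = e₁ → (L : V ≃ₗ[F] V) e₂ = e₂ →
        (L : V ≃ₗ[F] V) e₃ = e₃ → (L : V ≃ₗ[F] V) e₄ = e₄ → (L : V ≃ₗ[F] V) z = z →
        (L : V ≃ₗ[F] V) w = w → Commute L h ∧ Commute L b) := by
  have h4 : (4 : F) ≠ 0 := fun h => mul_ne_zero h2 h2 (by linear_combination h)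
  have v13 : Q (e₁ - e₃) = 2 := by rw [map_sub_orth p13, q1, q3]; norm_num
  have v24 : Q (e₂ - e₄) = 4 := by rw [map_sub_orth p24, q2, q4]; norm_num
  have vzw : Q (z - w) = 2 := by rw [map_sub_orth pzw, qz, qw]; norm_num
  have n3 : Q e₃ ≠ 0 := by rw [q3]; exact one_ne_zero
  have n4 : Q e₄ ≠ 0 := by rw [q4]; exact h2
  have nz : Q z ≠ 0 := by rw [qz]; exact one_ne_zero
  have nw : Q w ≠ 0 := by rw [qw]; exact one_ne_zero
  have n13 : Q (e₁ - e₃) ≠ 0 := by rw [v13]; exact h2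
  have n24 : Q (e₂ - e₄) ≠ 0 := by rw [v24]; exact h4
  have nzw : Q (z - w) ≠ 0 := by rw [vzw]; exact h2
  set h : orth Q := (refl Q e₃ n3 * refl Q z nz) * (refl Q e₄ n4 * refl Q (z - w) nzw) with hh
  set b : orth Q := (refl Q (e₁ - e₃) n13 * refl Q e₄ n4) * (refl Q (e₂ - e₄) n24 * refl Q w nw)
    with hb
  have hhm : h ∈ commutator (orth Q) := mul_mem
    (refl_mul_mem hQ hn n3 nz ⟨1, by rw [q3, qz]; simp⟩)
    (refl_mul_mem hQ hn n4 nzw ⟨1, by rw [q4, vzw, mul_inv_cancel₀ h2, mul_one]⟩)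
  have hbm : b ∈ commutator (orth Q) := mul_mem
    (refl_mul_mem hQ hn n13 n4 ⟨1, by rw [v13, q4, mul_inv_cancel₀ h2, mul_one]⟩)
    (refl_mul_mem hQ hn n24 nw ⟨2, by rw [v24, qw]; norm_num⟩)
  have qq : Q e₃ = Q e₁ := q3.trans q1.symm
  have qq' : Q e₄ = Q e₂ := q4.trans q2.symm
  have qq'' : Q w = Q z := qw.trans qz.symm
  have sym : ∀ {x y : V}, polar Q x y = 0 → polar Q y x = 0 := fun hxy => by rw [polar_comm, hxy]
  have H1 : (h : V ≃ₗ[F] V) e₁ = e₁ := by
    simp only [hh, orth_mul_apply]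
    rw [refl_sub_fix p1z p1w, refl_fix n4 p14, refl_fix nz p1z, refl_fix n3 p13]
  have H2 : (h : V ≃ₗ[F] V) e₂ = e₂ := by
    simp only [hh, orth_mul_apply]
    rw [refl_sub_fix p2z p2w, refl_fix n4 p24, refl_fix nz p2z, refl_fix n3 p23]
  have H3 : (h : V ≃ₗ[F] V) e₃ = -e₃ := by
    simp only [hh, orth_mul_apply]
    rw [refl_sub_fix p3z p3w, refl_fix n4 p34, refl_fix nz p3z, refl_self e₃ n3]
  have H4 : (h : V ≃ₗ[F] V) e₄ = -e₄ := by
    simp only [hh, orth_mul_apply]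
    rw [refl_sub_fix p4z p4w, refl_self e₄ n4, map_neg, map_neg, refl_fix nz p4z,
      refl_fix n3 (sym p34)]
  have H5 : (h : V ≃ₗ[F] V) z = w := by
    simp only [hh, orth_mul_apply]
    rw [refl_sub_apply pzw qq'', refl_fix n4 (sym p4w), refl_fix nz (sym pzw), refl_fix n3 (sym p3w)]
  have H6 : (h : V ≃ₗ[F] V) w = -z := by
    simp only [hh, orth_mul_apply]
    rw [refl_sub_apply' pzw qq'', refl_fix n4 (sym p4z), refl_self z nz, map_neg,
      refl_fix n3 (sym p3z)]
  have B1 : (b : V ≃ₗ[F] V) e₁ = e₃ := by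
    simp only [hb, orth_mul_apply]
    rw [refl_fix nw p1w, refl_sub_fix p12 p14, refl_fix n4 p14, refl_sub_apply p13 qq]
  have B2 : (b : V ≃ₗ[F] V) e₂ = -e₄ := by
    simp only [hb, orth_mul_apply]
    rw [refl_fix nw p2w, refl_sub_apply p24 qq', refl_self e₄ n4, map_neg,
      refl_sub_fix (sym p14) (sym p34)]
  have B3 : (b : V ≃ₗ[F] V) e₃ = e₁ := by
    simp only [hb, orth_mul_apply]
    rw [refl_fix nw p3w, refl_sub_fix (sym p23) p34, refl_fix n4 p34, refl_sub_apply' p13 qq]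
  have B4 : (b : V ≃ₗ[F] V) e₄ = e₂ := by
    simp only [hb, orth_mul_apply]
    rw [refl_fix nw p4w, refl_sub_apply' p24 qq', refl_fix n4 p24,
      refl_sub_fix (sym p12) p23]
  have B5 : (b : V ≃ₗ[F] V) z = z := by
    simp only [hb, orth_mul_apply]
    rw [refl_fix nw pzw, refl_sub_fix (sym p2z) (sym p4z), refl_fix n4 (sym p4z),
      refl_sub_fix (sym p1z) (sym p3z)]
  have B6 : (b : V ≃ₗ[F] V) w = -w := by
    simp only [hb, orth_mul_apply]
    rw [refl_self w nw, map_neg, map_neg, map_neg, refl_sub_fix (sym p2w) (sym p4w),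
      refl_fix n4 (sym p4w), refl_sub_fix (sym p1w) (sym p3w)]
  set k : orth Q := h * b * h⁻¹ * b⁻¹ with hk
  have hkb : k * (b * h) = h * b := by rw [hk]; group
  have step : ∀ x y : V, (b : V ≃ₗ[F] V) ((h : V ≃ₗ[F] V) x) = y →
      (h : V ≃ₗ[F] V) ((b : V ≃ₗ[F] V) x) = -y → (k : V ≃ₗ[F] V) y = -y := fun x y hy hy' => by
    conv_lhs => rw [← hy]
    rw [← orth_mul_apply, ← orth_mul_apply, mul_assoc, hkb, orth_mul_apply, hy']
  refine ⟨h, hhm, b, hbm, fun v hv => ?_, fun r r1 r2 r3 r4 rz rw' => ?_,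
    fun L L1 L2 L3 L4 Lz Lw => ?_⟩
  · refine Submodule.span_induction (p := fun v _ => (k : V ≃ₗ[F] V) v = -v) ?_ (by simp)
      (fun x y _ _ hx hy => by rw [map_add, hx, hy, neg_add])
      (fun c x _ hx => by rw [map_smul, hx, smul_neg]) hv
    rintro x (rfl | rfl | rfl | rfl | rfl | rfl)
    · exact step (-e₃) x (by simp [H3, B3]) (by simp [B3, H1])
    · exact step (-e₄) x (by simp [H4, B4]) (by simp [B4, H2])
    · exact step e₁ x (by simp [H1, B1]) (by simp [B1, H3])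
    · exact step (-e₂) x (by simp [H2, B2]) (by simp [B2, H4])
    · exact step (-w) x (by simp [H6, B5]) (by simp [B6, H6])
    · exact step (-z) x (by simp [H5, B6]) (by simp [B5, H5])
  · have hr : (h : V ≃ₗ[F] V) r = r := by
      simp only [hh, orth_mul_apply]
      rw [refl_sub_fix rz rw', refl_fix n4 r4, refl_fix nz rz, refl_fix n3 r3]
    have br : (b : V ≃ₗ[F] V) r = r := by
      simp only [hb, orth_mul_apply]
      rw [refl_fix nw rw', refl_sub_fix r2 r4, refl_fix n4 r4, refl_sub_fix r1 r3]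
    have hr' : ((h⁻¹ : orth Q) : V ≃ₗ[F] V) r = r := by
      conv_lhs => rw [← hr]
      exact orth_inv_apply h r
    have br' : ((b⁻¹ : orth Q) : V ≃ₗ[F] V) r = r := by
      conv_lhs => rw [← br]
      exact orth_inv_apply b r
    rw [orth_mul_apply, orth_mul_apply, orth_mul_apply, br', hr', br, hr]
  · exact ⟨((commute_refl n3 L3).mul_right (commute_refl nz Lz)).mul_right
      ((commute_refl n4 L4).mul_right (commute_refl nzw (by rw [map_sub, Lz, Lw]))),
      ((commute_refl n13 (by rw [map_sub, L1, L3])).mul_right (commute_refl n4 L4)).mul_right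
      ((commute_refl n24 (by rw [map_sub, L2, L4])).mul_right (commute_refl nw Lw))⟩

end Refl

theorem commutator_mul_of_commute {G : Type*} [Group G] {L M h b : G} (hLh : Commute L h)
    (hLb : Commute L b) (hMh : Commute M h) (hMb : Commute M b) :
    L * h * (M * b) * (L * h)⁻¹ * (M * b)⁻¹ = L * M * L⁻¹ * M⁻¹ * (h * b * h⁻¹ * b⁻¹) := by
  rw [_root_.mul_inv_rev, _root_.mul_inv_rev]
  calc L * h * (M * b) * (h⁻¹ * L⁻¹) * (b⁻¹ * M⁻¹)
      = L * (h * M) * b * h⁻¹ * (L⁻¹ * b⁻¹) * M⁻¹ := by group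
    _ = L * (M * h) * b * h⁻¹ * (b⁻¹ * L⁻¹) * M⁻¹ := by
        rw [hMh.eq, hLb.inv_inv.eq]
    _ = L * M * ((h * b * h⁻¹ * b⁻¹) * (L⁻¹ * M⁻¹)) := by group
    _ = L * M * ((L⁻¹ * M⁻¹) * (h * b * h⁻¹ * b⁻¹)) := by
        have hk : Commute (L⁻¹ * M⁻¹) (h * b * h⁻¹ * b⁻¹) :=
          ((((hLh.inv_left.mul_left hMh.inv_left).mul_right (hLb.inv_left.mul_left hMb.inv_left)).mul_right
            (hLh.inv_inv.mul_left hMh.inv_inv)).mul_right (hLb.inv_inv.mul_left hMb.inv_inv))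
        rw [hk.eq]
    _ = L * M * L⁻¹ * M⁻¹ * (h * b * h⁻¹ * b⁻¹) := by group

section Block

variable {F : Type*} [Field F] {k m : ℕ}

/-- Block diagonal matrices of determinant one, with blocks of size two. -/
def blk (e : Fin 2 × Fin k ≃ Fin m) :
    (Fin k → SpecialLinearGroup (Fin 2) F) →* SpecialLinearGroup (Fin m) F where
  toFun M := ⟨Matrix.reindexAlgEquiv F F e (blockDiagonal fun j => (M j).1), by
    rw [Matrix.det_reindexAlgEquiv, det_blockDiagonal]
    exact Finset.prod_eq_one fun j _ => (M j).2⟩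
  map_one' := Subtype.ext (by
    show Matrix.reindexAlgEquiv F F e (blockDiagonal 1) = 1
    rw [blockDiagonal_one, map_one])
  map_mul' M N := Subtype.ext (by
    show Matrix.reindexAlgEquiv F F e (blockDiagonal fun j => (M j).1 * (N j).1) =
      Matrix.reindexAlgEquiv F F e (blockDiagonal fun j => (M j).1) *
        Matrix.reindexAlgEquiv F F e (blockDiagonal fun j => (N j).1)
    rw [← map_mul, blockDiagonal_mul])

theorem blk_apply (e : Fin 2 × Fin k ≃ Fin m) (M : Fin k → SpecialLinearGroup (Fin 2) F)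
    (r c : Fin m) : (blk e M).1 r c =
      if (e.symm r).2 = (e.symm c).2 then (M (e.symm r).2).1 (e.symm r).1 (e.symm c).1 else 0 := rfl

theorem blk_mulVec_single (e : Fin 2 × Fin k ≃ Fin m) {M : Fin k → SpecialLinearGroup (Fin 2) F}
    {j : Fin k} (hM : M j = 1) (i : Fin 2) :
    (blk e M).1 *ᵥ Pi.single (e (i, j)) 1 = Pi.single (e (i, j)) 1 ∧
    (blk e M).1ᵀ *ᵥ Pi.single (e (i, j)) 1 = Pi.single (e (i, j)) 1 := by
  constructor <;>
  · funext r
    obtain ⟨⟨i', j'⟩, rfl⟩ := e.surjective r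
    simp only [mulVec_single_one, col_apply, transpose_apply, blk_apply, Equiv.symm_apply_apply,
      Pi.single_apply, e.injective.eq_iff, Prod.mk.injEq]
    by_cases hj : j' = j
    · subst hj
      simp [hM, Matrix.one_apply, eq_comm]
    · simp [hj, Ne.symm hj]

theorem blk_diag (e : Fin 2 × Fin k ≃ Fin m) (d : Fin k → F)
    {M : Fin k → SpecialLinearGroup (Fin 2) F} (hM : ∀ j, (M j).1 = diagonal fun _ => d j) :
    (blk e M).1 = diagonal fun r => d (e.symm r).2 := by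
  ext r c
  obtain ⟨⟨i', j'⟩, rfl⟩ := e.surjective r
  obtain ⟨⟨i, j⟩, rfl⟩ := e.surjective c
  rw [blk_apply, diagonal_apply]
  simp only [Equiv.symm_apply_apply, e.injective.eq_iff, Prod.mk.injEq, hM, diagonal_apply]
  by_cases hj : j' = j <;> by_cases hi : i' = i <;> simp [hi, hj]

variable {P : Type*} [AddCommGroup P] [Module F P] {Q₀ : QuadraticForm F P}

/-- The Levi element of a matrix of determinant one. -/
def levSL (Q₀ : QuadraticForm F P) : SpecialLinearGroup (Fin m) F →* orth (form m Q₀) :=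
  (lev (Q₀ := Q₀)).comp (SpecialLinearGroup.toGL.prod 1)

theorem levSL_apply (S : SpecialLinearGroup (Fin m) F) (x : Sp F m P) :
    (levSL Q₀ S : Sp F m P ≃ₗ[F] Sp F m P) x = (S.1 *ᵥ x.1, x.2.1, (S⁻¹).1ᵀ *ᵥ x.2.2) := by
  rw [levSL, MonoidHom.comp_apply, lev_apply, MonoidHom.prod_apply]
  dsimp only
  rw [← map_inv]
  rfl

theorem levSL_mem_commutator (hm : 3 ≤ m) (S : SpecialLinearGroup (Fin m) F) :
    levSL Q₀ S ∈ commutator (orth (form m Q₀)) :=
  map_mem_commutator _ (by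
    rw [ClassicalLinear.commutator_sl_eq_top (Or.inl (by simpa using hm))]
    exact Subgroup.mem_top _)

end Block

variable {F : Type*} [Field F]

theorem exists_quarter_pair {x y : F} (hxy : x ^ 2 + y ^ 2 = -1) :
    ∃ A B : SpecialLinearGroup (Fin 2) F, (A * B * A⁻¹ * B⁻¹).1 = diagonal fun _ => (-1 : F) := by
  suffices h : ∀ A B : SpecialLinearGroup (Fin 2) F, A.1 = !![0, 1; -1, 0] → B.1 = !![x, y; y, -x] →
      (A * B * A⁻¹ * B⁻¹).1 = diagonal fun _ => (-1 : F) from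
    ⟨⟨!![0, 1; -1, 0], by simp [det_fin_two]⟩, ⟨!![x, y; y, -x], by
      rw [det_fin_two_of]; linear_combination -hxy⟩, h _ _ rfl rfl⟩
  intro A B hA hB
  show A.1 * B.1 * adjugate A.1 * adjugate B.1 = _
  rw [hA, hB, adjugate_fin_two_of, adjugate_fin_two_of]
  ext i j
  fin_cases i <;> fin_cases j <;> simp <;>
    first | ring1 | linear_combination hxy | linear_combination -hxy

/-- Over a field with `q ≡ 3 (mod 4)` an anisotropic `x² + a x y + b y²` has `4 b - a²` a square. -/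
theorem isSquare_of_aniso [Fintype F] (h2 : (2 : F) ≠ 0) (hq : Fintype.card F % 4 = 3) {a b : F}
    (hab : Aniso a b) : IsSquare (4 * b - a ^ 2) := by
  classical
  have hd : ¬IsSquare (a ^ 2 - 4 * b) := by
    rintro ⟨r, hr⟩
    have h := (hab ((-a + r) / 2) 1 (by field_simp; linear_combination -hr)).2
    exact one_ne_zero h
  have hn : ¬IsSquare (-1 : F) := by
    rw [FiniteField.isSquare_neg_one_iff]
    exact fun h => h hq
  have hd0 : a ^ 2 - 4 * b ≠ 0 := fun h => hd (by rw [h]; exact IsSquare.zero)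
  have hc : quadraticChar F (4 * b - a ^ 2) = 1 := by
    rw [show 4 * b - a ^ 2 = (-1) * (a ^ 2 - 4 * b) by ring, map_mul,
      quadraticChar_neg_one_iff_not_isSquare.2 hd, quadraticChar_neg_one_iff_not_isSquare.2 hn]
    norm_num
  exact (quadraticChar_one_iff_isSquare (by
    rw [← neg_sub]; exact neg_ne_zero.2 hd0)).1 hc

theorem mod_four_of_neg_one [Fintype F] {a b : F} (hab : Aniso a b) {m : ℕ} (hm : 2 ≤ m)
    (h2 : (2 : F) ≠ 0) (g : orth (form m (binForm a b)))
    (hg : g ∈ commutator (orth (form m (binForm a b))))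
    (hneg : ∀ v, (g : Sp F m (Fin 2 → F) ≃ₗ[F] Sp F m (Fin 2 → F)) v = -v) :
    Fintype.card F % 4 = 3 ∧ Even m := by
  let e₁ : orth (form m (binForm a b)) →* orth (qH m (binForm a b)) :=
    (orthCongr (toH (F := F) (P := Fin 2 → F) (m := m)) fun _ => rfl).toMonoidHom
  let e₂ : orth (qH m (binForm a b)) →* orth (qMinus m F a b) :=
    (orthCongr (minusEquiv (F := F) m).symm fun x => by
      rw [← qH_minusEquiv, LinearEquiv.apply_symm_apply]).toMonoidHom
  have hmem := map_mem_commutator (e₂.comp e₁) hg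
  have heq : (e₂.comp e₁) g = negI (qMinus m F a b) := orth_ext fun v => by
    show (minusEquiv (F := F) m).symm (toH ((g : Sp F m (Fin 2 → F) ≃ₗ[F] Sp F m (Fin 2 → F))
      (toH.symm (minusEquiv m v)))) = -v
    rw [hneg, map_neg, LinearEquiv.apply_symm_apply, map_neg, LinearEquiv.symm_apply_apply]
  rw [heq, commutator_qMinus hab hm,
    negI_mem_iff h2 (nondeg_qMinus hab m) (by simp; omega) (isGen_qMinus hab m),
    card_one_qMinus hab m] at hmem
  have hodd : Odd (Nat.card F) := card_odd_of_two_ne_zero h2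
  have h := (CfsgLib.Forms.even_half_sphere_iff (q := Nat.card F) (k := m) (s := true) hodd).1
    (by simpa using hmem.2)
  simp only [if_true, Nat.card_eq_fintype_card] at h
  rw [Nat.card_eq_fintype_card] at hodd
  have hq : Fintype.card F % 4 = 3 := by
    have := Nat.odd_iff.1 hodd
    by_contra hc
    rw [Nat.pow_mod, show Fintype.card F % 4 = 1 by omega, one_pow] at h
    omega
  refine ⟨hq, ?_⟩
  rcases Nat.even_or_odd m with he | ⟨t, rfl⟩
  · exact he
  · rw [Nat.pow_mod, hq, show 2 * t + 1 + 1 = 2 * (t + 1) by omega, pow_mul, Nat.pow_mod] at h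
    norm_num at h

set_option maxHeartbeats 1000000 in
/-- Minus the identity is a commutator of elements of the commutator subgroup. -/
theorem exists_comm_neg_one [Fintype F] {a b : F} (hab : Aniso a b) {m : ℕ} (hm : 3 ≤ m)
    (h2 : (2 : F) ≠ 0) (g : orth (form m (binForm a b)))
    (hg : g ∈ commutator (orth (form m (binForm a b))))
    (hneg : ∀ v, (g : Sp F m (Fin 2 → F) ≃ₗ[F] Sp F m (Fin 2 → F)) v = -v) :
    ∃ x ∈ commutator (orth (form m (binForm a b))), ∃ y ∈ commutator (orth (form m (binForm a b))),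
      g = x * y * x⁻¹ * y⁻¹ := by
  classical
  obtain ⟨hq, k, hk⟩ := mod_four_of_neg_one hab (by omega) h2 g hg hneg
  let e : Fin 2 × Fin k ≃ Fin m := finProdFinEquiv.trans (finCongr (by omega))
  let j₀ : Fin k := ⟨0, by omega⟩
  set i₀ : Fin m := e (0, j₀) with hi₀
  set i₁ : Fin m := e (1, j₀) with hi₁
  have hne : i₀ ≠ i₁ := fun h => by simpa using e.injective h
  set s₀ : Fin m → F := Pi.single i₀ 1 with hs₀
  set s₁ : Fin m → F := Pi.single i₁ 1 with hs₁
  -- the six-space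
  obtain ⟨x, y, hxy⟩ := CfsgLib.Classes.exists_sq_add_sq (1 : F) 2 (-1) one_ne_zero h2
  obtain ⟨x', y', hxy'⟩ := CfsgLib.Classes.exists_sq_add_sq (1 : F) 1 (-1) one_ne_zero one_ne_zero
  obtain ⟨d, hd⟩ := isSquare_of_aniso h2 hq hab
  have hd0 : d ≠ 0 := fun h => by
    rw [h, mul_zero] at hd
    have := hab.disc_ne_zero
    exact this (by linear_combination -hd)
  let z : Fin 2 → F := ![1, 0]
  let w : Fin 2 → F := d⁻¹ • ![-a, 2]
  let E₁ : Sp F m (Fin 2 → F) := (s₀, 0, s₀)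
  let E₂ : Sp F m (Fin 2 → F) := (s₁, 0, (2 : F) • s₁)
  let E₃ : Sp F m (Fin 2 → F) := (x • s₀ + y • s₁, 0, -(x • s₀ + (2 * y) • s₁))
  let E₄ : Sp F m (Fin 2 → F) := ((2 * y) • s₀ - x • s₁, 0, -((2 * y) • s₀ - (2 * x) • s₁))
  have q : ∀ v : Sp F m (Fin 2 → F), form m (binForm a b) v = v.1 ⬝ᵥ v.2.2 + binForm a b v.2.1 := form_apply
  have zq : binForm a b z = 1 := by simp [z, binForm_apply]
  have wq : binForm a b w = 1 := by
    simp only [w, binForm_apply, Pi.smul_apply, smul_eq_mul]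
    simp
    field_simp
    linear_combination hd
  have zw : polar (binForm a b) z w = 0 := by
    simp [z, w, polar_binForm]; ring
  obtain ⟨h, hh, b', hb', hneg6, hfix, hcomm⟩ := exists_six (Q := form m (binForm a b))
    (nondeg_form hab.nondeg) (by simp [Sp]; omega) h2
    (e₁ := E₁) (e₂ := E₂) (e₃ := E₃) (e₄ := E₄) (z := eP z) (w := eP w)
    (by simp [q, E₁, hs₀])
    (by simp [q, E₂, hs₁])
    (by simp [q, E₃, hs₀, hs₁, hne, hne.symm]; linear_combination -hxy)
    (by simp [q, E₄, hs₀, hs₁, hne, hne.symm]; linear_combination -2 * hxy)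
    (by simp [q, eP, zq]) (by simp [q, eP, wq])
    (by simp [polar_form, E₁, E₂, hs₀, hs₁, hne, hne.symm])
    (by simp [polar_form, E₁, E₃, hs₀, hs₁, hne, hne.symm])
    (by simp [polar_form, E₁, E₄, hs₀, hs₁, hne, hne.symm])
    (by simp [polar_form, E₁])
    (by simp [polar_form, E₁])
    (by simp [polar_form, E₂, E₃, hs₀, hs₁, hne, hne.symm])
    (by simp [polar_form, E₂, E₄, hs₀, hs₁, hne, hne.symm])
    (by simp [polar_form, E₂, eP])
    (by simp [polar_form, E₂, eP])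
    (by simp [polar_form, E₃, E₄, hs₀, hs₁, hne, hne.symm]; ring)
    (by simp [polar_form, E₃, eP])
    (by simp [polar_form, E₃, eP])
    (by simp [polar_form, E₄, eP])
    (by simp [polar_form, E₄, eP])
    (by simp [polar_form, eP, zw])
  -- the pairs
  obtain ⟨A, B, hAB⟩ := exists_quarter_pair (x := x') (y := y') (by linear_combination hxy')
  let MA : Fin k → SpecialLinearGroup (Fin 2) F := fun j => if j = j₀ then 1 else A
  let MB : Fin k → SpecialLinearGroup (Fin 2) F := fun j => if j = j₀ then 1 else B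
  set L := levSL (binForm a b) (blk e MA) with hL
  set M := levSL (binForm a b) (blk e MB) with hM
  have fix : ∀ N : Fin k → SpecialLinearGroup (Fin 2) F, N j₀ = 1 →
      ∀ (v : Sp F m (Fin 2 → F)) (c₀ c₁ d₀ d₁ : F), v.1 = c₀ • s₀ + c₁ • s₁ → v.2.2 = d₀ • s₀ + d₁ • s₁ →
      (levSL (binForm a b) (blk e N) : Sp F m (Fin 2 → F) ≃ₗ[F] Sp F m (Fin 2 → F)) v = v := by
    intro N hN v c₀ c₁ d₀ d₁ h1 h3
    have hN' : (N⁻¹) j₀ = 1 := by rw [Pi.inv_apply, hN, inv_one]
    rw [levSL_apply, ← map_inv, h1, h3, mulVec_add, mulVec_add, mulVec_smul, mulVec_smul,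
      mulVec_smul, mulVec_smul, (blk_mulVec_single e hN 0).1, (blk_mulVec_single e hN 1).1,
      (blk_mulVec_single e hN' 0).2, (blk_mulVec_single e hN' 1).2]
    exact Prod.ext h1.symm (Prod.ext rfl h3.symm)
  have hLM : ∀ N : Fin k → SpecialLinearGroup (Fin 2) F, N j₀ = 1 →
      Commute (levSL (binForm a b) (blk e N)) h ∧ Commute (levSL (binForm a b) (blk e N)) b' :=
    fun N hN => hcomm _ (fix N hN E₁ 1 0 1 0 (by simp [E₁]) (by simp [E₁]))
      (fix N hN E₂ 0 1 0 2 (by simp [E₂]) (by simp [E₂]))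
      (fix N hN E₃ x y (-x) (-(2 * y)) (by simp [E₃]) (by simp [E₃]; abel))
      (fix N hN E₄ (2 * y) (-x) (-(2 * y)) (2 * x) (by simp [E₄]; abel) (by simp [E₄]; abel))
      (fix N hN (eP z) 0 0 0 0 (by simp [eP]) (by simp [eP]))
      (fix N hN (eP w) 0 0 0 0 (by simp [eP]) (by simp [eP]))
  obtain ⟨cLh, cLb⟩ := hLM MA (if_pos rfl)
  obtain ⟨cMh, cMb⟩ := hLM MB (if_pos rfl)
  refine ⟨L * h, mul_mem (levSL_mem_commutator hm _) hh, M * b',
    mul_mem (levSL_mem_commutator hm _) hb', ?_⟩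
  rw [commutator_mul_of_commute cLh cLb cMh cMb]
  set δ : Fin k → F := fun j => if j = j₀ then 1 else -1 with hδ
  set C := MA * MB * MA⁻¹ * MB⁻¹ with hC
  have hCd : ∀ j, (C j).1 = diagonal fun _ => δ j := fun j => by
    by_cases hj : j = j₀
    · simp [hC, MA, MB, hδ, hj]
    · have : C j = A * B * A⁻¹ * B⁻¹ := by simp [hC, MA, MB, hj]
      rw [this, hAB]
      simp [hδ, hj]
  have hCC : C⁻¹ = C := inv_eq_of_mul_eq_one_right (funext fun j => Subtype.ext (by
    show (C j).1 * (C j).1 = 1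
    rw [hCd, diagonal_mul_diagonal]
    by_cases hj : j = j₀ <;> simp [hδ, hj]))
  have hLC : L * M * L⁻¹ * M⁻¹ = levSL (binForm a b) (blk e C) := by
    simp only [hL, hM, hC, map_mul, map_inv]
  rw [hLC]
  refine orth_ext fun v => ?_
  rw [hneg, orth_mul_apply]
  set S := Submodule.span F {E₁, E₂, E₃, E₄, eP z, eP w}
  let pr : (Fin m → F) → (Fin m → F) := fun f => f i₀ • s₀ + f i₁ • s₁
  set v₆ : Sp F m (Fin 2 → F) := (pr v.1, v.2.1, pr v.2.2) with hv₆
  have m1 : E₁ ∈ S := Submodule.subset_span (by simp)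
  have m2 : E₂ ∈ S := Submodule.subset_span (by simp)
  have m3 : E₃ ∈ S := Submodule.subset_span (by simp)
  have m4 : E₄ ∈ S := Submodule.subset_span (by simp)
  have m5 : eP z ∈ S := Submodule.subset_span (by simp)
  have m6 : eP w ∈ S := Submodule.subset_span (by simp)
  have hu : ((s₀, 0, -s₀) : Sp F m (Fin 2 → F)) ∈ S := by
    have : ((s₀, 0, -s₀) : Sp F m (Fin 2 → F)) = (-x) • E₃ + (-y) • E₄ := by
      refine Prod.ext ?_ (Prod.ext ?_ ?_) <;> simp [E₃, E₄] <;> match_scalars <;>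
        first | ring1 | linear_combination -hxy | linear_combination hxy |
          linear_combination -2 * hxy | linear_combination 2 * hxy
    rw [this]; exact S.add_mem (S.smul_mem _ m3) (S.smul_mem _ m4)
  have hu' : ((s₁, 0, -((2 : F) • s₁)) : Sp F m (Fin 2 → F)) ∈ S := by
    have : ((s₁, 0, -((2 : F) • s₁)) : Sp F m (Fin 2 → F)) = (-(2 * y)) • E₃ + x • E₄ := by
      refine Prod.ext ?_ (Prod.ext ?_ ?_) <;> simp [E₃, E₄] <;> match_scalars <;>
        first | ring1 | linear_combination -hxy | linear_combination hxy |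
          linear_combination -2 * hxy | linear_combination 2 * hxy
    rw [this]; exact S.add_mem (S.smul_mem _ m3) (S.smul_mem _ m4)
  have hv6 : v₆ ∈ S := by
    have : v₆ = ((v.1 i₀ + v.2.2 i₀) / 2) • E₁ + ((v.1 i₀ - v.2.2 i₀) / 2) • (s₀, 0, -s₀)
        + ((2 * v.1 i₁ + v.2.2 i₁) / 4) • E₂ + ((2 * v.1 i₁ - v.2.2 i₁) / 4) • (s₁, 0, -((2 : F) • s₁))
        + (v.2.1 0 + a * v.2.1 1 / 2) • eP z + (d * v.2.1 1 / 2) • eP w := by
      have h4 : (4 : F) ≠ 0 := fun h => mul_ne_zero h2 h2 (by linear_combination h)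
      refine Prod.ext ?_ (Prod.ext ?_ ?_)
      · simp [hv₆, pr, E₁, E₂, eP]
        match_scalars <;> field_simp <;> ring
      · funext i
        fin_cases i <;> simp [hv₆, E₁, E₂, eP, z, w] <;> field_simp <;> ring
      · simp [hv₆, pr, E₁, E₂, eP]
        match_scalars <;> field_simp <;> ring
    rw [this]
    exact S.add_mem (S.add_mem (S.add_mem (S.add_mem (S.add_mem (S.smul_mem _ m1) (S.smul_mem _ hu))
      (S.smul_mem _ m2)) (S.smul_mem _ hu')) (S.smul_mem _ m5)) (S.smul_mem _ m6)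
  have hsplit : v = v₆ + (v - v₆) := by abel
  have hkv : ((h * b' * h⁻¹ * b'⁻¹ : orth (form m (binForm a b))) : Sp F m (Fin 2 → F) ≃ₗ[F] Sp F m (Fin 2 → F)) v
      = v - (2 : F) • v₆ := by
    conv_lhs => rw [hsplit, map_add, hneg6 v₆ hv6]
    rw [hfix (v - v₆)]
    · rw [two_smul]; abel
    all_goals
      simp [polar_form, hv₆, pr, E₁, E₂, E₃, E₄, eP, hs₀, hs₁, hne, hne.symm]
    all_goals ring
  rw [hkv, levSL_apply, ← map_inv, hCC, blk_diag e δ hCd, diagonal_transpose]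
  refine Prod.ext (funext fun i => ?_) (Prod.ext ?_ (funext fun i => ?_))
  all_goals simp only [Prod.fst_neg, Prod.snd_neg, Prod.fst_sub, Prod.snd_sub, Prod.smul_fst,
    Prod.smul_snd, hv₆, pr, mulVec_diagonal, Pi.neg_apply, Pi.sub_apply, Pi.smul_apply,
    Pi.add_apply, smul_eq_mul]
  all_goals try (obtain ⟨⟨i', j'⟩, rfl⟩ := e.surjective i)
  · by_cases hj : j' = j₀
    · subst hj
      fin_cases i' <;> simp [hδ, hs₀, hs₁, hi₀, hi₁, Pi.single_apply] <;> ring
    · simp [hδ, hj, hs₀, hs₁, hi₀, hi₁, Pi.single_apply]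
  · rw [two_smul]; abel
  · by_cases hj : j' = j₀
    · subst hj
      fin_cases i' <;> simp [hδ, hs₀, hs₁, hi₀, hi₁, Pi.single_apply] <;> ring
    · simp [hδ, hj, hs₀, hs₁, hi₀, hi₁, Pi.single_apply]

end CfsgLib.OreOrth.Minus
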