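import Cfsg.Agent.Lib.OreOrth.Minus.Reduce

/-!
Over two elements and `m = 3`: a conjugate whose block on `W` is not a transvection.
-/

set_option autoImplicit false
set_option linter.unusedSectionVars false

namespace CfsgLib.OreOrth.Minus

open QuadraticMap Matrix CfsgLib.ClassicalForms

variable {F : Type*} [Field F] {P : Type*} [AddCommGroup P] [Module F P] [FiniteDimensional F P] {m : ℕ}
  {Q₀ : QuadraticForm F P}

/-- A transvection. -/
def IsTv (A : Matrix (Fin m) (Fin m) F) : Prop :=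
  ∃ a α : Fin m → F, a ≠ 0 ∧ α ≠ 0 ∧ α ⬝ᵥ a = 0 ∧ ∀ e, A *ᵥ e = e + (α ⬝ᵥ e) • a

theorem not_isTv_one : ¬ IsTv (1 : Matrix (Fin m) (Fin m) F) := by
  rintro ⟨a, α, ha, hα, -, h⟩
  refine hα (dotProduct_eq _ _ fun e => ?_)
  have := h e
  rw [one_mulVec, left_eq_add, smul_eq_zero] at this
  rw [zero_dotProduct]
  exact this.resolve_right ha

/-- The change of the block by a rank-one element of the radical with `s w = 0`. -/
def phi (Q₀ : QuadraticForm F P) (s : (Fin m → F) →ₗ[F] P) (X : Matrix (Fin m) (Fin m) F) (w : Fin m → F)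
    (p : P) : (Fin m → F) →ₗ[F] F where
  toFun e := w ⬝ᵥ (X *ᵥ e) + polar Q₀ (s e) p
  map_add' e f := by rw [mulVec_add, dotProduct_add, map_add, polar_add_left]; abel
  map_smul' c e := by simp [mulVec_smul, dotProduct_smul, polar_smul_left, mul_add]

section Two

variable (hF2 : ∀ x : F, x = 0 ∨ x = 1)
include hF2

theorem two_eq_zero : (2 : F) = 0 := by
  rcases hF2 (-1) with h | h
  · exact absurd h (neg_ne_zero.2 one_ne_zero)
  · linear_combination -h

theorem isTv_inv {A : GL (Fin m) F} (h : IsTv ((A⁻¹ : GL (Fin m) F) : Matrix (Fin m) (Fin m) F)) :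
    IsTv (A : Matrix (Fin m) (Fin m) F) := by
  obtain ⟨a, α, ha, hα, h0, he⟩ := h
  have hsq : A⁻¹ * A⁻¹ = 1 := Units.ext (Matrix.ext_iff_mulVec.2 fun e => by
    rw [Units.val_mul, Units.val_one, one_mulVec, ← mulVec_mulVec, he, he, dotProduct_add, dotProduct_smul, h0,
      smul_zero, add_zero, add_assoc, ← add_smul, ← two_mul, two_eq_zero hF2, zero_mul, zero_smul, add_zero])
  have hA : A = A⁻¹ := by
    calc A = A * (A⁻¹ * A⁻¹) := by rw [hsq, mul_one]
      _ = A⁻¹ := mul_inv_cancel_left A A⁻¹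
  rw [hA]
  exact ⟨a, α, ha, hα, h0, he⟩

/-- Over two elements distinct non-zero vectors are independent. -/
theorem eq_of_smul_eq {V : Type*} [AddCommGroup V] [Module F V] {c : F} {u v : V} (hu : u ≠ 0)
    (h : u = c • v) : u = v := by
  rcases hF2 c with rfl | rfl
  · exact absurd (h.trans (zero_smul F v)) hu
  · rwa [one_smul] at h

/-- The product of two rank-one changes is a transvection only in few cases. -/
theorem not_isTv_mul {A A' : GL (Fin m) F} {a α w : Fin m → F}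
    (hA : ∀ e, (A : Matrix (Fin m) (Fin m) F) *ᵥ e = e + (α ⬝ᵥ e) • a) (ha : a ≠ 0) (hw : w ≠ 0) (hwa : w ≠ a)
    {φ : (Fin m → F) →ₗ[F] F} (hA' : ∀ e, (A' : Matrix (Fin m) (Fin m) F) *ᵥ e = e + φ e • w)
    (hαa : α ⬝ᵥ a = 0) (hα0 : ∃ e, α ⬝ᵥ e ≠ 0) (h1 : ∃ e, φ e ≠ 0) (h2 : ∃ e, φ e ≠ α ⬝ᵥ e) :
    ¬ IsTv ((A' * A : GL (Fin m) F) : Matrix (Fin m) (Fin m) F) := by
  rintro ⟨b, β, -, -, -, hb⟩
  let v : (Fin m → F) → (Fin m → F) := fun e => (α ⬝ᵥ e) • a + φ (e + (α ⬝ᵥ e) • a) • w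
  have hv : ∀ e, v e = (β ⬝ᵥ e) • b := fun e => by
    have h := hb e
    rw [Units.val_mul, ← mulVec_mulVec, hA, hA', add_assoc] at h
    exact add_left_cancel h
  have heq : ∀ e f, v e ≠ 0 → v f ≠ 0 → v e = v f := fun e f he hf => by
    rw [eq_of_smul_eq hF2 he (hv e), eq_of_smul_eq hF2 hf (hv f)]
  have hwa' : w + a ≠ 0 := fun h => hwa (by
    haveI : CharP F 2 := CharTwo.of_one_ne_zero_of_two_eq_zero one_ne_zero (two_eq_zero hF2)
    rw [eq_neg_of_add_eq_zero_left h]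
    funext i
    exact CharTwo.neg_eq _)
  have one : ∀ {x : F}, x ≠ 0 → x = 1 := fun hx => (hF2 _).resolve_left hx
  have hv' : ∀ e, v e = (α ⬝ᵥ e) • a + (φ e + (α ⬝ᵥ e) * φ a) • w := fun e => by simp [v]
  obtain ⟨e₀, h₀⟩ := hα0
  obtain ⟨e₁, h₁, h₁'⟩ : ∃ e₁, φ e₁ + (α ⬝ᵥ e₁) * φ a = 1 ∧ True := by
    by_contra h
    simp only [and_true, not_exists] at h
    have hz : ∀ e, φ e + (α ⬝ᵥ e) * φ a = 0 := fun e => (hF2 _).resolve_right (h e)
    have hφa : φ a = 0 := by simpa [hαa] using hz a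
    obtain ⟨e, he⟩ := h1
    exact he (by simpa [hφa] using hz e)
  obtain ⟨e₂, h₂⟩ : ∃ e, φ e + (α ⬝ᵥ e) * φ a ≠ α ⬝ᵥ e := by
    by_contra h
    simp only [not_exists, not_not] at h
    have hφa : φ a = 0 := by simpa [hαa] using h a
    obtain ⟨e, he⟩ := h2
    exact he (by simpa [hφa] using h e)
  have hα1 := one h₀
  rcases hF2 (α ⬝ᵥ e₂) with c2 | c2
  · rw [c2] at h₂
    have d2 : v e₂ = w := by rw [hv', c2, zero_smul, zero_add, one h₂, one_smul]
    rcases hF2 (φ e₀ + (α ⬝ᵥ e₀) * φ a) with c0 | c0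
    · have d0 : v e₀ = a := by rw [hv', c0, hα1, one_smul, zero_smul, add_zero]
      exact hwa (d2.symm.trans ((heq _ _ (d2.symm ▸ hw) (d0.symm ▸ ha)).trans d0))
    · have d0 : v e₀ = a + w := by rw [hv', c0, hα1, one_smul, one_smul]
      have e := d0.symm.trans ((heq _ _ (d0.symm ▸ (add_comm w a ▸ hwa')) (d2.symm ▸ hw)).trans d2)
      exact ha (add_eq_right.1 e)
  · rw [c2] at h₂
    have d2 : v e₂ = a := by rw [hv', c2, (hF2 _).resolve_right h₂, one_smul, zero_smul, add_zero]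
    rcases hF2 (α ⬝ᵥ e₁) with c1 | c1
    · have d1 : v e₁ = w := by rw [hv', h₁, c1, zero_smul, zero_add, one_smul]
      exact hwa (d1.symm.trans ((heq _ _ (d1.symm ▸ hw) (d2.symm ▸ ha)).trans d2))
    · have d1 : v e₁ = a + w := by rw [hv', h₁, c1, one_smul, one_smul]
      have e := d1.symm.trans ((heq _ _ (d1.symm ▸ (add_comm w a ▸ hwa')) (d2.symm ▸ ha)).trans d2)
      exact hw (add_eq_left.1 e)

theorem step_ker (hQ : Nondeg Q₀) (haniso : ∀ p, Q₀ p = 0 → p = 0) {g : orth (form m Q₀)} {A : GL (Fin m) F}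
    {s : (Fin m → F) →ₗ[F] P} {X : Matrix (Fin m) (Fin m) F} (h : LForm g A (1 : orth Q₀) s X)
    {w : Fin m → F} (hsw : s w = 0) {p : P} (hp : p ≠ 0) :
    ∃ (c : orth (form m Q₀)) (A' : GL (Fin m) F) (s' : (Fin m → F) →ₗ[F] P) (X' : Matrix (Fin m) (Fin m) F),
      LForm (c * g * c⁻¹) (A' * A) (1 : orth Q₀) s' X' ∧
        (∀ e, (A' : Matrix (Fin m) (Fin m) F) *ᵥ e = e + phi Q₀ s X w p e • w) ∧
        ∀ e, s' ((A' : Matrix (Fin m) (Fin m) F) *ᵥ e) = s e + (w ⬝ᵥ (X *ᵥ e)) • p := by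
  haveI : CharP F 2 := CharTwo.of_one_ne_zero_of_two_eq_zero one_ne_zero (two_eq_zero hF2)
  have hQp : Q₀ p = 1 := (hF2 _).resolve_left fun h0 => hp (haniso p h0)
  obtain ⟨c, A', R', s', X', hF, hA', -, hs', hR'⟩ := h.step hQ w p (by simp [hsw])
  have hR : R' * 1 = (1 : orth Q₀) := by
    rw [mul_one]
    refine orth_ext fun z => ?_
    rw [hR', hsw]
    simp
  rw [hR] at hF
  refine ⟨c, A', s', X', hF, fun e => ?_, hs'⟩
  rw [hA', hQp]
  simp [phi, CharTwo.neg_eq, CharTwo.sub_eq_add]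

/-- One step suffices if `s` kills a vector outside the centre. -/
theorem exists_not_tv_of_ker (hP : Module.finrank F P = 2) (hQ : Nondeg Q₀) (haniso : ∀ p, Q₀ p = 0 → p = 0)
    {g : orth (form m Q₀)} {A : GL (Fin m) F} {s : (Fin m → F) →ₗ[F] P} {X : Matrix (Fin m) (Fin m) F}
    (h : LForm g A (1 : orth Q₀) s X) (hs : s ≠ 0) {a α : Fin m → F} (ha : a ≠ 0) (hα : α ≠ 0)
    (hαa : α ⬝ᵥ a = 0) (hA : ∀ e, (A : Matrix (Fin m) (Fin m) F) *ᵥ e = e + (α ⬝ᵥ e) • a)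
    {w : Fin m → F} (hsw : s w = 0) (hw : w ≠ 0) (hwa : w ≠ a) :
    ∃ c A₁ s₁ X₁, LForm (c * g * c⁻¹) A₁ (1 : orth Q₀) s₁ X₁ ∧
      ¬ IsTv (A₁ : Matrix (Fin m) (Fin m) F) := by
  haveI : CharP F 2 := CharTwo.of_one_ne_zero_of_two_eq_zero one_ne_zero (two_eq_zero hF2)
  by_contra hno
  have hα0 : ∃ e, α ⬝ᵥ e ≠ 0 := by
    by_contra hh
    simp only [not_exists, not_not] at hh
    exact hα (dotProduct_eq _ _ fun e => by rw [hh, zero_dotProduct])
  have bad : ∀ w, s w = 0 → w ≠ 0 → w ≠ a → ∀ p, p ≠ 0 →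
      (∀ e, phi Q₀ s X w p e = 0) ∨ ∀ e, phi Q₀ s X w p e = α ⬝ᵥ e := fun w hsw hw hwa p hp => by
    by_contra hh
    simp only [not_or, not_forall] at hh
    obtain ⟨c, A', s', X', hF, hA', -⟩ := step_ker hF2 hQ haniso h hsw hp
    exact hno ⟨c, A' * A, s', X', hF, not_isTv_mul hF2 hA ha hw hwa hA' hαa hα0 hh.1 hh.2⟩
  have split : ∀ r : P, r ≠ 0 → ∃ p q, p ≠ 0 ∧ q ≠ 0 ∧ r = p + q := fun r hr => by
    obtain ⟨p, hp⟩ : ∃ p, p ∉ Submodule.span F ({r} : Set P) := by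
      by_contra hh
      simp only [not_exists, not_not] at hh
      have : Submodule.span F ({r} : Set P) = ⊤ := eq_top_iff.2 fun z _ => hh z
      have h2 := finrank_span_le_card (R := F) ({r} : Set P)
      rw [this, finrank_top, hP] at h2
      simp at h2
    refine ⟨p, r - p, fun h0 => hp (h0 ▸ Submodule.zero_mem _), fun h0 => hp ?_, by abel⟩
    rw [← sub_eq_zero.1 h0]
    exact Submodule.mem_span_singleton_self r
  have hker : ∀ e, α ⬝ᵥ e = 0 → s e = 0 := fun e he => hQ _ fun r => by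
    rcases eq_or_ne r 0 with rfl | hr
    · simp [polar_zero_right]
    obtain ⟨p, q, hp, hq, rfl⟩ := split r hr
    have e1 : phi Q₀ s X w p e = 0 := (bad w hsw hw hwa p hp).elim (· e) fun hh => (hh e).trans he
    have e2 : phi Q₀ s X w q e = 0 := (bad w hsw hw hwa q hq).elim (· e) fun hh => (hh e).trans he
    simp only [phi, LinearMap.coe_mk, AddHom.coe_mk] at e1 e2
    rw [polar_add_right]
    linear_combination e1 + e2 - (w ⬝ᵥ (X *ᵥ e)) * two_eq_zero hF2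
  have hsa : s a = 0 := hker a hαa
  have hwa1 : s (w + a) = 0 := by rw [map_add, hsw, hsa, add_zero]
  have hwa2 : w + a ≠ 0 := fun h0 => hwa (by
    rw [eq_neg_of_add_eq_zero_left h0]; funext i; exact CharTwo.neg_eq _)
  have hwa3 : w + a ≠ a := fun h0 => hw (add_eq_right.1 h0)
  obtain ⟨e₀, h₀⟩ := hα0
  have hα1 : α ⬝ᵥ e₀ = 1 := (hF2 _).resolve_left h₀
  have hdec : ∀ f : (Fin m → F) →ₗ[F] F, (∀ e, α ⬝ᵥ e = 0 → f e = 0) → ∀ e, f e = (α ⬝ᵥ e) * f e₀ := by
    intro f hf e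
    have := hf (e - (α ⬝ᵥ e) • e₀) (by rw [dotProduct_sub, dotProduct_smul, hα1, smul_eq_mul, mul_one, sub_self])
    rwa [map_sub, map_smul, smul_eq_mul, sub_eq_zero] at this
  have hsσ : s e₀ ≠ 0 := fun h0 => hs (LinearMap.ext fun e => by
    have := hker (e - (α ⬝ᵥ e) • e₀) (by rw [dotProduct_sub, dotProduct_smul, hα1, smul_eq_mul, mul_one, sub_self])
    rw [map_sub, map_smul, h0, smul_zero, sub_zero] at this
    exact this)
  obtain ⟨r, hr⟩ : ∃ r, polar Q₀ (s e₀) r = 1 := by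
    by_contra hh
    exact hsσ (hQ _ fun r => (hF2 _).resolve_right fun h1 => hh ⟨r, h1⟩)
  have hr0 : r ≠ 0 := fun h0 => one_ne_zero (α := F) (by rw [← hr, h0, polar_zero_right])
  obtain ⟨p, hp, hpv⟩ : ∃ p, p ≠ 0 ∧ a ⬝ᵥ (X *ᵥ e₀) + polar Q₀ (s e₀) p = 1 := by
    rcases hF2 (a ⬝ᵥ (X *ᵥ e₀)) with c0 | c0
    · exact ⟨r, hr0, by rw [c0, hr, zero_add]⟩
    · refine ⟨s e₀, hsσ, ?_⟩
      rw [c0, polar_self, two_nsmul, CharTwo.add_self_eq_zero, add_zero]
  have hφ : ∀ e, phi Q₀ s X a p e = α ⬝ᵥ e := fun e => by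
    rw [hdec _ (fun f hf => ?_) e]
    · rw [show phi Q₀ s X a p e₀ = a ⬝ᵥ (X *ᵥ e₀) + polar Q₀ (s e₀) p from rfl, hpv, mul_one]
    · have e1 : phi Q₀ s X w r f = 0 := (bad w hsw hw hwa r hr0).elim (· f) fun hh => (hh f).trans hf
      have e2 : phi Q₀ s X (w + a) r f = 0 :=
        (bad _ hwa1 hwa2 hwa3 r hr0).elim (· f) fun hh => (hh f).trans hf
      simp only [phi, LinearMap.coe_mk, AddHom.coe_mk, hker f hf, polar_zero_left, add_zero,
        add_dotProduct] at e1 e2 ⊢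
      rwa [e1, zero_add] at e2
  obtain ⟨c, A', s', X', hF, hA', -⟩ := step_ker hF2 hQ haniso h hsa hp
  refine hno ⟨c, A' * A, s', X', hF, ?_⟩
  rw [show ((A' * A : GL (Fin m) F) : Matrix (Fin m) (Fin m) F) = 1 from Matrix.ext_iff_mulVec.2 fun e => by
    rw [Units.val_mul, ← mulVec_mulVec, hA, hA', hφ, dotProduct_add, dotProduct_smul, hαa, smul_zero, add_zero,
      one_mulVec, add_assoc, ← add_smul, CharTwo.add_self_eq_zero, zero_smul, add_zero]]
  exact not_isTv_one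

/-- A conjugate with trivial middle part whose block is not a transvection. -/
theorem exists_not_isTv (hm : m = 3) (hP : Module.finrank F P = 2) (hQ : Nondeg Q₀)
    (haniso : ∀ p, Q₀ p = 0 → p = 0) {g : orth (form m Q₀)} {A : GL (Fin m) F} {s : (Fin m → F) →ₗ[F] P}
    {X : Matrix (Fin m) (Fin m) F} (h : LForm g A (1 : orth Q₀) s X) (hs : s ≠ 0) :
    ∃ c A₁ s₁ X₁, LForm (c * g * c⁻¹) A₁ (1 : orth Q₀) s₁ X₁ ∧
      ¬ IsTv (A₁ : Matrix (Fin m) (Fin m) F) := by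
  haveI : CharP F 2 := CharTwo.of_one_ne_zero_of_two_eq_zero one_ne_zero (two_eq_zero hF2)
  by_cases hT : IsTv (A : Matrix (Fin m) (Fin m) F)
  swap
  · exact ⟨1, A, s, X, by simpa using h, hT⟩
  obtain ⟨a, α, ha, hα, hαa, hA⟩ := hT
  by_cases hk : ∃ w, s w = 0 ∧ w ≠ 0 ∧ w ≠ a
  · obtain ⟨w, h1, h2, h3⟩ := hk
    exact exists_not_tv_of_ker hF2 hP hQ haniso h hs ha hα hαa hA h1 h2 h3
  simp only [not_exists, not_and, not_not] at hk
  have hker : LinearMap.ker s ≤ Submodule.span F {a} := fun w hw => by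
    rcases eq_or_ne w 0 with rfl | h0
    · exact Submodule.zero_mem _
    · rw [hk w hw h0]; exact Submodule.mem_span_singleton_self a
  have hdim := LinearMap.finrank_range_add_finrank_ker s
  rw [Module.finrank_fin_fun] at hdim
  have hk1 : Module.finrank F (LinearMap.ker s) ≤ 1 :=
    (Submodule.finrank_mono hker).trans (finrank_span_singleton ha).le
  have hr2 : Module.finrank F (LinearMap.range s) ≤ 2 := hP ▸ Submodule.finrank_le _
  have hsa : s a = 0 := by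
    obtain ⟨w, hw, hw0⟩ := Submodule.exists_mem_ne_zero_of_ne_bot
      (show LinearMap.ker s ≠ ⊥ from fun h0 => by rw [h0, finrank_bot] at hdim; omega)
    rw [← hk w hw hw0]
    exact hw
  have hsurj : Function.Surjective s :=
    LinearMap.range_eq_top.1 (Submodule.eq_top_of_finrank_eq (by rw [hP]; omega))
  obtain ⟨σ, hσ⟩ := LinearMap.exists_rightInverse_of_surjective s (LinearMap.range_eq_top.2 hsurj)
  have hσ' : ∀ z, s (σ z) = z := fun z => LinearMap.congr_fun hσ z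
  have hca : a ⬝ᵥ (X *ᵥ a) = 0 := by
    obtain ⟨hX, -⟩ := h
    rw [hX, hsa, QuadraticMap.map_zero, neg_zero]
  let η : (Fin m → F) →ₗ[F] F :=
    { toFun := fun e => α ⬝ᵥ e + a ⬝ᵥ (X *ᵥ e)
      map_add' := fun e f => by rw [dotProduct_add, mulVec_add, dotProduct_add]; abel
      map_smul' := fun c e => by simp [mulVec_smul, dotProduct_smul, mul_add] }
  have hη : ∀ e, η e = η (σ (s e)) := fun e => by
    rw [← sub_eq_zero, ← map_sub]
    have hmem : s (e - σ (s e)) = 0 := by rw [map_sub, hσ', sub_self]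
    rcases eq_or_ne (e - σ (s e)) 0 with h0 | h0
    · rw [h0, map_zero]
    · rw [hk _ hmem h0]
      show α ⬝ᵥ a + a ⬝ᵥ (X *ᵥ a) = 0
      rw [hαa, hca, add_zero]
  have hinj : Function.Injective (QuadraticMap.polarBilin Q₀) := by
    rw [injective_iff_map_eq_zero]
    exact fun z hz => hQ z fun y => LinearMap.congr_fun hz y
  obtain ⟨p, hp⟩ := (LinearMap.injective_iff_surjective_of_finrank_eq_finrank
    (by rw [Subspace.dual_finrank_eq])).1 hinj (η ∘ₗ σ)
  have hp' : ∀ e, polar Q₀ (s e) p = α ⬝ᵥ e + a ⬝ᵥ (X *ᵥ e) := fun e => by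
    rw [polar_comm]
    exact (LinearMap.congr_fun hp (s e)).trans (hη e).symm
  by_cases hp0 : p = 0
  swap
  · obtain ⟨c, A', s', X', hF, hA', -⟩ := step_ker hF2 hQ haniso h hsa hp0
    refine ⟨c, A' * A, s', X', hF, ?_⟩
    rw [show ((A' * A : GL (Fin m) F) : Matrix (Fin m) (Fin m) F) = 1 from Matrix.ext_iff_mulVec.2 fun e => by
      have hφ : ∀ e, phi Q₀ s X a p e = α ⬝ᵥ e := fun e => by
        show a ⬝ᵥ (X *ᵥ e) + polar Q₀ (s e) p = _
        rw [hp']
        linear_combination (a ⬝ᵥ (X *ᵥ e)) * two_eq_zero hF2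
      rw [Units.val_mul, ← mulVec_mulVec, hA, hA', hφ, dotProduct_add, dotProduct_smul, hαa, smul_zero, add_zero,
        one_mulVec, add_assoc, ← add_smul, CharTwo.add_self_eq_zero, zero_smul, add_zero]]
    exact not_isTv_one
  have hc : ∀ e, a ⬝ᵥ (X *ᵥ e) = α ⬝ᵥ e := fun e => by
    have := hp' e
    rw [hp0, polar_zero_right] at this
    linear_combination -this - (α ⬝ᵥ e) * two_eq_zero hF2
  obtain ⟨e₀, h₀⟩ : ∃ e, α ⬝ᵥ e = 1 := by
    by_contra hh
    exact hα (dotProduct_eq _ _ fun e => by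
      rw [zero_dotProduct]; exact (hF2 _).resolve_right fun h1 => hh ⟨e, h1⟩)
  have he₀ : e₀ ≠ 0 := fun h0 => one_ne_zero (α := F) (by rw [← h₀, h0, dotProduct_zero])
  have hq : s e₀ ≠ 0 := fun h0 => one_ne_zero (α := F) (by rw [← h₀, hk _ h0 he₀, hαa])
  obtain ⟨c, A', s', X', hF, hA', hs'⟩ := step_ker hF2 hQ haniso h hsa hq
  have hφ : ∀ e, phi Q₀ s X a (s e₀) e = α ⬝ᵥ e + beta Q₀ s (s e₀) ⬝ᵥ e := fun e => by
    show a ⬝ᵥ (X *ᵥ e) + polar Q₀ (s e) (s e₀) = _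
    rw [hc, beta_dotProduct, polar_comm]
  have hA₁ : ∀ e, ((A' * A : GL (Fin m) F) : Matrix (Fin m) (Fin m) F) *ᵥ e
      = e + (beta Q₀ s (s e₀) ⬝ᵥ e) • a := fun e => by
    rw [Units.val_mul, ← mulVec_mulVec, hA, hA', hφ, dotProduct_add, dotProduct_smul, hαa, smul_zero, add_zero,
      dotProduct_add, dotProduct_smul, beta_dotProduct (f := a), hsa, polar_zero_right, smul_zero, add_zero,
      add_assoc, ← add_smul, ← add_assoc, CharTwo.add_self_eq_zero, zero_add]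
  have hs'0 : s' ≠ 0 := fun h0 => by
    have key : ∀ e, s e = (α ⬝ᵥ e) • s e₀ := fun e => by
      have h' := hs' e
      rw [h0, LinearMap.zero_apply, hc, eq_comm, add_eq_zero_iff_eq_neg, ← neg_smul, CharTwo.neg_eq] at h'
      exact h'
    have hle : LinearMap.range s ≤ Submodule.span F {s e₀} := by
      rintro _ ⟨e, rfl⟩
      rw [key e]
      exact Submodule.smul_mem _ _ (Submodule.mem_span_singleton_self (s e₀))
    have := (Submodule.finrank_mono hle).trans (finrank_span_singleton hq).le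
    rw [LinearMap.range_eq_top.2 hsurj, finrank_top, hP] at this
    omega
  have hβ0 : beta Q₀ s (s e₀) ≠ 0 := fun h0 => hq (hQ _ fun z => by
    rw [← hσ' z, ← beta_dotProduct, h0, zero_dotProduct])
  have hw : s' ((A' : Matrix (Fin m) (Fin m) F) *ᵥ e₀) = 0 := by
    rw [hs', hc, h₀, one_smul]
    exact (two_smul F (s e₀)).symm.trans (by rw [two_eq_zero hF2, zero_smul])
  have hAinj : ∀ e f, (A' : Matrix (Fin m) (Fin m) F) *ᵥ e = (A' : Matrix (Fin m) (Fin m) F) *ᵥ f → e = f :=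
    fun e f hef => by
      have := congrArg (((A'⁻¹ : GL (Fin m) F) : Matrix (Fin m) (Fin m) F) *ᵥ ·) hef
      simpa [mulVec_mulVec] using this
  have hA'a : (A' : Matrix (Fin m) (Fin m) F) *ᵥ a = a := by
    rw [hA', hφ, hαa, beta_dotProduct, hsa, polar_zero_right, add_zero, zero_smul, add_zero]
  obtain ⟨c₂, A₂, s₂, X₂, hF₂, hT₂⟩ := exists_not_tv_of_ker hF2 hP hQ haniso hF hs'0 ha hβ0
    (by rw [beta_dotProduct, hsa, polar_zero_right]) hA₁ hw
    (fun h0 => he₀ (hAinj _ 0 (by rw [h0, mulVec_zero])))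
    (fun h0 => one_ne_zero (α := F) (by rw [← h₀, hAinj e₀ a (h0.trans hA'a.symm), hαa]))
  exact ⟨c₂ * c, A₂, s₂, X₂, by convert hF₂ using 1; group, hT₂⟩

end Two

end CfsgLib.OreOrth.Minus
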