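import Cfsg.Agent.Lib.OreOrth.Minus.Reduce
import Cfsg.Agent.Lib.OreOrth.Minus.NegOne
import Cfsg.Agent.Lib.OreOrth.Minus.Transvection

/-!
Every element of the commutator subgroup of a minus type orthogonal group is a commutator in it, given good
Levi elements.
-/

set_option autoImplicit false
set_option linter.unusedSectionVars false

namespace CfsgLib.OreOrth.Minus

open QuadraticMap Matrix CfsgLib.ClassicalForms

variable {F : Type*} [Field F]

/-- The Levi elements needed. -/
def GoodHyp (F : Type*) [Field F] [Fintype F] (m : ℕ) : Prop :=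
  ∀ A : Matrix (Fin m) (Fin m) F, A.det = 1 →
    (4 ≤ Fintype.card F → A = 1 ∨ ∀ c : F, A ≠ c • 1) →
    (Fintype.card F = 3 → m = 4 → A ≠ -1) → (Fintype.card F = 2 → m = 3 → ¬ IsTv A) →
      CfsgLib.OreOrth.Good A

variable [Fintype F] {a b : F} {m : ℕ}

/-- An admissible middle part. -/
theorem exists_mid (hab : Aniso a b) :
    ∃ r : orth (binForm a b), RCond (binForm a b) r ∧ r ∈ commutator (orth (binForm a b)) := by
  by_cases h2 : (2 : F) = 0
  · set x : Fin 2 → F := Pi.single 0 1 with hx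
    set y : Fin 2 → F := Pi.single 1 1 with hy
    have hne : ∀ v : Fin 2 → F, v ≠ 0 → binForm a b v ≠ 0 := fun v hv h => hv (hab.eq_zero h)
    have hx0 : x ≠ 0 := fun h => one_ne_zero (α := F) (by simpa [hx] using congrFun h 0)
    have hy0 : y ≠ 0 := fun h => one_ne_zero (α := F) (by simpa [hy] using congrFun h 1)
    haveI : CharP F 2 := CharTwo.of_one_ne_zero_of_two_eq_zero one_ne_zero h2
    set X := refl (binForm a b) x (hne x hx0)
    set Y := refl (binForm a b) y (hne y hy0)
    refine ⟨X * Y * X⁻¹ * Y⁻¹, Or.inr ⟨h2, fun v hv => ?_⟩, commutator_mem _ _⟩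
    rw [refl_inv, refl_inv] at hv
    set t := X * Y with ht
    have hfix : ∀ z, (t : (Fin 2 → F) ≃ₗ[F] (Fin 2 → F)) z = z → z = 0 := by
      intro z hz
      rw [ht, orth_mul_apply] at hz
      have h' := congrArg (X : (Fin 2 → F) ≃ₗ[F] (Fin 2 → F)) hz
      rw [← orth_mul_apply, refl_mul_self, orth_one_apply] at h'
      rw [refl_apply, refl_apply, sub_right_inj] at h'
      have e0 := congrFun h' 0
      have e1 := congrFun h' 1
      simp [hx, hy] at e0 e1
      have hzx : polar (binForm a b) z x = 0 := by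
        rcases e0 with e | e
        · exact absurd e (hne x hx0)
        · exact e
      have hzy : polar (binForm a b) z y = 0 := by
        rcases e1 with e | e
        · exact absurd e (hne y hy0)
        · exact e
      refine hab.nondeg z fun w => ?_
      rw [show w = w 0 • x + w 1 • y by funext i; fin_cases i <;> simp [hx, hy],
        polar_add_right, polar_smul_right, polar_smul_right, hzx, hzy, smul_zero, smul_zero, add_zero]
    rw [show X * Y * X * Y = t * t by rw [ht, mul_assoc (X * Y)], orth_mul_apply] at hv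
    refine hfix v ?_
    rw [← sub_eq_zero]
    apply hfix
    rw [map_sub, hv, ← neg_sub]
    exact funext fun i => CharTwo.neg_eq _
  · exact ⟨1, Or.inl ⟨h2, rfl⟩, one_mem _⟩

/-- The coordinates of `quadFormMinus`. -/
def toCoord : Sp F m (Fin 2 → F) ≃ₗ[F] ((Fin m ⊕ Fin m) ⊕ Fin 2 → F) :=
  toH.trans (minusEquiv m).symm

theorem qMinus_toCoord (v : Sp F m (Fin 2 → F)) :
    qMinus m F a b (toCoord v) = form m (binForm a b) v := by
  rw [← qH_minusEquiv, toCoord, LinearEquiv.trans_apply, LinearEquiv.apply_symm_apply]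
  rfl

theorem finrank_sp : Module.finrank F (Sp F m (Fin 2 → F)) = 2 * m + 2 := by
  rw [toCoord.finrank_eq, finrank_qMinus]

theorem nonscalar_inv {A : GL (Fin m) F} (hA : NonScalar A) : NonScalar A⁻¹ := by
  intro k hk
  rcases Nat.eq_zero_or_pos m with rfl | hm
  · exact hA 0 (Subsingleton.elim _ _)
  have h1 : k • (A : Matrix (Fin m) (Fin m) F) = 1 := by
    rw [← A.inv_mul, hk, Matrix.smul_mul, one_mul]
  have hk0 : k ≠ 0 := by
    intro h
    haveI : Nonempty (Fin m) := ⟨⟨0, hm⟩⟩
    rw [h, zero_smul] at h1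
    exact zero_ne_one h1
  exact hA k⁻¹ (by rw [← h1, smul_smul, inv_mul_cancel₀ hk0, one_smul])

theorem goodHyp_nonscalar (hgood : GoodHyp F m) {A : GL (Fin m) F}
    (hdet : (A : Matrix (Fin m) (Fin m) F).det = 1) (hA : 3 ≤ Fintype.card F → NonScalar A)
    (htv : Fintype.card F = 2 → m = 3 → ¬ IsTv (A : Matrix (Fin m) (Fin m) F)) :
    CfsgLib.OreOrth.Good (A : Matrix (Fin m) (Fin m) F) := by
  refine hgood _ hdet (fun h => Or.inr (hA (by omega))) (fun h3 _ h => hA (by omega) (-1) ?_) htv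
  rw [h, neg_one_smul]

theorem goodHyp_one (hgood : GoodHyp F m) : CfsgLib.OreOrth.Good (1 : Matrix (Fin m) (Fin m) F) := by
  refine hgood _ det_one (fun _ => Or.inl rfl) (fun h3 hm h => ?_) fun _ _ => not_isTv_one
  subst hm
  have h' := congrFun (congrFun h 0) 0
  rw [one_apply_eq, neg_apply, one_apply_eq] at h'
  have h2 : (2 : F) = 0 := by linear_combination h'
  haveI : CharP F 2 := CharTwo.of_one_ne_zero_of_two_eq_zero one_ne_zero h2
  have := FiniteField.cast_card_eq_zero F
  rw [h3] at this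
  exact one_ne_zero (α := F) (by push_cast at this; linear_combination this - h2)

/-- Every element of `Ω⁻` is a commutator in it. -/
theorem exists_comm_minus_orth (hab : Aniso a b) (hm : 3 ≤ m) (hgood : GoodHyp F m)
    (g : orth (form m (binForm a b))) (hg : g ∈ commutator (orth (form m (binForm a b)))) :
    ∃ x ∈ commutator (orth (form m (binForm a b))), ∃ y ∈ commutator (orth (form m (binForm a b))),
      g = x * y * x⁻¹ * y⁻¹ := by
  have hP : Module.finrank F (Fin 2 → F) = 2 := by simp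
  have hQ : Nondeg (binForm a b) := hab.nondeg
  have haniso : ∀ p, binForm a b p = 0 → p = 0 := fun p hp => hab.eq_zero hp
  have hPne : ∃ p : Fin 2 → F, p ≠ 0 := ⟨1, one_ne_zero⟩
  have hnd := nondeg_form (m := m) hQ
  have hgen : reflGroup (form m (binForm a b)) = ⊤ := by
    have h : IsGen (form m (binForm a b)) := (isGen_qMinus hab m).congr toCoord.symm fun w => by
      rw [← qMinus_toCoord, LinearEquiv.apply_symm_apply]
    rw [← (show reflGroup (form m (binForm a b)) ⊔ siegelGroup (form m (binForm a b)) = ⊤ from h)]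
    exact (sup_eq_left.2 (siegelGroup_le_reflGroup hnd (by rw [finrank_sp]; omega))).symm
  let χ : orth (form m (binForm a b)) →* ℤˣ :=
    (spinHom (qMinus m F a b) 1).comp (orthCongr toCoord qMinus_toCoord).toMonoidHom
  have hχ : (2 : F) ≠ 0 → ∀ (v : Sp F m (Fin 2 → F)) (hv : form m (binForm a b) v ≠ 0),
      (χ (refl (form m (binForm a b)) v hv) = -1 ↔ IsSquare (1 / form m (binForm a b) v)) := by
    intro h2 v hv
    show spinHom _ _ (orthCongr toCoord qMinus_toCoord (refl _ v hv)) = -1 ↔ _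
    rw [orthCongr_refl, spinHom_refl h2 one_ne_zero, qMinus_toCoord]
  obtain ⟨r, hr, hrm⟩ := exists_mid hab
  obtain ⟨hlow, hup⟩ : low m (binForm a b) ≤ commutator (orth (form m (binForm a b))) ∧
      up m (binForm a b) ≤ commutator (orth (form m (binForm a b))) := by
    haveI : NeZero m := ⟨by omega⟩
    obtain ⟨b', h, -, -, -, h1, h2, h3⟩ := goodHyp_one hgood
    have hMup : MCond h := ⟨h1, fun t => (h3 t).1⟩
    have hMlow : MCond (invT h) := by
      refine ⟨fun X hd hs hX => h2 X hd hs ?_, fun t v hv => (h3 t).2 v ?_⟩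
      · have e := congrArg (fun Y => (h : Matrix (Fin m) (Fin m) F)ᵀ * Y * (h : Matrix (Fin m) (Fin m) F)) hX
        simp only [invT, transpose_transpose] at e
        rw [← mul_assoc, ← mul_assoc, ← transpose_mul, h.inv_mul, transpose_one, one_mul, mul_assoc,
          h.inv_mul, mul_one] at e
        rw [transpose_transpose]
        exact e.symm
      · have e := congrArg (fun w => (h : Matrix (Fin m) (Fin m) F)ᵀ *ᵥ w) hv
        simp only [invT, mulVec_mulVec, ← transpose_mul, h.inv_mul, transpose_one, one_mulVec] at e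
        exact e.symm
    have key : ∀ (M : GL (Fin m) F), MCond M →
        up m (binForm a b) ≤ commutator (orth (form m (binForm a b))) := fun M hM w hw => by
      obtain ⟨y, -, hy⟩ := exists_commutator_preimage (up m (binForm a b)) (lev (M, r))
        (fun k hk => lev_conj_up hk) (fun k hk hc => eq_one_of_commute hP hQ haniso hM hr hk hc) hw
      rw [← hy]
      exact commutator_mem _ _
    refine ⟨fun w hw => ?_, key h hMup⟩
    have h' := key _ hMlow (show swap * w * swap ∈ up m (binForm a b) from hw)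
    have hs : (swap : orth (form m (binForm a b)))⁻¹ = swap := inv_eq_of_mul_eq_one_right swap_mul_swap
    have h'' := (inferInstance : (commutator (orth (form m (binForm a b)))).Normal).conj_mem _ h' swap
    rw [hs] at h''
    simpa only [← mul_assoc, swap_mul_swap, one_mul, mul_assoc (w : orth (form m (binForm a b))),
      mul_one] using h''
  have hconj : ∀ c, c * g * c⁻¹ ∈ commutator (orth (form m (binForm a b))) := fun c =>
    (inferInstance : (commutator (orth (form m (binForm a b)))).Normal).conj_mem _ hg c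
  rcases exists_conj_s_ne_zero hm hQ haniso hPne g with (rfl | hneg) | ⟨c, A, R, s, X, hF, hs⟩
  · exact ⟨1, one_mem _, 1, one_mem _, by group⟩
  · by_cases h2 : (2 : F) = 0
    · haveI : CharP F 2 := CharTwo.of_one_ne_zero_of_two_eq_zero one_ne_zero h2
      refine ⟨1, one_mem _, 1, one_mem _, orth_ext fun v => ?_⟩
      rw [hneg]
      simp only [mul_one, inv_one, orth_one_apply]
      exact Prod.ext (funext fun i => CharTwo.neg_eq _)
        (Prod.ext (funext fun i => CharTwo.neg_eq _) (funext fun i => CharTwo.neg_eq _))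
    · exact exists_comm_neg_one hab hm h2 g hg hneg
  obtain ⟨c₁, A₁, R₁, s₁, X₁, hF₁, hs₁, hns₁⟩ : ∃ c₁ A₁ R₁ s₁ X₁,
      LForm (c₁ * g * c₁⁻¹) A₁ R₁ s₁ X₁ ∧ s₁ ≠ (0 : (Fin m → F) →ₗ[F] (Fin 2 → F)) ∧
        (3 ≤ Fintype.card F → NonScalar A₁) := by
    by_cases h3 : 3 ≤ Fintype.card F
    · obtain ⟨c', A₁, R₁, s₁, X₁, hF', hs', hns⟩ :=
        exists_nonscalar hP hQ haniso hm (by rwa [Nat.card_eq_fintype_card]) hF hs
      exact ⟨c' * c, A₁, R₁, s₁, X₁, by convert hF' using 1; group, hs', fun _ => hns⟩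
    · exact ⟨c, A, R, s, X, hF, hs, fun h => absurd h h3⟩
  obtain ⟨c₂, A₂, s₂, X₂, ⟨hX₂, u, hu, he⟩, hdet, hns₂, htv⟩ : ∃ c₂ A₂ s₂ X₂,
      LForm (c₂ * (c₁ * g * c₁⁻¹) * c₂⁻¹) A₂ (1 : orth (binForm a b)) s₂ X₂ ∧
        (A₂ : Matrix (Fin m) (Fin m) F).det = 1 ∧ (3 ≤ Fintype.card F → NonScalar A₂) ∧
        (Fintype.card F = 2 → m = 3 → ¬ IsTv (A₂ : Matrix (Fin m) (Fin m) F)) := by
    obtain ⟨c₂, A₂, s₂, X₂, hF₂, hdet, hns₂, hs₂⟩ :=
      exists_normal_form hP hQ haniso hm hgen χ hχ hlow hup (hconj c₁) hF₁ hs₁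
    by_cases hq : Fintype.card F = 2 ∧ m = 3
    · classical
      have hF2 : ∀ x : F, x = 0 ∨ x = 1 := fun x => by
        by_contra hx
        simp only [not_or] at hx
        have h3 := Finset.card_le_univ ({0, 1, x} : Finset F)
        rw [hq.1, Finset.card_insert_of_notMem (by simp [Ne.symm hx.1]),
          Finset.card_pair (Ne.symm hx.2)] at h3
        omega
      obtain ⟨c₃, A₃, s₃, X₃, hF₃, htv⟩ := exists_not_isTv hF2 hq.2 hP hQ haniso hF₂ hs₂
      refine ⟨c₃ * c₂, A₃, s₃, X₃, by convert hF₃ using 1; group, ?_, fun h3 => by omega, fun _ _ => htv⟩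
      exact (hF2 _).resolve_left (Matrix.GeneralLinearGroup.det A₃).ne_zero
    · exact ⟨c₂, A₂, s₂, X₂, hF₂, hdet, fun h3 => hns₂ (hns₁ h3), fun h h' => absurd ⟨h, h'⟩ hq⟩
  have hG : CfsgLib.OreOrth.Good ((A₂⁻¹ : GL (Fin m) F) : Matrix (Fin m) (Fin m) F) := by
    refine goodHyp_nonscalar hgood ?_ (fun h3 => nonscalar_inv (hns₂ h3)) fun h h' hT => ?_
    swap
    · classical
      exact htv h h' (isTv_inv (fun x => by
        by_contra hx
        simp only [not_or] at hx
        have h3 := Finset.card_le_univ ({0, 1, x} : Finset F)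
        rw [h, Finset.card_insert_of_notMem (by simp [Ne.symm hx.1]),
          Finset.card_pair (Ne.symm hx.2)] at h3
        omega) hT)
    have h := congrArg Matrix.det A₂.mul_inv
    rwa [det_mul, hdet, one_mul, det_one] at h
  obtain ⟨x, hx, y, hy, hxy⟩ := exists_comm_of_form hP hQ haniso hm hr hrm hG (lowEl_mem s₂ X₂ hX₂) hu
  set d := c₂ * c₁
  have hn := (inferInstance : (commutator (orth (form m (binForm a b)))).Normal)
  refine ⟨d⁻¹ * x * d⁻¹⁻¹, hn.conj_mem _ hx _, d⁻¹ * y * d⁻¹⁻¹, hn.conj_mem _ hy _, ?_⟩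
  have : d * g * d⁻¹ = x * y * x⁻¹ * y⁻¹ := by
    rw [← hxy, ← he]; simp only [d]; group
  calc g = d⁻¹ * (d * g * d⁻¹) * d := by group
    _ = _ := by rw [this]; group

/-- Every element of `Ω⁻(2n, F)` is a commutator, given good Levi elements. -/
theorem exists_comm_minus (hab : Aniso a b) (hm : 3 ≤ m) (hgood : GoodHyp F m)
    (g : Cfsg.Omega F (Cfsg.quadFormMinus m F a b)) :
    ∃ x y : Cfsg.Omega F (Cfsg.quadFormMinus m F a b), g = x * y * x⁻¹ * y⁻¹ := by
  let φ : Cfsg.isometryGroup F (Cfsg.quadFormMinus m F a b) ≃* orth (form m (binForm a b)) :=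
    (isoMat (qMinus m F a b) (qMinus_apply m a b)).trans (orthCongr toCoord qMinus_toCoord).symm
  obtain ⟨x, hx, y, hy, h⟩ := exists_comm_minus_orth hab hm hgood (φ g.1) (map_mem_commutator φ.toMonoidHom g.2)
  refine ⟨⟨φ.symm x, map_mem_commutator φ.symm.toMonoidHom hx⟩,
    ⟨φ.symm y, map_mem_commutator φ.symm.toMonoidHom hy⟩, Subtype.ext ?_⟩
  show g.1 = φ.symm x * φ.symm y * (φ.symm x)⁻¹ * (φ.symm y)⁻¹
  rw [← map_inv, ← map_inv, ← map_mul, ← map_mul, ← map_mul, ← h, MulEquiv.symm_apply_apply]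

end CfsgLib.OreOrth.Minus
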