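import Cfsg.Agent.Lib.ClassicalForms.Ortho.Parity
import Cfsg.Agent.Lib.OreOrth.Minus.Blocks

/-!
For an element of the commutator subgroup written lower times Levi times upper: the middle part is a product of
two reflections, one of them prescribed, and the determinant of the block on `W` is tied to their values.
-/

set_option autoImplicit false
set_option linter.unusedSectionVars false

namespace CfsgLib.OreOrth.Minus

open QuadraticMap Matrix CfsgLib.ClassicalForms

variable {F : Type*} [Field F] {P : Type*} [AddCommGroup P] [Module F P] [FiniteDimensional F P] {m : ℕ}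
  {Q₀ : QuadraticForm F P}

/-- In an anisotropic plane an isometry fixing a non-zero vector is trivial or a reflection. -/
theorem eq_one_or_refl (hP : Module.finrank F P = 2) (hQ : Nondeg Q₀) (haniso : ∀ p, Q₀ p = 0 → p = 0) (T : orth Q₀)
    {z : P} (hz : z ≠ 0) (hTz : (T : P ≃ₗ[F] P) z = z) :
    T = 1 ∨ ∃ (d : P) (hd : Q₀ d ≠ 0), T = refl Q₀ d hd := by
  let θ : P →ₗ[F] F := QuadraticMap.polarBilin Q₀ z
  have hker : LinearMap.ker θ ≠ ⊥ := fun h => by
    have := LinearMap.finrank_le_finrank_of_injective (LinearMap.ker_eq_bot.1 h)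
    rw [hP, Module.finrank_self] at this
    omega
  obtain ⟨d, hd, hd0⟩ := Submodule.exists_mem_ne_zero_of_ne_bot hker
  have hQd : Q₀ d ≠ 0 := fun h => hd0 (haniso d h)
  have hzd : polar Q₀ z d = 0 := hd
  by_cases hT : T = 1
  · exact Or.inl hT
  refine Or.inr ⟨d, hQd, ?_⟩
  have hθ : θ ≠ 0 := fun h => hz (hQ z fun x => LinearMap.congr_fun h x)
  have hrange : LinearMap.range θ = ⊤ := by
    obtain ⟨x, hx⟩ : ∃ x, θ x ≠ 0 := by
      by_contra h
      simp only [not_exists, not_not] at h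
      exact hθ (LinearMap.ext h)
    refine eq_top_iff.2 fun c _ => ⟨(c / θ x) • x, ?_⟩
    rw [map_smul, smul_eq_mul, div_mul_cancel₀ c hx]
  have hk1 : Module.finrank F (LinearMap.ker θ) = 1 := by
    have := LinearMap.finrank_range_add_finrank_ker θ
    rw [hrange, finrank_top, Module.finrank_self, hP] at this
    omega
  have hline : ∀ x, ∃ c : F, (T : P ≃ₗ[F] P) x = x + c • d := fun x => by
    have hmem : (T : P ≃ₗ[F] P) x - x ∈ LinearMap.ker θ := by
      rw [LinearMap.mem_ker, map_sub, sub_eq_zero]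
      show polar Q₀ z ((T : P ≃ₗ[F] P) x) = polar Q₀ z x
      conv_lhs => rw [← hTz]
      exact polar_apply T z x
    obtain ⟨c, hc⟩ := exists_smul_eq_of_finrank_eq_one hk1
      (x := (⟨d, hd⟩ : LinearMap.ker θ)) (fun h => hd0 (congrArg Subtype.val h)) ⟨_, hmem⟩
    exact ⟨c, by rw [show c • d = (T : P ≃ₗ[F] P) x - x from congrArg Subtype.val hc]; abel⟩
  have hcase : ∀ x c, (T : P ≃ₗ[F] P) x = x + c • d → c = 0 ∨ c * Q₀ d = -polar Q₀ x d := fun x c hc => by
    have h := orth_apply T x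
    rw [hc, QuadraticMap.map_add ⇑Q₀, QuadraticMap.map_smul, polar_smul_right, smul_eq_mul, smul_eq_mul] at h
    have h' : c * (c * Q₀ d + polar Q₀ x d) = 0 := by linear_combination h
    exact (mul_eq_zero.1 h').imp id fun e => by linear_combination e
  obtain ⟨x0, hx0⟩ : ∃ x, (T : P ≃ₗ[F] P) x ≠ x := by
    by_contra h
    simp only [not_exists, not_not] at h
    exact hT (orth_ext h)
  obtain ⟨c0, hc0⟩ := hline x0
  have hc00 : c0 ≠ 0 := fun h => hx0 (by rw [hc0, h, zero_smul, add_zero])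
  have hc0' := (hcase x0 c0 hc0).resolve_left hc00
  have hb0 : polar Q₀ x0 d ≠ 0 := fun h => by
    rw [h, neg_zero] at hc0'
    exact hc00 ((mul_eq_zero.1 hc0').resolve_right hQd)
  refine orth_ext fun x => ?_
  set t := polar Q₀ x d / polar Q₀ x0 d with ht
  have hy : (T : P ≃ₗ[F] P) (x - t • x0) = x - t • x0 := by
    obtain ⟨c, hc⟩ := hline (x - t • x0)
    have hp : polar Q₀ (x - t • x0) d = 0 := by
      rw [polar_sub_left, polar_smul_left, smul_eq_mul, ht, div_mul_cancel₀ _ hb0, sub_self]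
    rcases hcase _ c hc with h | h
    · rw [hc, h, zero_smul, add_zero]
    · rw [hp, neg_zero] at h
      rw [hc, (mul_eq_zero.1 h).resolve_right hQd, zero_smul, add_zero]
  rw [map_sub, map_smul, hc0, sub_eq_iff_eq_add] at hy
  rw [hy, refl_apply]
  have : t * c0 = -((Q₀ d)⁻¹ * polar Q₀ x d) := by
    have e : c0 = -polar Q₀ x0 d / Q₀ d := by rw [← hc0', mul_div_cancel_right₀ _ hQd]
    rw [e, ht]
    field_simp
  rw [smul_add, smul_smul, this]
  module

/-- Levi elements trivial on `W` of a reflection. -/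
theorem lev_refl (d : P) (hd : Q₀ d ≠ 0) :
    ∃ h : form m Q₀ (eP d) ≠ 0, lev (m := m) (1, refl Q₀ d hd) = refl (form m Q₀) (eP d) h := by
  have hv : form m Q₀ (eP (m := m) d) = Q₀ d := by simp [form_apply, eP]
  refine ⟨by rw [hv]; exact hd, orth_ext fun x => ?_⟩
  rw [lev_apply, refl_apply, refl_apply]
  simp only [hv, polar_form]
  simp [eP, Prod.ext_iff]

/-- `lev (A, 1)` is two reflections times an element of the commutator subgroup. -/
theorem lev_eq_refl_mul (hm : 3 ≤ m) (A : GL (Fin m) F) :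
    ∃ (a b : Sp F m P) (ha : form m Q₀ a ≠ 0) (hb : form m Q₀ b ≠ 0),
      form m Q₀ a = -1 ∧ form m Q₀ b = -(A : Matrix (Fin m) (Fin m) F).det ∧
        (refl (form m Q₀) a ha * refl (form m Q₀) b hb)⁻¹ * lev (A, 1) ∈ commutator (orth (form m Q₀)) := by
  haveI : NeZero m := ⟨by omega⟩
  set c := (A : Matrix (Fin m) (Fin m) F).det with hc
  have hc0 : c ≠ 0 := (Matrix.GeneralLinearGroup.det A).ne_zero
  let e0 : Fin m → F := Pi.single 0 1
  let a : Sp F m P := (e0, 0, -e0)
  let b : Sp F m P := (e0, 0, -(c • e0))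
  have hva : form m Q₀ a = -1 := by simp [form_apply, a, e0]
  have hvb : form m Q₀ b = -c := by simp [form_apply, b, e0]
  have ha : form m Q₀ a ≠ 0 := by rw [hva]; simp
  have hb : form m Q₀ b ≠ 0 := by rw [hvb]; simpa using hc0
  let d : Fin m → F := fun i => if i = 0 then c else 1
  have hd : ∀ i, d i ≠ 0 := fun i => by simp only [d]; split_ifs <;> simp [hc0]
  let C : GL (Fin m) F :=
    ⟨diagonal d, diagonal fun i => (d i)⁻¹, by simp [diagonal_mul_diagonal, mul_inv_cancel₀ (hd _)],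
      by simp [diagonal_mul_diagonal, inv_mul_cancel₀ (hd _)]⟩
  have hrC : refl (form m Q₀) a ha * refl (form m Q₀) b hb = lev (C, 1) := by
    refine orth_ext fun x => ?_
    rw [orth_mul_apply, refl_apply, refl_apply, lev_apply, hva, hvb]
    simp only [polar_form, a, b, C, Units.inv_mk, diagonal_transpose, orth_one_apply, Prod.fst_sub,
      Prod.snd_sub, Prod.smul_fst, Prod.smul_snd, sub_dotProduct, smul_dotProduct, dotProduct_sub,
      dotProduct_smul, dotProduct_neg, e0, single_dotProduct, dotProduct_single, polar_zero_right,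
      Pi.single_eq_same, Pi.smul_apply, smul_eq_mul, Pi.neg_apply, Pi.sub_apply, smul_zero, sub_zero]
    refine Prod.ext ?_ (Prod.ext (by simp) ?_)
    · funext i
      by_cases hi : i = 0
      · subst hi; simp [d, mulVec_diagonal]; field_simp; ring
      · simp [d, hi, mulVec_diagonal]
    · funext i
      by_cases hi : i = 0
      · subst hi; simp [d, mulVec_diagonal]; field_simp; ring
      · simp [d, hi, mulVec_diagonal]
  refine ⟨a, b, ha, hb, hva, hvb, ?_⟩
  rw [hrC, ← map_inv, ← map_mul]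
  have hsq : IsSquare ((C⁻¹ * A : GL (Fin m) F) : Matrix (Fin m) (Fin m) F).det := by
    refine ⟨1, ?_⟩
    rw [mul_one, Units.val_mul, det_mul]
    show (diagonal fun i => (d i)⁻¹).det * _ = _
    rw [det_diagonal, Finset.prod_eq_single (0 : Fin m) (fun i _ hi => by simp [d, hi]) (by simp)]
    simp [d, ← hc, inv_mul_cancel₀ hc0]
  have e : ((C, (1 : orth Q₀))⁻¹ * (A, 1) : GL (Fin m) F × orth Q₀) = (C⁻¹ * A, 1) :=
    Prod.ext rfl (by simp)
  rw [e]
  exact lev_mem hm _ hsq

variable [Finite F]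

open scoped Classical in
/-- The middle part of an element of the commutator subgroup, relative to a given vector of `P`. -/
theorem exists_rotation (hP : Module.finrank F P = 2) (hQ : Nondeg Q₀)
    (haniso : ∀ p, Q₀ p = 0 → p = 0) (hm : 3 ≤ m) (hgen : reflGroup (form m Q₀) = ⊤)
    (χ : orth (form m Q₀) →* ℤˣ)
    (hχ : (2 : F) ≠ 0 → ∀ (v : Sp F m P) (hv : form m Q₀ v ≠ 0),
      (χ (refl (form m Q₀) v hv) = -1 ↔ IsSquare (1 / form m Q₀ v)))
    (hlow : low m Q₀ ≤ commutator (orth (form m Q₀))) (hup : up m Q₀ ≤ commutator (orth (form m Q₀)))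
    {g l u : orth (form m Q₀)} {A : GL (Fin m) F} {R : orth Q₀}
    (hg : g ∈ commutator (orth (form m Q₀))) (hl : l ∈ low m Q₀) (hu : u ∈ up m Q₀)
    (he : g = l * lev (A, R) * u) {σ : P} (hσ : Q₀ σ ≠ 0) :
    ∃ (d : P) (hd : Q₀ d ≠ 0), R = refl Q₀ σ hσ * refl Q₀ d hd ∧
      IsSquare ((A : Matrix (Fin m) (Fin m) F).det * Q₀ σ * Q₀ d) := by
  obtain ⟨a, b, ha, hb, hva, hvb, hrest⟩ := lev_eq_refl_mul (Q₀ := Q₀) hm A
  have hlev : lev (A, R) ∈ commutator (orth (form m Q₀)) := by
    have h : lev (A, R) = l⁻¹ * g * u⁻¹ := by rw [he]; group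
    rw [h]
    exact mul_mem (mul_mem (inv_mem (hlow hl)) hg) (inv_mem (hup hu))
  have hnd := nondeg_form (m := m) hQ
  let ψ : orth (form m Q₀) →* ℤˣ := parityHom hnd hgen
  have hψ : ∀ (v : Sp F m P) (hv : form m Q₀ v ≠ 0), ψ (refl (form m Q₀) v hv) = -1 := fun v hv =>
    parity_refl hnd hv
  have hfac : ∀ f : orth (form m Q₀) →* ℤˣ,
      f (refl (form m Q₀) a ha) * f (refl (form m Q₀) b hb) * f (lev (1, R)) = 1 := by
    intro f
    have h1 : f (lev (A, R)) = 1 := commutator_le_ker f hlev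
    have h2 : f ((refl (form m Q₀) a ha * refl (form m Q₀) b hb)⁻¹ * lev (A, 1)) = 1 :=
      commutator_le_ker f hrest
    rw [map_mul, map_inv, inv_mul_eq_one, map_mul] at h2
    rw [h2, ← map_mul, ← map_mul, Prod.mk_mul_mk, mul_one, one_mul, h1]
  have hpar : ψ (lev (1, R)) = 1 := by
    have h := hfac ψ
    rw [hψ, hψ, neg_mul_neg, one_mul, one_mul] at h
    exact h
  let ψ' : orth Q₀ →* ℤˣ := ψ.comp ((lev (m := m)).comp (MonoidHom.inr (GL (Fin m) F) (orth Q₀)))
  have hψ' : ∀ (v : P) (hv : Q₀ v ≠ 0), ψ' (refl Q₀ v hv) = -1 := fun v hv => by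
    obtain ⟨h, e⟩ := lev_refl (m := m) v hv
    show ψ (lev (1, refl Q₀ v hv)) = -1
    rw [e]; exact hψ _ _
  set T := refl Q₀ σ hσ * R with hT
  have hRT : R = refl Q₀ σ hσ * T := by rw [hT, ← mul_assoc, refl_mul_self, one_mul]
  have hT1 : T ≠ 1 := fun h => by
    rw [h, mul_one] at hRT
    have : ψ' R = 1 := hpar
    rw [hRT, hψ'] at this
    exact absurd this (by decide)
  obtain ⟨d, hd, hTd⟩ : ∃ (d : P) (hd : Q₀ d ≠ 0), T = refl Q₀ d hd := by
    by_cases hfix : ∃ z, z ≠ 0 ∧ (T : P ≃ₗ[F] P) z = z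
    · obtain ⟨z, hz, hTz⟩ := hfix
      exact (eq_one_or_refl hP hQ haniso T hz hTz).resolve_left hT1
    · exfalso
      have hσ0 : σ ≠ 0 := fun h => hσ (by rw [h, QuadraticMap.map_zero])
      have hne : (T : P ≃ₗ[F] P) σ - σ ≠ 0 := sub_ne_zero.2 fun h => hfix ⟨σ, hσ0, h⟩
      have hQne : Q₀ ((T : P ≃ₗ[F] P) σ - σ) ≠ 0 := fun h => hne (haniso _ h)
      obtain ⟨r, hr2, hrψ, hrfix, hrσ⟩ : ∃ r : orth Q₀, r * r = 1 ∧ ψ' r = -1 ∧
          (∃ z, z ≠ 0 ∧ (r : P ≃ₗ[F] P) z = z) ∧
          (r : P ≃ₗ[F] P) ((T : P ≃ₗ[F] P) σ) = σ := by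
        refine ⟨refl Q₀ _ hQne, refl_mul_self _ _, hψ' _ _, ?_, refl_sub_apply (orth_apply T σ) hQne⟩
        let θ : P →ₗ[F] F := QuadraticMap.polarBilin Q₀ ((T : P ≃ₗ[F] P) σ - σ)
        have hker : LinearMap.ker θ ≠ ⊥ := fun h => by
          have := LinearMap.finrank_le_finrank_of_injective (LinearMap.ker_eq_bot.1 h)
          rw [hP, Module.finrank_self] at this
          omega
        obtain ⟨z, hz, hz0⟩ := Submodule.exists_mem_ne_zero_of_ne_bot hker
        exact ⟨z, hz0, refl_fix hQne (by rw [polar_comm]; exact hz)⟩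
      rcases eq_one_or_refl hP hQ haniso (r * T) hσ0 (by rw [orth_mul_apply]; exact hrσ) with
        h | ⟨d2, hd2, h⟩
      · have hT' : T = r := mul_left_cancel (a := r) (h.trans hr2.symm)
        obtain ⟨z, hz0, hz⟩ := hrfix
        exact hfix ⟨z, hz0, by rw [hT']; exact hz⟩
      · have hT'' := congrArg ψ' h
        rw [map_mul, hrψ, hψ'] at hT''
        have : ψ' R = 1 := hpar
        rw [hRT, map_mul, hψ'] at this
        rcases Int.units_eq_one_or (ψ' T) with hh | hh <;> rw [hh] at this hT'' <;>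
          first
            | exact absurd this (by decide)
            | exact absurd hT'' (by decide)
  have hR : R = refl Q₀ σ hσ * refl Q₀ d hd := by rw [hRT, hTd]
  refine ⟨d, hd, hR, ?_⟩
  have := Fintype.ofFinite F
  by_cases h2 : (2 : F) = 0
  · have hc : ringChar F = 2 := by
      have := (ringChar.spec F 2).1 (by exact_mod_cast h2)
      exact ((Nat.dvd_prime Nat.prime_two).1 this).resolve_left CharP.ringChar_ne_one
    exact FiniteField.isSquare_of_char_two hc _
  obtain ⟨hσ', eσ⟩ := lev_refl (m := m) σ hσ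
  obtain ⟨hd', ed⟩ := lev_refl (m := m) d hd
  have hval : ∀ v : P, form m Q₀ (eP (m := m) v) = Q₀ v := fun v => by simp [form_apply, eP]
  have h4 := hfac χ
  rw [hR, show ((1 : GL (Fin m) F), refl Q₀ σ hσ * refl Q₀ d hd) =
      ((1, refl Q₀ σ hσ) : GL (Fin m) F × orth Q₀) * (1, refl Q₀ d hd) by simp,
    map_mul, eσ, ed, map_mul] at h4
  have key : ∀ (v : Sp F m P) (hv : form m Q₀ v ≠ 0),
      ((χ (refl (form m Q₀) v hv) : ℤˣ) : ℤ) = -quadraticChar F (form m Q₀ v) := fun v hv => by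
    rcases Int.units_eq_one_or (χ (refl (form m Q₀) v hv)) with h | h
    · have hn : ¬IsSquare (form m Q₀ v) := fun hh => by
        have := (hχ h2 v hv).2 (by rw [one_div]; exact hh.inv)
        rw [h] at this
        exact absurd this (by decide)
      rw [h, quadraticChar_neg_one_iff_not_isSquare.2 hn]; rfl
    · have hs : IsSquare (form m Q₀ v) := by simpa [one_div] using ((hχ h2 v hv).1 h).inv
      rw [h, (quadraticChar_one_iff_isSquare hv).2 hs]; rfl
  have h5 := congrArg (fun x : ℤˣ => (x : ℤ)) h4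
  simp only [Units.val_mul, Units.val_one, key, hva, hvb, hval] at h5
  have hdet : (A : Matrix (Fin m) (Fin m) F).det ≠ 0 := (Matrix.GeneralLinearGroup.det A).ne_zero
  rw [← quadraticChar_one_iff_isSquare (mul_ne_zero (mul_ne_zero hdet hσ) hd)]
  have h6 : quadraticChar F (-1) * quadraticChar F (-1) = 1 := by
    rw [← map_mul, neg_mul_neg, one_mul, map_one]
  rw [show -(A : Matrix (Fin m) (Fin m) F).det = -1 * (A : Matrix (Fin m) (Fin m) F).det by ring,
    map_mul] at h5
  rw [map_mul, map_mul]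
  linear_combination h5 - (quadraticChar F (A : Matrix (Fin m) (Fin m) F).det * quadraticChar F (Q₀ σ) *
    quadraticChar F (Q₀ d)) * h6

end CfsgLib.OreOrth.Minus
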