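import Cfsg.Agent.Lib.OreOrth.Minus.Step
import Cfsg.Agent.Lib.OreOrth.Minus.Rotation

/-!
Every element of the commutator subgroup other than `±1` has a conjugate lower times Levi times upper with
trivial middle part and a block of determinant one on `W`, non-scalar if `q ≥ 3`.
-/

set_option autoImplicit false
set_option linter.unusedSectionVars false

namespace CfsgLib.OreOrth.Minus

open QuadraticMap Matrix CfsgLib.ClassicalForms

variable {F : Type*} [Field F] {P : Type*} [AddCommGroup P] [Module F P] [FiniteDimensional F P] {m : ℕ}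
  {Q₀ : QuadraticForm F P}

/-- `g` is lower `(s, X)` times `lev (A, R)` times upper. -/
def LForm (g : orth (form m Q₀)) (A : GL (Fin m) F) (R : orth Q₀) (s : (Fin m → F) →ₗ[F] P)
    (X : Matrix (Fin m) (Fin m) F) : Prop :=
  ∃ hX : ∀ f, f ⬝ᵥ (X *ᵥ f) = -Q₀ (s f), ∃ u ∈ up m Q₀, g = lowEl s X hX * lev (A, R) * u

/-- Not a scalar matrix. -/
def NonScalar (A : GL (Fin m) F) : Prop := ∀ c : F, (A : Matrix (Fin m) (Fin m) F) ≠ c • 1

/-- Conjugation by a rank-one radical element. -/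
theorem LForm.step {g : orth (form m Q₀)} {A : GL (Fin m) F} {R : orth Q₀}
    {s : (Fin m → F) →ₗ[F] P} {X : Matrix (Fin m) (Fin m) F} (h : LForm g A R s X) (hQ : Nondeg Q₀)
    (w : Fin m → F) (p : P) (hδ : 1 + Q₀ p * Q₀ (s w) - polar Q₀ (s w) p ≠ 0) :
    ∃ (c : orth (form m Q₀)) (A' : GL (Fin m) F) (R' : orth Q₀) (s' : (Fin m → F) →ₗ[F] P)
      (X' : Matrix (Fin m) (Fin m) F), LForm (c * g * c⁻¹) (A' * A) (R' * R) s' X' ∧
        (∀ e, (A' : Matrix (Fin m) (Fin m) F) *ᵥ e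
          = e + (-Q₀ p * (w ⬝ᵥ (X *ᵥ e)) - polar Q₀ (s e) p) • w) ∧
        (A' : Matrix (Fin m) (Fin m) F).det = 1 + Q₀ p * Q₀ (s w) - polar Q₀ (s w) p ∧
        (∀ e, s' ((A' : Matrix (Fin m) (Fin m) F) *ᵥ e) = s e + (w ⬝ᵥ (X *ᵥ e)) • p) ∧
        ∀ z, (R' : P ≃ₗ[F] P) z = z - polar Q₀ z (s w) • p -
          ((Q₀ p * polar Q₀ z (s w) - polar Q₀ z p) / (1 + Q₀ p * Q₀ (s w) - polar Q₀ (s w) p)) •
            (s w - Q₀ (s w) • p) := by
  obtain ⟨hX, u0, hu0, hg⟩ := h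
  obtain ⟨s', X', hX', A', R', u, u', hu, hu', he, h1, h2, h3, h4⟩ := rank_one_step (w := w) (p := p) hX hQ hδ
  refine ⟨u, A', R', s', X', ⟨hX', (lev (A, R))⁻¹ * u' * lev (A, R) * u0 * u⁻¹, ?_, ?_⟩, h1, h2, h3, h4⟩
  · refine mul_mem (mul_mem ?_ hu0) (inv_mem hu)
    have := lev_conj_up (d := ((A, R) : GL (Fin m) F × orth Q₀)⁻¹) hu'
    rwa [map_inv, inv_inv] at this
  · rw [hg, show u * (lowEl s X hX * lev (A, R) * u0) * u⁻¹ = (u * lowEl s X hX) * lev (A, R) * u0 * u⁻¹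
      by group, he, show ((A' * A, R' * R) : GL (Fin m) F × orth Q₀) = (A', R') * (A, R) from rfl, map_mul]
    group

theorem exists_indep (w : Fin m → F) (hm : 2 ≤ m) : ∃ z, z ∉ Submodule.span F {w} := by
  by_contra h
  simp only [not_exists, not_not] at h
  have : Submodule.span F ({w} : Set (Fin m → F)) = ⊤ := eq_top_iff.2 fun z _ => h z
  have h2 := finrank_span_le_card (R := F) ({w} : Set (Fin m → F))
  rw [this, finrank_top, Module.finrank_fin_fun] at h2
  simp at h2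
  omega

/-- A rank-one change of a scalar block is not scalar. -/
theorem nonscalar_of_scalar (hm : 2 ≤ m) {A A' : GL (Fin m) F} {c : F} (hc : (A : Matrix (Fin m) (Fin m) F) = c • 1)
    {w : Fin m → F} {f : (Fin m → F) → F}
    (hA' : ∀ e, (A' : Matrix (Fin m) (Fin m) F) *ᵥ e = e + f e • w) (hfw : f w ≠ 0) (hw : w ≠ 0) :
    NonScalar (A' * A) := by
  intro k hk
  obtain ⟨z, hz⟩ := exists_indep w hm
  have he : ∀ e, k • e = c • e + (c * f e) • w := fun e => by
    have h := congrArg (fun M : Matrix (Fin m) (Fin m) F => M *ᵥ e) hk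
    rw [Units.val_mul] at h
    simp only [← mulVec_mulVec, hc, smul_mulVec, one_mulVec, mulVec_smul] at h
    rw [hA', smul_add, smul_smul] at h
    exact h.symm
  have hc0 : c ≠ 0 := by
    rintro rfl
    have := (Matrix.GeneralLinearGroup.det A).ne_zero
    apply this
    show (A : Matrix (Fin m) (Fin m) F).det = 0
    haveI : Nonempty (Fin m) := ⟨⟨0, by omega⟩⟩
    rw [hc, zero_smul, Matrix.det_zero]
  have hkc : k = c := by
    by_contra hne
    refine hz (Submodule.mem_span_singleton.2 ⟨(k - c)⁻¹ * (c * f z), ?_⟩)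
    have h := he z
    rw [mul_smul, ← show (k - c) • z = (c * f z) • w by rw [sub_smul, h]; abel, smul_smul,
      inv_mul_cancel₀ (sub_ne_zero.2 hne), one_smul]
  have h := he w
  rw [hkc, eq_comm, add_eq_left, smul_eq_zero] at h
  exact hfw ((mul_eq_zero.1 (h.resolve_right hw)).resolve_left hc0)

/-- Of two independent rank-one changes of a non-scalar block one is not scalar. -/
theorem nonscalar_of_two (hm : 3 ≤ m) {A A₁ A₂ : GL (Fin m) F} (hA : NonScalar A)
    {w₁ w₂ : Fin m → F} (hind : LinearIndependent F ![w₁, w₂]) {f₁ f₂ : (Fin m → F) → F}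
    (h₁ : ∀ e, (A₁ : Matrix (Fin m) (Fin m) F) *ᵥ e = e + f₁ e • w₁)
    (h₂ : ∀ e, (A₂ : Matrix (Fin m) (Fin m) F) *ᵥ e = e + f₂ e • w₂) :
    NonScalar (A₁ * A) ∨ NonScalar (A₂ * A) := by
  by_contra h
  simp only [NonScalar, not_or, not_forall, not_not] at h
  obtain ⟨⟨k₁, hk₁⟩, ⟨k₂, hk₂⟩⟩ := h
  set Am : Matrix (Fin m) (Fin m) F := (A : Matrix (Fin m) (Fin m) F)
  have e₁ : ∀ e, k₁ • e = Am *ᵥ e + f₁ (Am *ᵥ e) • w₁ := fun e => by
    have h := congrArg (fun M : Matrix (Fin m) (Fin m) F => M *ᵥ e) hk₁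
    rw [Units.val_mul] at h
    simp only [← mulVec_mulVec, smul_mulVec, one_mulVec, h₁] at h
    exact h.symm
  have e₂ : ∀ e, k₂ • e = Am *ᵥ e + f₂ (Am *ᵥ e) • w₂ := fun e => by
    have h := congrArg (fun M : Matrix (Fin m) (Fin m) F => M *ᵥ e) hk₂
    rw [Units.val_mul] at h
    simp only [← mulVec_mulVec, smul_mulVec, one_mulVec, h₂] at h
    exact h.symm
  have hdiff : ∀ e, (k₁ - k₂) • e = f₁ (Am *ᵥ e) • w₁ - f₂ (Am *ᵥ e) • w₂ := fun e => by
    rw [sub_smul, e₁, e₂]; abel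
  have hk : k₁ = k₂ := by
    by_contra hne
    have : Submodule.span F ({w₁, w₂} : Set (Fin m → F)) = ⊤ := eq_top_iff.2 fun z _ => by
      have hz : z = (k₁ - k₂)⁻¹ • (f₁ (Am *ᵥ z) • w₁ - f₂ (Am *ᵥ z) • w₂) := by
        rw [← hdiff, smul_smul, inv_mul_cancel₀ (sub_ne_zero.2 hne), one_smul]
      rw [hz]
      exact Submodule.smul_mem _ _ (Submodule.sub_mem _
        (Submodule.smul_mem _ _ (Submodule.subset_span (by simp)))
        (Submodule.smul_mem _ _ (Submodule.subset_span (by simp))))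
    classical
    have h2 := finrank_span_le_card (R := F) ({w₁, w₂} : Set (Fin m → F))
    rw [this, finrank_top, Module.finrank_fin_fun] at h2
    have h3 := Finset.card_le_two (a := w₁) (b := w₂)
    simp only [Set.toFinset_insert, Set.toFinset_singleton] at h2
    omega
  refine hA k₁ (Matrix.ext_iff_mulVec.2 fun e => ?_)
  have h0 := hdiff e
  rw [hk, sub_self, zero_smul, eq_comm, sub_eq_add_neg, ← neg_smul] at h0
  obtain ⟨hf, -⟩ := (LinearIndependent.pair_iff.1 hind) _ _ h0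
  rw [smul_mulVec, one_mulVec, e₁, hf, zero_smul, add_zero]

/-- The middle part after a step with `d = s w - Q (s w) • p`. -/
theorem middle_eq (R' : orth Q₀) {σ d : P} (hσ : Q₀ σ ≠ 0) (hd : Q₀ d ≠ 0) {p : P}
    (hp : p = (Q₀ σ)⁻¹ • (σ - d))
    (hR : ∀ z, (R' : P ≃ₗ[F] P) z = z - polar Q₀ z σ • p -
      ((Q₀ p * polar Q₀ z σ - polar Q₀ z p) / (1 + Q₀ p * Q₀ σ - polar Q₀ σ p)) • (σ - Q₀ σ • p)) :
    R' = refl Q₀ d hd * refl Q₀ σ hσ := by
  refine orth_ext fun z => ?_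
  have h1 : σ - Q₀ σ • p = d := by
    rw [hp, smul_smul, mul_inv_cancel₀ hσ, one_smul]; abel
  have hQp : Q₀ p = (Q₀ σ)⁻¹ * (Q₀ σ)⁻¹ * (Q₀ σ + Q₀ d - polar Q₀ σ d) := by
    rw [hp, QuadraticMap.map_smul, map_sub_eq, smul_eq_mul]
  have hzp : ∀ y, polar Q₀ y p = (Q₀ σ)⁻¹ * (polar Q₀ y σ - polar Q₀ y d) := fun y => by
    rw [hp, polar_smul_right, polar_sub_right, smul_eq_mul]
  have hδ : 1 + Q₀ p * Q₀ σ - polar Q₀ σ p = Q₀ d * (Q₀ σ)⁻¹ := by
    rw [hQp, hzp, polar_self_mul]; field_simp; ring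
  rw [hR, h1, hδ, hQp, hzp, orth_mul_apply, refl_apply, refl_apply, polar_sub_left, polar_smul_left,
    smul_eq_mul, hp]
  match_scalars <;> field_simp <;> ring

variable [Finite F]

/-- A value of `Q₀` different from a given non-zero one, when `q ≥ 3`. -/
theorem exists_value_ne (hP : Module.finrank F P = 2) (haniso : ∀ p, Q₀ p = 0 → p = 0) (hF : 3 ≤ Nat.card F)
    {σ : P} (hσ : σ ≠ 0) : ∃ d, Q₀ d ≠ 0 ∧ Q₀ d ≠ Q₀ σ := by
  have hN : Q₀ σ ≠ 0 := fun h => hσ (haniso σ h)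
  by_cases h2 : (2 : F) = 0
  · obtain ⟨μ, hμ0, hμ1⟩ : ∃ μ : F, μ ≠ 0 ∧ μ ≠ 1 := by
      by_contra h
      simp only [not_exists, not_and, not_not] at h
      have := Fintype.ofFinite F
      classical
      have hle : (Finset.univ : Finset F) ⊆ {0, 1} := fun x _ => by
        by_cases hx : x = 0
        · simp [hx]
        · simp [h x hx]
      have h3 := (Finset.card_le_card hle).trans Finset.card_le_two
      rw [Finset.card_univ, ← Nat.card_eq_fintype_card] at h3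
      omega
    refine ⟨μ • σ, ?_, ?_⟩ <;> rw [QuadraticMap.map_smul, smul_eq_mul]
    · exact mul_ne_zero (mul_ne_zero hμ0 hμ0) hN
    · intro h
      have h' : μ * μ = 1 := mul_right_cancel₀ hN (h.trans (one_mul _).symm)
      haveI : CharP F 2 := CharTwo.of_one_ne_zero_of_two_eq_zero one_ne_zero h2
      rcases mul_self_eq_one_iff.1 h' with e | e
      · exact hμ1 e
      · exact hμ1 (by rwa [CharTwo.neg_eq] at e)
  · let θ : P →ₗ[F] F := QuadraticMap.polarBilin Q₀ σ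
    have hker : LinearMap.ker θ ≠ ⊥ := fun h => by
      have := LinearMap.finrank_le_finrank_of_injective (LinearMap.ker_eq_bot.1 h)
      rw [hP, Module.finrank_self] at this
      omega
    obtain ⟨t, ht, ht0⟩ := Submodule.exists_mem_ne_zero_of_ne_bot hker
    have hQt : Q₀ t ≠ 0 := fun h => ht0 (haniso t h)
    by_cases he : Q₀ t = Q₀ σ
    · refine ⟨σ + t, ?_, ?_⟩ <;> rw [QuadraticMap.map_add ⇑Q₀, show polar Q₀ σ t = 0 from ht, add_zero, he]
      · rw [← two_mul]; exact mul_ne_zero h2 hN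
      · exact fun h => hN (by linear_combination h)
    · exact ⟨t, hQt, he⟩

/-- The block is scalar only if it can be moved. -/
theorem exists_nonscalar (hP : Module.finrank F P = 2) (hQ : Nondeg Q₀) (haniso : ∀ p, Q₀ p = 0 → p = 0)
    (hm : 3 ≤ m) (hF : 3 ≤ Nat.card F) {g : orth (form m Q₀)} {A : GL (Fin m) F} {R : orth Q₀}
    {s : (Fin m → F) →ₗ[F] P} {X : Matrix (Fin m) (Fin m) F} (h : LForm g A R s X) (hs : s ≠ 0) :
    ∃ c A₁ R₁ s₁ X₁, LForm (c * g * c⁻¹) A₁ R₁ s₁ X₁ ∧ s₁ ≠ 0 ∧ NonScalar A₁ := by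
  by_cases hns : NonScalar A
  · exact ⟨1, A, R, s, X, by simpa using h, hs, hns⟩
  simp only [NonScalar, not_forall, not_not] at hns
  obtain ⟨c, hc⟩ := hns
  obtain ⟨w, hw⟩ : ∃ w, s w ≠ 0 := by
    by_contra h'
    simp only [not_exists, not_not] at h'
    exact hs (LinearMap.ext h')
  have hN : Q₀ (s w) ≠ 0 := fun h' => hw (haniso _ h')
  obtain ⟨d, hd0, hd1⟩ := exists_value_ne hP haniso hF hw
  set p := (Q₀ (s w))⁻¹ • (s w - d) with hp
  have hδ : 1 + Q₀ p * Q₀ (s w) - polar Q₀ (s w) p = Q₀ d * (Q₀ (s w))⁻¹ := by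
    rw [hp, QuadraticMap.map_smul, map_sub_eq, polar_smul_right, polar_sub_right, polar_self_mul, smul_eq_mul,
      smul_eq_mul]
    field_simp; ring
  have hδ0 : 1 + Q₀ p * Q₀ (s w) - polar Q₀ (s w) p ≠ 0 := by
    rw [hδ]; exact mul_ne_zero hd0 (inv_ne_zero hN)
  obtain ⟨u, A', R', s', X', hF', hA', -, hs', -⟩ := h.step hQ w p hδ0
  obtain ⟨hX, -⟩ := h
  refine ⟨u, A' * A, R' * R, s', X', hF', fun h' => ?_,
    nonscalar_of_scalar (by omega) hc hA' ?_ (fun h' => hw (by rw [h', map_zero]))⟩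
  · have := hs' w
    rw [h', LinearMap.zero_apply, hX, hp, smul_smul, neg_mul, mul_inv_cancel₀ hN, neg_one_smul,
      ← sub_eq_add_neg, sub_sub_cancel] at this
    exact hd0 (by rw [← this, QuadraticMap.map_zero])
  · intro h'
    rw [hX] at h'
    apply hd1
    have e : Q₀ d * (Q₀ (s w))⁻¹ = 1 := by rw [← hδ]; linear_combination h'
    rwa [← div_eq_mul_inv, div_eq_one_iff_eq hN] at e

/-- From a lower part with non-zero `s`: trivial middle and determinant one. -/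
theorem exists_normal_form (hP : Module.finrank F P = 2) (hQ : Nondeg Q₀)
    (haniso : ∀ p, Q₀ p = 0 → p = 0) (hm : 3 ≤ m) (hgen : reflGroup (form m Q₀) = ⊤)
    (χ : orth (form m Q₀) →* ℤˣ)
    (hχ : (2 : F) ≠ 0 → ∀ (v : Sp F m P) (hv : form m Q₀ v ≠ 0),
      (χ (refl (form m Q₀) v hv) = -1 ↔ IsSquare (1 / form m Q₀ v)))
    (hlow : low m Q₀ ≤ commutator (orth (form m Q₀))) (hup : up m Q₀ ≤ commutator (orth (form m Q₀)))
    {g : orth (form m Q₀)} (hg : g ∈ commutator (orth (form m Q₀))) {A : GL (Fin m) F} {R : orth Q₀}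
    {s : (Fin m → F) →ₗ[F] P} {X : Matrix (Fin m) (Fin m) F} (h : LForm g A R s X) (hs : s ≠ 0) :
    ∃ c A₁ s₁ X₁, LForm (c * g * c⁻¹) A₁ (1 : orth Q₀) s₁ X₁ ∧
      (A₁ : Matrix (Fin m) (Fin m) F).det = 1 ∧ (NonScalar A → NonScalar A₁) ∧ s₁ ≠ 0 := by
  classical
  have hchoose : ∀ w, s w ≠ 0 → ∃ c A₁ s₁ X₁, LForm (c * g * c⁻¹) A₁ (1 : orth Q₀) s₁ X₁ ∧
      (A₁ : Matrix (Fin m) (Fin m) F).det = 1 ∧ s₁ ≠ 0 ∧ ∃ (A' : GL (Fin m) F) (f : (Fin m → F) → F),
        A₁ = A' * A ∧ ∀ e, (A' : Matrix (Fin m) (Fin m) F) *ᵥ e = e + f e • w := by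
    intro w hw
    have hN : Q₀ (s w) ≠ 0 := fun h' => hw (haniso _ h')
    obtain ⟨hX, u0, hu0, hge⟩ := h
    obtain ⟨d, hd, hR, hsq⟩ := exists_rotation hP hQ haniso hm hgen χ hχ hlow hup hg (lowEl_mem s X hX) hu0
      hge (σ := s w) hN
    set c := (A : Matrix (Fin m) (Fin m) F).det with hc
    have hc0 : c ≠ 0 := (Matrix.GeneralLinearGroup.det A).ne_zero
    obtain ⟨r, hr⟩ := hsq
    have hr0 : r ≠ 0 := fun h' => mul_ne_zero (mul_ne_zero hc0 hN) hd (by rw [hr, h', mul_zero])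
    set lam := r / (c * Q₀ d) with hlam
    have hlam0 : lam ≠ 0 := div_ne_zero hr0 (mul_ne_zero hc0 hd)
    have hd' : Q₀ (lam • d) ≠ 0 := smul_nonsing hd hlam0
    have hval : Q₀ (lam • d) * c = Q₀ (s w) := by
      rw [QuadraticMap.map_smul, smul_eq_mul, hlam]
      field_simp
      linear_combination -hr
    set p := (Q₀ (s w))⁻¹ • (s w - lam • d) with hp
    have hδ : 1 + Q₀ p * Q₀ (s w) - polar Q₀ (s w) p = Q₀ (lam • d) * (Q₀ (s w))⁻¹ := by
      rw [hp, QuadraticMap.map_smul, polar_smul_right Q₀ (Q₀ (s w))⁻¹, map_sub_eq, polar_sub_right,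
        polar_self_mul, smul_eq_mul, smul_eq_mul]
      field_simp; ring
    have hδ0 : 1 + Q₀ p * Q₀ (s w) - polar Q₀ (s w) p ≠ 0 := by
      rw [hδ]; exact mul_ne_zero hd' (inv_ne_zero hN)
    have hL : LForm g A R s X := ⟨hX, u0, hu0, hge⟩
    obtain ⟨u, A', R', s', X', hF', hA', hdet, hs', hR'⟩ := hL.step hQ w p hδ0
    have hR'e : R' * R = 1 := by
      rw [middle_eq R' hN hd' hp hR', hR, refl_smul hd hlam0, mul_assoc, ← mul_assoc (refl Q₀ (s w) hN),
        refl_mul_self, one_mul, refl_mul_self]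
    rw [hR'e] at hF'
    refine ⟨u, A' * A, s', X', hF', ?_, fun h' => ?_, A', _, rfl, hA'⟩
    swap
    · have := hs' w
      rw [h', LinearMap.zero_apply, hX, hp, smul_smul, neg_mul, mul_inv_cancel₀ hN, neg_one_smul,
        ← sub_eq_add_neg, sub_sub_cancel] at this
      exact hd' (by rw [← this, QuadraticMap.map_zero])
    rw [Units.val_mul, det_mul, hdet, hδ, ← hc, mul_right_comm, hval, mul_inv_cancel₀ hN]
  obtain ⟨w₁, hw₁⟩ : ∃ w, s w ≠ 0 := by
    by_contra h'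
    simp only [not_exists, not_not] at h'
    exact hs (LinearMap.ext h')
  have hw₁0 : w₁ ≠ 0 := fun h' => hw₁ (by rw [h', map_zero])
  obtain ⟨z, hz⟩ := exists_indep w₁ (by omega)
  obtain ⟨w₂, hw₂, hind⟩ : ∃ w₂, s w₂ ≠ 0 ∧ LinearIndependent F ![w₁, w₂] := by
    by_cases hsz : s z = 0
    · refine ⟨w₁ + z, by rw [map_add, hsz, add_zero]; exact hw₁, ?_⟩
      rw [LinearIndependent.pair_iff' hw₁0]
      intro t ht
      refine hz (Submodule.mem_span_singleton.2 ⟨t - 1, ?_⟩)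
      rw [sub_smul, ht, one_smul]; abel
    · refine ⟨z, hsz, ?_⟩
      rw [LinearIndependent.pair_iff' hw₁0]
      exact fun t ht => hz (Submodule.mem_span_singleton.2 ⟨t, ht⟩)
  obtain ⟨c₁, A₁, s₁, X₁, hF₁, hd₁, hn₁, B₁, f₁, hB₁, hf₁⟩ := hchoose w₁ hw₁
  obtain ⟨c₂, A₂, s₂, X₂, hF₂, hd₂, hn₂, B₂, f₂, hB₂, hf₂⟩ := hchoose w₂ hw₂
  by_cases hns : NonScalar A → NonScalar A₁
  · exact ⟨c₁, A₁, s₁, X₁, hF₁, hd₁, hns, hn₁⟩
  · refine ⟨c₂, A₂, s₂, X₂, hF₂, hd₂, fun hA => ?_, hn₂⟩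
    rcases nonscalar_of_two hm hA hind hf₁ hf₂ with h' | h'
    · exact absurd (fun _ => by rw [hB₁]; exact h') hns
    · rw [hB₂]; exact h'

/-- A non-trivial lower part with `s = 0` is moved to one with `s ≠ 0`. -/
theorem exists_s_ne_zero (hQ : Nondeg Q₀) (hP : ∃ p : P, p ≠ 0) {g : orth (form m Q₀)} {A : GL (Fin m) F}
    {R : orth Q₀} {s : (Fin m → F) →ₗ[F] P} {X : Matrix (Fin m) (Fin m) F} (h : LForm g A R s X)
    (hne : s ≠ 0 ∨ X ≠ 0) : ∃ c A₁ R₁ s₁ X₁, LForm (c * g * c⁻¹) A₁ R₁ s₁ X₁ ∧ s₁ ≠ 0 := by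
  by_cases hs : s ≠ 0
  · exact ⟨1, A, R, s, X, by simpa using h, hs⟩
  rw [not_not] at hs
  obtain ⟨p, hp⟩ := hP
  obtain ⟨e₀, he₀⟩ : ∃ e, X *ᵥ e ≠ 0 := by
    by_contra h'
    simp only [not_exists, not_not] at h'
    exact hne.elim (fun h0 => h0 hs) fun h0 => h0 (Matrix.ext_iff_mulVec.2 fun e => by rw [h', zero_mulVec])
  obtain ⟨w, hw⟩ : ∃ w, w ⬝ᵥ (X *ᵥ e₀) ≠ 0 := by
    by_contra h'
    simp only [not_exists, not_not] at h'
    exact he₀ (dotProduct_eq _ _ fun w => by rw [zero_dotProduct, dotProduct_comm]; exact h' w)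
  obtain ⟨u, A', R', s', X', hF', -, -, hs', -⟩ := h.step hQ w p (by simp [hs])
  refine ⟨u, A' * A, R' * R, s', X', hF', fun h' => ?_⟩
  have := hs' e₀
  rw [h', hs, LinearMap.zero_apply, LinearMap.zero_apply, zero_add] at this
  rcases smul_eq_zero.1 this.symm with h0 | h0
  · exact hw h0
  · exact hp h0

/-- Every element of the radical of the stabiliser of `W'` is of the form `(s, X)`. -/
theorem exists_lowEl {l : orth (form m Q₀)} (hl : l ∈ low m Q₀) :
    ∃ s X, ∃ hX : ∀ f, f ⬝ᵥ (X *ᵥ f) = -Q₀ (s f), l = lowEl s X hX := by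
  obtain ⟨s, X, hX, e⟩ := exists_upEl (show swap * l * swap ∈ up m Q₀ from hl)
  refine ⟨s, X, hX, ?_⟩
  rw [lowEl, ← e]
  simp only [← mul_assoc, swap_mul_swap, one_mul]
  rw [mul_assoc, swap_mul_swap, mul_one]

theorem lowEl_zero {s : (Fin m → F) →ₗ[F] P} {X : Matrix (Fin m) (Fin m) F}
    {hX : ∀ f, f ⬝ᵥ (X *ᵥ f) = -Q₀ (s f)} (hs : s = 0) (hX0 : X = 0) :
    lowEl s X hX = (1 : orth (form m Q₀)) :=
  orth_ext fun x => by
    subst hs hX0
    have hb : beta Q₀ (0 : (Fin m → F) →ₗ[F] P) x.2.1 = 0 := funext fun i => polar_zero_right _ _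
    simp [lowEl_apply, orth_one_apply, hb]

/-- An element is `±1` or has a conjugate with `s ≠ 0`. -/
theorem exists_conj_s_ne_zero (hm : 3 ≤ m) (hQ : Nondeg Q₀) (haniso : ∀ p, Q₀ p = 0 → p = 0) (hP : ∃ p : P, p ≠ 0)
    (g : orth (form m Q₀)) :
    (g = 1 ∨ ∀ v, (g : Sp F m P ≃ₗ[F] Sp F m P) v = -v) ∨
      ∃ c A R s X, LForm (c * g * c⁻¹) A R s X ∧ s ≠ (0 : (Fin m → F) →ₗ[F] P) := by
  obtain ⟨u, hu, A, hA⟩ := exists_opposite hP haniso g
  obtain ⟨s, X, hX, R, u0, hu0, he, -⟩ := exists_ldu hQ (u * g * u⁻¹) A hA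
  have main : ∀ (c : orth (form m Q₀)) A' R' s' X', LForm (c * g * c⁻¹) A' R' s' X' → (s' ≠ 0 ∨ X' ≠ 0) →
      ∃ c A R s X, LForm (c * g * c⁻¹) A R s X ∧ s ≠ (0 : (Fin m → F) →ₗ[F] P) := by
    intro c A' R' s' X' h hne
    obtain ⟨c', A₁, R₁, s₁, X₁, h₁, hs₁⟩ := exists_s_ne_zero hQ hP h hne
    exact ⟨c' * c, A₁, R₁, s₁, X₁, by convert h₁ using 1; group, hs₁⟩
  by_cases hne : s ≠ 0 ∨ X ≠ 0
  · exact Or.inr (main u A R s X ⟨hX, u0, hu0, he⟩ hne)
  simp only [not_or, not_not] at hne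
  rw [lowEl_zero hne.1 hne.2, one_mul] at he
  have hsw : (swap : orth (form m Q₀))⁻¹ = swap := inv_eq_of_mul_eq_one_right swap_mul_swap
  by_cases hu1 : u0 = 1
  · rw [hu1, mul_one] at he
    -- a Levi element
    by_cases hcomm : ∀ l ∈ low m Q₀, l * lev (A, R) = lev (A, R) * l
    · left
      obtain ⟨p, hp⟩ := hP
      have key : ∀ (w e : Fin m → F) (q : P),
          (w ⬝ᵥ e) • (R : P ≃ₗ[F] P) q = (w ⬝ᵥ ((A : Matrix (Fin m) (Fin m) F) *ᵥ e)) • q := by
        intro w e q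
        let wl : (Fin m → F) →ₗ[F] F :=
          { toFun := fun f => w ⬝ᵥ f, map_add' := fun _ _ => dotProduct_add _ _ _,
            map_smul' := fun c f => by simp [dotProduct_smul] }
        let sl : (Fin m → F) →ₗ[F] P := (LinearMap.toSpanSingleton F P q) ∘ₗ wl
        have hXl : ∀ f, f ⬝ᵥ (((-Q₀ q) • vecMulVec w w) *ᵥ f) = -Q₀ (sl f) := fun f => by
          show _ = -Q₀ ((w ⬝ᵥ f) • q)
          rw [smul_mulVec, vecMulVec_mulVec, dotProduct_smul, QuadraticMap.map_smul]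
          simp [dotProduct_comm f w]
          ring
        have h := congrArg (fun x : orth (form m Q₀) => ((x : Sp F m P ≃ₗ[F] Sp F m P) (eW e)).2.1)
          (hcomm _ (lowEl_mem sl _ hXl))
        simp only [orth_mul_apply, lev_apply, lowEl_apply, eW, map_zero, zero_add] at h
        show _ = _
        have h' : (w ⬝ᵥ ((A : Matrix (Fin m) (Fin m) F) *ᵥ e)) • q = (R : P ≃ₗ[F] P) ((w ⬝ᵥ e) • q) := h
        rw [h', map_smul]
      obtain ⟨i⟩ : Nonempty (Fin m) := ⟨⟨0, by omega⟩⟩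
      set k := (A : Matrix (Fin m) (Fin m) F) i i with hk
      have hRk : ∀ q, (R : P ≃ₗ[F] P) q = k • q := fun q => by
        have := key (Pi.single i 1) (Pi.single i 1) q
        simpa [hk] using this
      have hAk : ∀ e, (A : Matrix (Fin m) (Fin m) F) *ᵥ e = k • e := fun e => by
        refine dotProduct_eq _ _ fun w => ?_
        have h := key w e p
        rw [hRk, smul_smul] at h
        have h' := smul_left_injective F hp h
        rw [dotProduct_comm, ← h', smul_dotProduct, smul_eq_mul, dotProduct_comm e w, mul_comm]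
      have hk2 : k * k = 1 := by
        have h := orth_apply R p
        rw [hRk, QuadraticMap.map_smul, smul_eq_mul] at h
        exact mul_right_cancel₀ (fun h0 => hp (haniso p h0)) (h.trans (one_mul _).symm)
      have hinvT : ∀ f, ((A⁻¹ : GL (Fin m) F) : Matrix (Fin m) (Fin m) F)ᵀ *ᵥ f = k • f := fun f => by
        have hAm : (A : Matrix (Fin m) (Fin m) F) = k • 1 :=
          Matrix.ext_iff_mulVec.2 fun e => by rw [hAk, smul_mulVec, one_mulVec]
        have hAi : A⁻¹ = A := inv_eq_of_mul_eq_one_right (Units.ext (by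
          rw [Units.val_mul, Units.val_one, hAm, smul_mul_smul_comm, mul_one, hk2, one_smul]))
        rw [hAi, hAm, transpose_smul, transpose_one, smul_mulVec, one_mulVec]
      have hlev : ∀ v, (lev (A, R) : Sp F m P ≃ₗ[F] Sp F m P) v = k • v := fun v => by
        rw [lev_apply, hAk, hRk, hinvT]
        rfl
      have hgv : ∀ v, (g : Sp F m P ≃ₗ[F] Sp F m P) v = k • v := fun v => by
        have e : g = u⁻¹ * lev (A, R) * u := by rw [← he]; group
        rw [e, orth_mul_apply, orth_mul_apply, hlev, map_smul, orth_inv_apply]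
      rcases mul_self_eq_one_iff.1 hk2 with h | h
      · exact Or.inl (orth_ext fun v => by rw [hgv, h, one_smul]; rfl)
      · exact Or.inr fun v => by rw [hgv, h, neg_one_smul]
    · simp only [not_forall] at hcomm
      obtain ⟨l, hl, hc⟩ := hcomm
      have hl' : l * lev (A, R) * l⁻¹ * (lev (A, R))⁻¹ ∈ low m Q₀ := by
        have h1 := swap_conj_lev_low (d := (A, R)) (inv_mem hl)
        have : l * lev (A, R) * l⁻¹ * (lev (A, R))⁻¹ = l * (lev (A, R) * l⁻¹ * (lev (A, R))⁻¹) := by group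
        rw [this]
        exact mul_mem hl h1
      obtain ⟨s', X', hX', e'⟩ := exists_lowEl hl'
      refine Or.inr (main (l * u) A R s' X' ⟨hX', 1, one_mem _, ?_⟩ ?_)
      · rw [← e', show l * u * g * (l * u)⁻¹ = l * (u * g * u⁻¹) * l⁻¹ by group, he]
        group
      · by_contra h0
        simp only [not_or, not_not] at h0
        rw [lowEl_zero h0.1 h0.2, mul_inv_eq_one, mul_inv_eq_iff_eq_mul] at e'
        exact hc e'
  · have hl0 : swap * u0 * swap ∈ low m Q₀ := by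
      show swap * (swap * u0 * swap) * swap ∈ up m Q₀
      rw [← mul_assoc, ← mul_assoc, swap_mul_swap, one_mul, mul_assoc, swap_mul_swap, mul_one]
      exact hu0
    have hl' : lev (invT A, R) * (swap * u0 * swap) * (lev (invT A, R))⁻¹ ∈ low m Q₀ := swap_conj_lev_low hl0
    obtain ⟨s', X', hX', e'⟩ := exists_lowEl hl'
    refine Or.inr (main (swap * u) (invT A) R s' X' ⟨hX', 1, one_mem _, ?_⟩ ?_)
    · rw [← e', show swap * u * g * (swap * u)⁻¹ = swap * (u * g * u⁻¹) * (swap : orth (form m Q₀))⁻¹ by group,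
        he, hsw, ← mul_assoc, swap_lev]
      group
    · by_contra h0
      simp only [not_or, not_not] at h0
      rw [lowEl_zero h0.1 h0.2, conj_eq_one_iff] at e'
      apply hu1
      calc u0 = swap * (swap * u0 * swap) * (swap : orth (form m Q₀)) := by
            simp only [← mul_assoc, swap_mul_swap, one_mul]
            rw [mul_assoc, swap_mul_swap, mul_one]
        _ = 1 := by rw [e', mul_one, swap_mul_swap]

end CfsgLib.OreOrth.Minus
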