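import Cfsg.Agent.Lib.OreOrth.Minus.Space

/-!
Conjugation by the radical: an invertible block `W → W`, and the effect of a rank-one element on the block
`W → W` and on the middle part.
-/

set_option autoImplicit false
set_option linter.unusedSectionVars false

namespace CfsgLib.OreOrth.Minus

open QuadraticMap Matrix CfsgLib.ClassicalForms

variable {F : Type*} [Field F] {P : Type*} [AddCommGroup P] [Module F P] [FiniteDimensional F P] {m : ℕ}
  {Q₀ : QuadraticForm F P}

/-- Conjugation by the radical only changes the block `W → W` through the first coordinate. -/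
theorem conj_up_eW {u g : orth (form m Q₀)} (hu : u ∈ up m Q₀) (e : Fin m → F) :
    ((u * g * u⁻¹ : orth (form m Q₀)) : Sp F m P ≃ₗ[F] Sp F m P) (eW e)
      = (u : Sp F m P ≃ₗ[F] Sp F m P) ((g : Sp F m P ≃ₗ[F] Sp F m P) (eW e)) := by
  rw [orth_mul_apply, orth_mul_apply, up_fix (inv_mem hu)]

/-- The superdiagonal. -/
def supDiag (F : Type*) [Field F] (k : ℕ) : Matrix (Fin k) (Fin k) F :=
  fun i j => if (j : ℕ) = i + 1 then 1 else 0

/-- A non-degenerate matrix with quadratic form `c x₀²`. -/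
theorem exists_quad_inj (k : ℕ) {c : F} (hc : c ≠ 0) :
    ∃ (lam : (Fin k → F) →ₗ[F] F) (M : Matrix (Fin k) (Fin k) F),
      (∀ y, y ⬝ᵥ (M *ᵥ y) = c * (lam y * lam y)) ∧ ∀ y, M *ᵥ y = 0 → y = 0 := by
  rcases k with _ | k
  · exact ⟨0, 0, fun y => by simp [Subsingleton.elim y 0], fun y _ => Subsingleton.elim _ _⟩
  refine ⟨LinearMap.proj 0, Matrix.single 0 0 c + (supDiag F (k + 1) - (supDiag F (k + 1))ᵀ),
    fun y => ?_, fun y hy => ?_⟩
  · rw [add_mulVec, sub_mulVec, dotProduct_add, dotProduct_sub, mulVec_transpose,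
      dotProduct_comm y (y ᵥ* supDiag F (k + 1)), ← dotProduct_mulVec, sub_self, add_zero,
      Matrix.single_mulVec]
    simp [dotProduct, Function.update_apply, mul_comm, mul_left_comm]
  · have hq : c * (y 0 * y 0) = 0 := by
      have h : y ⬝ᵥ ((Matrix.single 0 0 c + (supDiag F (k + 1) - (supDiag F (k + 1))ᵀ)) *ᵥ y) = 0 := by
        rw [hy, dotProduct_zero]
      rw [add_mulVec, sub_mulVec, dotProduct_add, dotProduct_sub, mulVec_transpose,
        dotProduct_comm y (y ᵥ* supDiag F (k + 1)), ← dotProduct_mulVec, sub_self, add_zero,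
        Matrix.single_mulVec] at h
      simpa [dotProduct, Function.update_apply, mul_comm, mul_left_comm] using h
    have h0 : y 0 = 0 := by simpa [hc] using hq
    have key : ∀ i : ℕ, ∀ hi : i < k + 1, y ⟨i, hi⟩ = 0 := by
      intro i
      induction i using Nat.strong_induction_on with
      | _ i ih =>
        intro hi
        rcases i with _ | j
        · exact h0
        have h := congrFun hy ⟨j, by omega⟩
        simp only [mulVec, dotProduct, Matrix.add_apply, Matrix.sub_apply, Matrix.transpose_apply, supDiag,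
          add_mul, sub_mul, Finset.sum_add_distrib, Finset.sum_sub_distrib, Pi.zero_apply, ite_mul,
          one_mul, zero_mul] at h
        rw [Finset.sum_eq_zero (fun x _ => ?_), zero_add, Finset.sum_eq_single ⟨j + 1, hi⟩ ?_ (by simp),
          if_pos rfl, Finset.sum_eq_zero (fun x _ => ?_), sub_zero] at h
        · exact h
        · split_ifs with hx
          · exact ih x (by omega) x.2
          · rfl
        · intro x _ hx
          rw [if_neg]
          exact fun e => hx (Fin.ext e)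
        · by_cases hx : x = 0
          · rw [hx, h0, mul_zero]
          · rw [Matrix.single_apply, if_neg (fun e => hx e.2.symm), zero_mul]
    exact funext fun i => key i i.2

/-- Every isometry has a conjugate under the radical with invertible block `W → W`. -/
theorem exists_opposite (hP : ∃ p : P, p ≠ 0) (haniso : ∀ p, Q₀ p = 0 → p = 0) (g : orth (form m Q₀)) :
    ∃ u ∈ up m Q₀, ∃ A : GL (Fin m) F, ∀ e,
      (((u * g * u⁻¹ : orth (form m Q₀)) : Sp F m P ≃ₗ[F] Sp F m P) (eW e)).1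
        = (A : Matrix (Fin m) (Fin m) F) *ᵥ e := by
  obtain ⟨p, hp⟩ := hP
  have hQp : -Q₀ p ≠ 0 := neg_ne_zero.2 fun h => hp (haniso p h)
  let gW : (Fin m → F) →ₗ[F] Sp F m P :=
    (g : Sp F m P ≃ₗ[F] Sp F m P).toLinearMap ∘ₗ LinearMap.inl F (Fin m → F) (P × (Fin m → F))
  let A0 : (Fin m → F) →ₗ[F] (Fin m → F) := LinearMap.fst F (Fin m → F) (P × (Fin m → F)) ∘ₗ gW
  let f1 : (Fin m → F) →ₗ[F] (Fin m → F) :=
    LinearMap.snd F P (Fin m → F) ∘ₗ LinearMap.snd F (Fin m → F) (P × (Fin m → F)) ∘ₗ gW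
  have hp1 : ∀ e, A0 e = 0 → (gW e).2.1 = 0 := fun e he => by
    refine haniso _ ?_
    have h := orth_apply g (eW e)
    rw [form_apply, form_apply] at h
    change (A0 e) ⬝ᵥ _ + Q₀ _ = _ at h
    simpa [he, gW, eW, Prod.mk_zero_zero] using h
  have hker : ∀ e, A0 e = 0 → f1 e = 0 → e = 0 := fun e he hf => by
    have h0 : gW e = 0 := Prod.ext he (Prod.ext (hp1 e he) hf)
    have : eW (P := P) e = 0 :=
      (g : Sp F m P ≃ₗ[F] Sp F m P).injective (by rw [map_zero]; exact h0)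
    exact congrArg Prod.fst this
  have hperp : ∀ e e', A0 e' = 0 → A0 e ⬝ᵥ f1 e' = 0 := fun e e' he' => by
    have h := polar_apply g (eW e) (eW e')
    rw [polar_form, polar_form] at h
    change A0 e ⬝ᵥ f1 e' + A0 e' ⬝ᵥ _ + polar Q₀ _ (gW e').2.1 = _ at h
    simpa [he', hp1 e' he', eW, polar_zero_right] using h
  set k := Module.finrank F (LinearMap.ker A0) with hk
  let bK : (Fin k → F) ≃ₗ[F] LinearMap.ker A0 := (Module.finBasis F (LinearMap.ker A0)).equivFun.symm
  let φ : (Fin k → F) →ₗ[F] (Fin m → F) := f1 ∘ₗ (LinearMap.ker A0).subtype ∘ₗ bK.toLinearMap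
  have hφ : LinearMap.ker φ = ⊥ := LinearMap.ker_eq_bot'.2 fun y hy => by
    have h := hker (bK y) (bK y).2 hy
    exact bK.injective (by rw [map_zero]; exact Subtype.ext h)
  obtain ⟨ρ, hρ⟩ := LinearMap.exists_leftInverse_of_injective φ hφ
  have hρ' : ∀ y, ρ (φ y) = y := fun y => LinearMap.congr_fun hρ y
  obtain ⟨lam, M, hM, hMinj⟩ := exists_quad_inj k hQp
  let s : (Fin m → F) →ₗ[F] P := (LinearMap.toSpanSingleton F P p) ∘ₗ lam ∘ₗ ρ
  let R : Matrix (Fin k) (Fin m) F := LinearMap.toMatrix' ρ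
  have hR : ∀ f, R *ᵥ f = ρ f := fun f => by rw [← Matrix.toLin'_apply, Matrix.toLin'_toMatrix']
  let X : Matrix (Fin m) (Fin m) F := Rᵀ * M * R
  have hXb : ∀ f f', f' ⬝ᵥ (X *ᵥ f) = ρ f' ⬝ᵥ (M *ᵥ ρ f) := fun f f' => by
    rw [← mulVec_mulVec, ← mulVec_mulVec, dotProduct_mulVec, vecMul_transpose, hR, hR]
  have hX : ∀ f, f ⬝ᵥ (X *ᵥ f) = -Q₀ (s f) := fun f => by
    rw [hXb, hM]
    simp [s, QuadraticMap.map_smul]
    ring
  refine ⟨upEl s X hX, upEl_mem s X hX, ?_⟩
  let T : (Fin m → F) →ₗ[F] (Fin m → F) :=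
    LinearMap.fst F (Fin m → F) (P × (Fin m → F)) ∘ₗ (upEl s X hX : Sp F m P ≃ₗ[F] Sp F m P).toLinearMap ∘ₗ gW
  have hT : ∀ e, T e = A0 e + X *ᵥ f1 e - beta Q₀ s (gW e).2.1 := fun e => by
    show ((upEl s X hX : Sp F m P ≃ₗ[F] Sp F m P) (gW e)).1 = _
    rw [upEl_apply]
    rfl
  have hinj : Function.Injective T := by
    rw [injective_iff_map_eq_zero]
    intro e he
    rw [hT] at he
    set q := (gW e).2.1
    let lv : Fin k → F := fun i => lam (Pi.single i 1)
    have hlv : ∀ y, lam y = lv ⬝ᵥ y := fun y => by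
      conv_lhs => rw [pi_eq_sum_univ' y, map_sum]
      simp [lv, dotProduct, mul_comm]
    have hw : M *ᵥ ρ (f1 e) - polar Q₀ q p • lv = 0 := by
      refine dotProduct_eq _ _ fun y => ?_
      rw [zero_dotProduct, sub_dotProduct, smul_dotProduct, ← hlv]
      have h := congrArg (fun v => v ⬝ᵥ φ y) he
      simp only [sub_dotProduct, add_dotProduct, zero_dotProduct, beta_dotProduct] at h
      rw [dotProduct_comm (X *ᵥ f1 e), hXb, hρ',
        show A0 e ⬝ᵥ φ y = 0 from hperp e _ (bK y).2] at h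
      simp [s, hρ', polar_smul_right] at h
      rw [dotProduct_comm, smul_eq_mul]
      linear_combination h
    have hA0 : A0 e = 0 := by
      refine dotProduct_eq _ _ fun f => ?_
      rw [zero_dotProduct]
      have h := congrArg (fun v => v ⬝ᵥ f) he
      simp only [sub_dotProduct, add_dotProduct, zero_dotProduct, beta_dotProduct] at h
      rw [dotProduct_comm (X *ᵥ f1 e), hXb] at h
      have h2 := congrArg (fun v => v ⬝ᵥ ρ f) hw
      simp only [sub_dotProduct, smul_dotProduct, zero_dotProduct, ← hlv, smul_eq_mul] at h2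
      simp [s, polar_smul_right] at h
      rw [dotProduct_comm (M *ᵥ ρ (f1 e))] at h2
      linear_combination h - h2
    have hq : q = 0 := hp1 e hA0
    rw [hq, polar_zero_left, zero_smul, sub_zero] at hw
    have hρe : ρ (f1 e) = 0 := hMinj _ hw
    refine hker e hA0 ?_
    have hφe : φ (bK.symm ⟨e, hA0⟩) = f1 e := by simp [φ]
    rw [← hφe] at hρe ⊢
    rw [hρ'] at hρe
    rw [hρe, map_zero]
  let Te : (Fin m → F) ≃ₗ[F] (Fin m → F) := LinearEquiv.ofInjectiveEndo T hinj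
  refine ⟨Matrix.GeneralLinearGroup.toLin.symm (LinearMap.GeneralLinearGroup.ofLinearEquiv Te), fun e => ?_⟩
  rw [conj_up_eW (upEl_mem s X hX)]
  show T e = _
  rw [← glEquiv_apply]
  simp [glEquiv, Te, LinearMap.GeneralLinearGroup.generalLinearEquiv]

/-- Conjugating `lower * Levi * upper` by a rank-one element of the radical. -/
theorem rank_one_step {w : Fin m → F} {p : P} {s : (Fin m → F) →ₗ[F] P}
    {X : Matrix (Fin m) (Fin m) F} (hX : ∀ f, f ⬝ᵥ (X *ᵥ f) = -Q₀ (s f)) (hQ : Nondeg Q₀)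
    (hδ : 1 + Q₀ p * Q₀ (s w) - polar Q₀ (s w) p ≠ 0) :
    ∃ (s' : (Fin m → F) →ₗ[F] P) (X' : Matrix (Fin m) (Fin m) F)
      (hX' : ∀ f, f ⬝ᵥ (X' *ᵥ f) = -Q₀ (s' f)) (A' : GL (Fin m) F) (R' : orth Q₀)
      (u u' : orth (form m Q₀)), u ∈ up m Q₀ ∧ u' ∈ up m Q₀ ∧
        u * lowEl s X hX = lowEl s' X' hX' * lev (A', R') * u' ∧
        (∀ e, (A' : Matrix (Fin m) (Fin m) F) *ᵥ e
          = e + (-Q₀ p * (w ⬝ᵥ (X *ᵥ e)) - polar Q₀ (s e) p) • w) ∧
        (A' : Matrix (Fin m) (Fin m) F).det = 1 + Q₀ p * Q₀ (s w) - polar Q₀ (s w) p ∧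
        (∀ e, s' ((A' : Matrix (Fin m) (Fin m) F) *ᵥ e) = s e + (w ⬝ᵥ (X *ᵥ e)) • p) ∧
        ∀ z, (R' : P ≃ₗ[F] P) z = z - polar Q₀ z (s w) • p -
          ((Q₀ p * polar Q₀ z (s w) - polar Q₀ z p) / (1 + Q₀ p * Q₀ (s w) - polar Q₀ (s w) p)) •
            (s w - Q₀ (s w) • p) := by
  set δ := 1 + Q₀ p * Q₀ (s w) - polar Q₀ (s w) p with hδd
  let wl : (Fin m → F) →ₗ[F] F :=
    { toFun := fun f => w ⬝ᵥ f, map_add' := fun _ _ => dotProduct_add _ _ _,
      map_smul' := fun c f => by simp [dotProduct_smul] }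
  let su : (Fin m → F) →ₗ[F] P := (LinearMap.toSpanSingleton F P p) ∘ₗ wl
  let Xu : Matrix (Fin m) (Fin m) F := (-Q₀ p) • vecMulVec w w
  have hXu' : ∀ f, Xu *ᵥ f = (-Q₀ p * (w ⬝ᵥ f)) • w := fun f => by
    simp [Xu, smul_mulVec, neg_mulVec, vecMulVec_mulVec, smul_smul]
  have hsu : ∀ f, su f = (w ⬝ᵥ f) • p := fun f => rfl
  have hXu : ∀ f, f ⬝ᵥ (Xu *ᵥ f) = -Q₀ (su f) := fun f => by
    rw [hXu', hsu, dotProduct_smul, QuadraticMap.map_smul, dotProduct_comm f w, smul_eq_mul, smul_eq_mul]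
    ring
  have hbu : ∀ z, beta Q₀ su z = polar Q₀ z p • w := fun z => funext fun i => by
    simp [beta, hsu, polar_smul_right, mul_comm]
  let u : orth (form m Q₀) := upEl su Xu hXu
  let φv : Fin m → F := (-Q₀ p) • (w ᵥ* X) - beta Q₀ s p
  have hφ : ∀ e, φv ⬝ᵥ e = -Q₀ p * (w ⬝ᵥ (X *ᵥ e)) - polar Q₀ (s e) p := fun e => by
    rw [sub_dotProduct, smul_dotProduct, ← dotProduct_mulVec, beta_dotProduct, smul_eq_mul,
      polar_comm _ p (s e)]
  have hφw : 1 + φv ⬝ᵥ w = δ := by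
    rw [hφ, hX, hδd]; ring
  let Am : Matrix (Fin m) (Fin m) F := 1 + vecMulVec w φv
  have hAm : ∀ e, Am *ᵥ e = e + (φv ⬝ᵥ e) • w := fun e => by
    simp [Am, add_mulVec, vecMulVec_mulVec]
  have hdet : Am.det = δ := by
    rw [← hφw]
    simp only [Am]
    rw [vecMulVec_eq Unit, Matrix.det_one_add_replicateCol_mul_replicateRow]
  let A' : GL (Fin m) F := Matrix.GeneralLinearGroup.mkOfDetNeZero Am (by rw [hdet]; exact hδ)
  have hA' : (A' : Matrix (Fin m) (Fin m) F) = Am := rfl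
  let L : orth (form m Q₀) := lowEl s X hX
  have hLe : ∀ e, ((u * L : orth (form m Q₀)) : Sp F m P ≃ₗ[F] Sp F m P) (eW e) =
      (Am *ᵥ e, s e + (w ⬝ᵥ (X *ᵥ e)) • p, X *ᵥ e) := fun e => by
    rw [orth_mul_apply, lowEl_apply, upEl_apply]
    simp only [eW, zero_add, beta_zero, sub_zero, hXu', hsu, hbu, hAm, hφ]
    refine Prod.ext ?_ rfl
    module
  obtain ⟨s', X', hX', R', u', hu', he, hs'⟩ := exists_ldu hQ (u * L) A' (fun e => by
    rw [hLe, hA'])
  refine ⟨s', X', hX', A', R', u, u', upEl_mem _ _ _, hu', he, fun e => ?_, ?_, fun e => ?_, fun z => ?_⟩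
  · rw [hA', hAm, hφ]
  · rw [hA', hdet]
  · rw [hs', hLe]
  · set c := Q₀ p * polar Q₀ z (s w) - polar Q₀ z p with hc
    have h1 : ((u * L : orth (form m Q₀)) : Sp F m P ≃ₗ[F] Sp F m P) (eP z) =
        (c • w, z - polar Q₀ z (s w) • p, -beta Q₀ s z) := by
      rw [orth_mul_apply, lowEl_apply, upEl_apply]
      have hwb : w ⬝ᵥ beta Q₀ s z = polar Q₀ z (s w) := by rw [dotProduct_comm, beta_dotProduct]
      simp only [eP, map_zero, add_zero, mulVec_zero, zero_sub, hXu', hsu, hbu, dotProduct_neg, hwb]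
      refine Prod.ext ?_ (Prod.ext ?_ rfl)
      · rw [hc]; module
      · module
    obtain ⟨hu1, hu2⟩ := hu'
    set y := (u' : Sp F m P ≃ₗ[F] Sp F m P) (eP z) with hy
    have hy3 : y.2.2 = 0 := by rw [hy, thd_eq hu1]
    have hye : y = (y.1, z, (0 : Fin m → F)) := Prod.ext rfl (Prod.ext (hu2 z) hy3)
    have h2 : ((u * L : orth (form m Q₀)) : Sp F m P ≃ₗ[F] Sp F m P) (eP z) =
        (lowEl s' X' hX' : Sp F m P ≃ₗ[F] Sp F m P)
          ((A' : Matrix (Fin m) (Fin m) F) *ᵥ y.1, (R' : P ≃ₗ[F] P) z, 0) := by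
      rw [he, orth_mul_apply, orth_mul_apply, ← hy, hye, lev_apply]
      simp
    rw [h1, lowEl_apply] at h2
    simp only [Prod.mk.injEq] at h2
    obtain ⟨h3, h4, -⟩ := h2
    have hy1 : y.1 = (c / δ) • w := by
      have hinj : Function.Injective ((A' : Matrix (Fin m) (Fin m) F) *ᵥ ·) := fun a b hab => by
        have := congrArg (((A'⁻¹ : GL (Fin m) F) : Matrix (Fin m) (Fin m) F) *ᵥ ·) hab
        simpa [mulVec_mulVec] using this
      apply hinj
      show (A' : Matrix (Fin m) (Fin m) F) *ᵥ y.1 = (A' : Matrix (Fin m) (Fin m) F) *ᵥ ((c / δ) • w)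
      rw [← h3, mulVec_smul, hA', hAm]
      have : w + (φv ⬝ᵥ w) • w = δ • w := by rw [← hφw]; module
      rw [this, smul_smul, div_mul_cancel₀ c hδ]
    rw [hs', hLe, hy1] at h4
    simp only [map_smul, mulVec_smul, dotProduct_smul, hX] at h4
    rw [smul_eq_mul] at h4
    linear_combination (norm := module) -h4

end CfsgLib.OreOrth.Minus
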